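import Cfsg.Agent.H42.PcDefs

/-! Project PC: conjugacy inside the normaliser of the Sylow subgroup. -/

set_option autoImplicit false

namespace Cfsg.Agent.H9.PcNc

open Subgroup Cfsg.Agent.H42.Pc

universe u

theorem zp_conj {G : Type u} [Group G] {a b : G} (h : zpowers a = zpowers b) (c : G) :
    zpowers (c * a * c⁻¹) = zpowers (c * b * c⁻¹) := by
  have := congrArg (Subgroup.map (MulAut.conj c).toMonoidHom) h
  rwa [MonoidHom.map_zpowers, MonoidHom.map_zpowers] at this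

theorem nc (syl : SylStmt.{u}) (nf : NfStmt.{u}) : NcStmt.{u} := by
  intro G _ _ S hS T h1 hT y hy y' hy' n1 n2 t1 t2
  haveI : Fact (Nat.Prime 2) := ⟨Nat.prime_two⟩
  have two : ∀ a : G, a * a ∈ T → Two a := fun a ha => by
    obtain ⟨k, hk⟩ := hT.2.1 ⟨_, ha⟩
    refine ⟨k + 1, ?_⟩
    rw [pow_succ', pow_mul, sq]
    exact congrArg Subtype.val hk
  obtain ⟨g, hg⟩ := h1 y y' (two y t1) (two y' t2) n1 n2 (hT.1 t1) (hT.1 t2)
  have fr := Sylow.normalizer_sup_eq_top ((hT.2.1.comap_subtype (K := S)).toSylow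
    (fun h => (Nat.not_even_iff_odd.2 hT.2.2) (even_iff_two_dvd.2 h)))
  have e : ((T.comap S.subtype).map S.subtype) = T := by
    rw [map_comap_eq, range_subtype, inf_eq_right.2 hT.1]
  rw [IsPGroup.toSylow_coe, e, sup_comm] at fr
  have hg' : g ∈ ((S ⊔ normalizer (T : Set G) : Subgroup G) : Set G) := fr ▸ mem_top g
  rw [normal_mul] at hg'
  obtain ⟨s, hs, n, hn, rfl⟩ := hg'
  have y2 : s⁻¹ * y' * s ∈ normalizer (T : Set G) := by
    have h2 := zp_conj hg s⁻¹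
    have h3 : s⁻¹ * y' * s⁻¹⁻¹ ∈ zpowers (s⁻¹ * (s * n * y * (s * n)⁻¹) * s⁻¹⁻¹) :=
      h2 ▸ mem_zpowers _
    rw [inv_inv, show s⁻¹ * (s * n * y * (s * n)⁻¹) * s = n * y * n⁻¹ by group] at h3
    exact zpowers_le.2 (mul_mem (mul_mem hn hy) (inv_mem hn)) h3
  have le : T ≤ S ⊓ normalizer (T : Set G) := le_inf hT.1 le_normalizer
  obtain ⟨s', hs', h4⟩ := syl G (S ⊓ normalizer (T : Set G)) T y' ⟨le, hT.2.1,
      hT.2.2.of_dvd_nat ⟨_, (relIndex_mul_relIndex _ _ _ le inf_le_left).symm⟩⟩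
    (mem_normalizer_iff.2 fun a => ⟨fun ha => ⟨hS.conj_mem a ha.1 y',
      Subgroup.mul_mem _ (Subgroup.mul_mem _ hy' ha.2) (Subgroup.inv_mem _ hy')⟩, fun ha => ⟨by
        simpa [mul_assoc] using hS.conj_mem _ ha.1 y'⁻¹, by
        simpa [mul_assoc] using mul_mem (mul_mem (inv_mem hy') ha.2) hy'⟩⟩) hy' (two y' t2)
    (s⁻¹ * y' * s) ⟨by
      simpa [mul_assoc] using mul_mem (hS.conj_mem _ (inv_mem hs) y'⁻¹) hs,
      Subgroup.mul_mem _ (Subgroup.inv_mem _ hy') y2⟩ (by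
      obtain ⟨k, hk⟩ := two y' t2
      refine ⟨k, ?_⟩
      have := conj_pow (i := 2 ^ k) (a := s⁻¹) (b := y')
      rw [inv_inv] at this
      rw [this, hk]; simp)
  obtain ⟨w, hw, h5⟩ := nf G S T y' h1 hT hy' n2 t2 (s' * s⁻¹) (mul_mem hs'.1 (inv_mem hs))
    (by simpa [mul_assoc] using h4)
  refine ⟨w⁻¹ * s' * n, mul_mem (mul_mem (inv_mem (le_normalizer hw)) hs'.2) hn, ?_⟩
  have h6 := zp_conj hg (w⁻¹ * (s' * s⁻¹))
  rw [show w⁻¹ * (s' * s⁻¹) * y' * (w⁻¹ * (s' * s⁻¹))⁻¹ =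
    w⁻¹ * (s' * s⁻¹ * y' * (s' * s⁻¹)⁻¹) * w by group, ← h5] at h6
  convert h6 using 2 <;> group

end Cfsg.Agent.H9.PcNc
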