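import Mathlib
import Cfsg.Prelude.Def_CaseTheorems
import Cfsg.Prelude.Def_Sz
import Cfsg.Prelude.Def_Spor_Mathieu

/-!
Simple groups with at most eleven conjugacy classes (`stubs/notes/h9_kc.md`): the class data,
the properties used by the class equation search, and the interfaces.
-/

set_option autoImplicit false

namespace Cfsg.Agent.H9.KC

open Finset

universe u

section Data

variable {ι : Type*} [Fintype ι] (N : ℕ) (o c : ι → ℕ)

/-- The number of classes of elements of order `q`. -/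
def mC (q : ℕ) : ℕ := #{i | o i = q}

/-- The number of classes of elements of order divisible by `q`. -/
def sC (q : ℕ) : ℕ := #{i | q ∣ o i}

/-- The number of involutions. -/
def tot : ℕ := ∑ i ∈ univ.filter (fun i => o i = 2), N / c i

/-- Properties of every finite group, I. -/
structure A1 : Prop where
  pos : 0 < N
  sum : ∑ i, N / c i = N
  dvd : ∀ i, c i ∣ N
  od : ∀ i, o i ∣ c i
  one : ∃ i, o i = 1 ∧ c i = N ∧ ∀ j, o j = 1 → j = i
  pow : ∀ i d, d ∣ o i → ∃ j, o j = d ∧ c i ∣ c j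
  ext : ∀ i q, q.Prime → q ∣ c i → ¬ q ∣ o i → ∃ j, o j = q * o i ∧ c j ∣ c i ∧ ¬ q ∣ c i / c j
  sq : ∀ i q, q.Prime → (∀ r, r.Prime → r ∣ o i → r = q) → q * q ∣ N → q * q ∣ c i
  frob : ∀ n, n ∣ N → n ∣ ∑ i ∈ univ.filter (fun i => o i ∣ n), N / c i

/-- Primes: rational classes, Sylow subgroups of prime order. -/
structure A2 : Prop where
  gal : ∀ q, q.Prime → q ≠ 2 → q ∣ N → ∃ m e, m * e + 1 = q ∧ m ≤ mC o q ∧
    (∀ d, d ∣ e → ∃ j, o j = d) ∧ (¬ q * q ∣ N → 2 ≤ e ∧ mC o q = m)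
  same : ∀ q, q.Prime → ¬ q * q ∣ N → ∀ i j, o i = q → o j = q → c i = c j
  sing : ∀ q, q.Prime → ¬ q * q ∣ N →
    q * ∑ i ∈ univ.filter (fun i => q ∣ o i), N / c i = mC o q * N
  inj : ∀ q, q.Prime → ¬ q * q ∣ N → #{i | o i ≠ 1 ∧ ¬ q ∣ o i ∧ q ∣ c i} + mC o q ≤ sC o q

/-- Involutions. -/
structure A3 : Prop where
  six : #{i | o i = 6 ∧ c i = 6} ≤ #{i | o i = 3 ∧ 2 ∣ c i ∧ ¬ 4 ∣ c i}
  bf : tot N o c * tot N o c ≤ tot N o c + (Fintype.card ι - 1) * N
  lb : ∀ p e, p.Prime → p ≠ 2 → ¬ p * p ∣ N → sC o p = mC o p → mC o p * e + 1 = p → Even e →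
    mC o p * N ≤ tot N o c * tot N o c
  ab : (∀ i, o i ≠ 4) → ∀ i, o i = 2 → ¬ 2 ∣ N / c i

/-- Consequences of the theorems of Gorenstein-Walter, Feit-Thompson, Burnside and S3251. -/
structure A4 : Prop where
  h8 : ∀ i, o i ≠ 1 → (∀ r, r.Prime → r ∣ o i → r = 2) → 8 ∣ c i
  c3 : ∀ i, c i ≠ 3
  e2 : ∀ p, p.Prime → p ≠ 2 → ¬ p * p ∣ N → sC o p = mC o p → 2 * mC o p + 1 = p →
    (∀ r, r.Prime → r ∣ N → r = p ∨ r ≤ 7) → N = 20160
  two : 2 ∣ N
  three : ∃ p q, p.Prime ∧ q.Prime ∧ 2 < p ∧ p < q ∧ p ∣ N ∧ q ∣ N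

/-- Orders below `2 * 10 ^ 12` in the list of `H58.Ord7`, except `L₂(q)`, `720` and `2520`. -/
def ordList : List ℕ := [72, 168, 5616, 6048, 7920, 12096, 20160, 25920, 29120, 62400, 95040,
  126000, 175560, 181440, 372000, 443520, 604800, 1814400, 1876896, 3265920, 4245696, 4680000,
  5663616, 6065280, 10200960, 19958400, 42456960, 42573600, 50232960, 70915680, 212427600,
  270178272, 811273008, 898128000, 2317678272, 5644682640, 5859000000, 7254000000, 10073444472,
  12860654400, 14742000000, 16938986400, 26056457856, 50778000000, 68518981440, 78156525216,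
  152353500000, 166557358800, 282027786768, 282056445216, 283991644800, 499631102880,
  1169948144736]

/-- Facts on four known groups. -/
structure A5 : Prop where
  m11 : N = 7920 → ∀ i, c i ≠ 16
  sz : N = 29120 → ∀ i, c i ≠ 8
  l34 : N = 20160 → ∀ i, (∀ r, r.Prime → r ∣ o i → r = 2) → 16 ∣ c i ∧ (32 ∣ c i → 64 ∣ c i)
  u33 : N = 6048 → ∃ i, o i = 12

end Data

/-- The outcome of the search. -/
def Out (k N : ℕ) : Prop := N = 10752 ∨ N = 21504 ∨ N = 86016 ∨ N = 30720 ∨
  (k = 10 ∧ (N = 7920 ∨ N = 20160)) ∨ (k = 11 ∧ N = 29120)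

/-- The arithmetic search. -/
def ArithStmt : Prop := ∀ (ι : Type u) [Fintype ι] (N : ℕ) (o c : ι → ℕ), Fintype.card ι ≤ 11 →
  A1 N o c → A2 N o c → A3 N o c → A4 N o c → A5 N o c →
  (¬ 256 ∣ N → N ∈ ordList ∨ 2 * 10 ^ 12 ≤ N) → Out (Fintype.card ι) N

section Grp

variable {G : Type*} [Group G]

/-- The order of the elements of a class. -/
noncomputable def co (C : ConjClasses G) : ℕ := orderOf (Quotient.out C : G)

/-- The order of the centralizer of the elements of a class. -/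
noncomputable def cc (C : ConjClasses G) : ℕ :=
  Nat.card (Subgroup.centralizer ({(Quotient.out C : G)} : Set G))

theorem isConj_out (x : G) : IsConj (Quotient.out (ConjClasses.mk x) : G) x :=
  ConjClasses.mk_eq_mk_iff_isConj.1 (Quotient.out_eq _)

theorem co_mk (x : G) : co (ConjClasses.mk x) = orderOf x := by
  obtain ⟨g, hg⟩ := isConj_iff.1 (isConj_out x)
  rw [co]
  generalize (Quotient.out (ConjClasses.mk x) : G) = y at hg
  subst hg
  exact ((MulAut.conj g).orderOf_eq _).symm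

theorem cc_mk (x : G) :
    cc (ConjClasses.mk x) = Nat.card (Subgroup.centralizer ({x} : Set G)) := by
  obtain ⟨g, hg⟩ := isConj_iff.1 (isConj_out x)
  rw [cc]
  generalize (Quotient.out (ConjClasses.mk x) : G) = y at hg
  subst hg
  refine Nat.card_congr ⟨fun a => ⟨g * a * g⁻¹, ?_⟩, fun a => ⟨g⁻¹ * a * g, ?_⟩, fun a => ?_,
    fun a => ?_⟩
  · have := Subgroup.mem_centralizer_singleton_iff.1 a.2
    rw [Subgroup.mem_centralizer_singleton_iff]
    calc g * a * g⁻¹ * (g * y * g⁻¹) = g * (a * y) * g⁻¹ := by group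
      _ = _ := by rw [this]; group
  · have := Subgroup.mem_centralizer_singleton_iff.1 a.2
    rw [Subgroup.mem_centralizer_singleton_iff]
    calc g⁻¹ * a * g * y = g⁻¹ * (a * (g * y * g⁻¹)) * g := by group
      _ = _ := by rw [this]; group
  · ext; simp [mul_assoc]
  · ext; simp [mul_assoc]

theorem card_class [Finite G] (C : ConjClasses G) :
    Nat.card G / cc C = Nat.card {g : G // ConjClasses.mk g = C} := by
  obtain ⟨x, rfl⟩ := ConjClasses.mk_surjective C
  have h := (MulAction.stabilizer (ConjAct G) x).index_mul_card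
  have h' : Nat.card (ConjAct G) = Nat.card G := Nat.card_congr ConjAct.ofConjAct.toEquiv
  have : Finite (ConjAct G) := Finite.of_equiv G ConjAct.toConjAct.toEquiv
  rw [cc_mk, Subgroup.nat_card_centralizer_nat_card_stabilizer, ← h', ← h,
    Nat.mul_div_cancel _ Nat.card_pos,
    MulAction.index_stabilizer, ConjAct.orbit_eq_carrier_conjClasses, ← Nat.card_coe_set_eq]
  exact Nat.card_congr (Equiv.subtypeEquivRight fun g => ConjClasses.mem_carrier_iff_mk_eq)

/-- Class sums count elements. -/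
theorem sum_cc [Finite G] [Fintype (ConjClasses G)] (P : ConjClasses G → Prop) [DecidablePred P] :
    ∑ C ∈ univ.filter P, Nat.card G / cc C = Nat.card {g : G // P (ConjClasses.mk g)} := by
  classical
  have := Fintype.ofFinite G
  rw [Nat.card_eq_fintype_card (α := {g : G // P (ConjClasses.mk g)}), Fintype.card_subtype,
    card_eq_sum_card_fiberwise (f := ConjClasses.mk) (t := univ.filter P)
      (fun g hg => by simpa using hg)]
  refine sum_congr rfl fun C hC => ?_
  rw [card_class, Nat.card_eq_fintype_card, Fintype.card_subtype]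
  congr 1
  ext g
  simp only [mem_filter, mem_univ, true_and] at hC ⊢
  exact ⟨fun h => ⟨h ▸ hC, h⟩, fun h => h.2⟩

end Grp

/-- `G` is a group `PSL₂(q)`. -/
def IsL2 (G : Type u) [Group G] : Prop := ∃ (F : Type) (_ : Field F) (_ : Fintype F),
  Nonempty (G ≃* Matrix.ProjectiveSpecialLinearGroup (Fin 2) F)

/-- `G` is the alternating group of degree 7. -/
def IsA7 (G : Type u) [Group G] : Prop := Nonempty (G ≃* alternatingGroup (Fin 7))

/-- `G` is `PSL₃(4)`. -/
def IsL34 (G : Type u) [Group G] : Prop := ∃ (F : Type) (_ : Field F) (_ : Fintype F),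
  Fintype.card F = 4 ∧ Nonempty (G ≃* Matrix.ProjectiveSpecialLinearGroup (Fin 3) F)

/-- `G` is `Sz(8)`. -/
def IsSz8 (G : Type u) [Group G] : Prop := ∃ (F : Type) (_ : Field F) (_ : Fintype F),
  Fintype.card F = 8 ∧ Nonempty (G ≃* ↥(Cfsg.Lie.Sz F 4))

/-- `G` is `PSU₃(3)`. -/
def IsU33 (G : Type u) [Group G] : Prop := ∃ (F : Type) (_ : Field F) (_ : Fintype F),
  Fintype.card F = 9 ∧ Nonempty (G ≃* Cfsg.PSU 3 F 3)

def A1Stmt : Prop := ∀ (G : Type u) [Group G] [Finite G] [Fintype (ConjClasses G)],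
  A1 (Nat.card G) (co (G := G)) cc

def A2Stmt : Prop := ∀ (G : Type u) [Group G] [Finite G] [Fintype (ConjClasses G)]
  [IsSimpleGroup G], ¬ IsMulCommutative G → A2 (Nat.card G) (co (G := G)) cc

def A3Stmt : Prop := ∀ (G : Type u) [Group G] [Finite G] [Fintype (ConjClasses G)],
  A3 (Nat.card G) (co (G := G)) cc

/-- Every nontrivial `2`-element has a centralizer of order divisible by 8. -/
def H8Stmt : Prop := ∀ (G : Type u) [Group G] [Finite G] [IsSimpleGroup G],
  ¬ IsMulCommutative G → ¬ IsL2 G → ¬ IsA7 G → ∀ (x : G) (n : ℕ), x ≠ 1 → x ^ 2 ^ n = 1 →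
    8 ∣ Nat.card (Subgroup.centralizer ({x} : Set G))

def A4Stmt : Prop := ∀ (G : Type u) [Group G] [Finite G] [Fintype (ConjClasses G)]
  [IsSimpleGroup G], ¬ IsMulCommutative G → ¬ IsL2 G → ¬ IsA7 G → A4 (Nat.card G) (co (G := G)) cc

/-- Orders and identification from `Small7`. -/
def S7Stmt : Prop := ∀ (G : Type u) [Group G] [Finite G] [IsSimpleGroup G],
  ¬ IsMulCommutative G → ¬ IsL2 G → ¬ IsA7 G →
    (¬ 256 ∣ Nat.card G → Nat.card G ∈ ordList ∨ 2 * 10 ^ 12 ≤ Nat.card G) ∧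
    (Nat.card G = 7920 → Cfsg.Spor.IsoM11 G) ∧ (Nat.card G = 29120 → IsSz8 G) ∧
    (Nat.card G = 6048 → IsU33 G) ∧
    (Nat.card G = 20160 → IsL34 G ∨ Nonempty (G ≃* alternatingGroup (Fin 8)))

def KL2Stmt : Prop := ∀ (F : Type) [Field F] [Fintype F],
  (Odd (Fintype.card F) → 2 * Nat.card (ConjClasses (Matrix.ProjectiveSpecialLinearGroup (Fin 2) F))
    = Fintype.card F + 5) ∧
  (Even (Fintype.card F) → Nat.card (ConjClasses (Matrix.ProjectiveSpecialLinearGroup (Fin 2) F))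
    = Fintype.card F + 1)

def KAltStmt : Prop := Nat.card (ConjClasses (alternatingGroup (Fin 7))) ≤ 9 ∧
  12 ≤ Nat.card (ConjClasses (alternatingGroup (Fin 8)))

def FM11Stmt : Prop := ∀ (G : Type u) [Group G], Cfsg.Spor.IsoM11 G → ∀ x : G,
  Nat.card (Subgroup.centralizer ({x} : Set G)) ≠ 16

def FSzStmt : Prop := ∀ (G : Type u) [Group G], IsSz8 G → ∀ x : G,
  Nat.card (Subgroup.centralizer ({x} : Set G)) ≠ 8

def FL34Stmt : Prop := ∀ (G : Type u) [Group G], IsL34 G → ∀ (x : G) (n : ℕ), x ^ 2 ^ n = 1 →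
  16 ∣ Nat.card (Subgroup.centralizer ({x} : Set G)) ∧
    (32 ∣ Nat.card (Subgroup.centralizer ({x} : Set G)) →
      64 ∣ Nat.card (Subgroup.centralizer ({x} : Set G)))

def FU33Stmt : Prop := ∀ (G : Type u) [Group G], IsU33 G → ∃ x : G, orderOf x = 12

/-- No simple group has order `2 ^ a * 21` with `8 ≤ a`, or order `2 ^ 11 * 15`. -/
def KillStmt : Prop := ∀ (G : Type u) [Group G] [Finite G] [IsSimpleGroup G],
  Nat.card G ≠ 10752 ∧ Nat.card G ≠ 21504 ∧ Nat.card G ≠ 86016 ∧ Nat.card G ≠ 30720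

/-- The simple groups with at most eleven classes. -/
def MainStmt : Prop := ∀ (G : Type u) [Group G] [Finite G] [IsSimpleGroup G],
  ¬ IsMulCommutative G → Nat.card (ConjClasses G) ≤ 11 → IsL2 G ∨ IsA7 G ∨
    (Nat.card (ConjClasses G) = 10 ∧ (Cfsg.Spor.IsoM11 G ∨ IsL34 G)) ∨
    (Nat.card (ConjClasses G) = 11 ∧ IsSz8 G)

end Cfsg.Agent.H9.KC
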