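import Cfsg.Agent.H50.E83Defs

/-! Project E83, piece BR: the dimension of the fixed space of a `2`-group in odd characteristic. -/

set_option autoImplicit false

namespace Cfsg.Agent.H9.E83B

open Module Cfsg.Agent.H50.E83

section Gen

variable {F M : Type*} [Field F] [AddCommGroup M] [Module F M] [FiniteDimensional F M]

theorem fr_split (h2 : (2 : F) ≠ 0) (z : End F M) (U : Submodule F M) (hU : ∀ v ∈ U, z v ∈ U)
    (hz : ∀ v ∈ U, z (z v) = v) :
    finrank F U = finrank F (U ⊓ z.eigenspace 1 : Submodule F M) +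
      finrank F (U ⊓ z.eigenspace (-1) : Submodule F M) := by
  have h1 : (U ⊓ z.eigenspace 1) ⊓ (U ⊓ z.eigenspace (-1)) = ⊥ := by
    rw [eq_bot_iff]
    rintro v ⟨⟨-, a⟩, -, b⟩
    have a' := End.mem_eigenspace_iff.1 a
    have b' := End.mem_eigenspace_iff.1 b
    have : (2 : F) • v = 0 := by
      rw [two_smul]
      rw [a', one_smul, neg_one_smul] at b'
      exact add_eq_zero_iff_eq_neg.2 b'
    exact (smul_eq_zero.1 this).resolve_left h2
  have h3 : (U ⊓ z.eigenspace 1) ⊔ (U ⊓ z.eigenspace (-1)) = U := by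
    refine le_antisymm (sup_le inf_le_left inf_le_left) fun v hv => ?_
    have e : v = (2 : F)⁻¹ • (v + z v) + (2 : F)⁻¹ • (v - z v) := by
      rw [← smul_add, add_add_sub_cancel, ← two_smul F v, smul_smul, inv_mul_cancel₀ h2, one_smul]
    rw [e]
    refine Submodule.add_mem_sup (Submodule.smul_mem _ _ ⟨add_mem hv (hU v hv), ?_⟩)
      (Submodule.smul_mem _ _ ⟨sub_mem hv (hU v hv), ?_⟩)
    · exact End.mem_eigenspace_iff.2 (by rw [map_add, hz v hv, one_smul, add_comm])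
    · exact End.mem_eigenspace_iff.2 (by rw [map_sub, hz v hv, neg_one_smul, neg_sub])
  have := Submodule.finrank_sup_add_finrank_inf_eq (U ⊓ z.eigenspace 1) (U ⊓ z.eigenspace (-1))
  rw [h1, h3, finrank_bot, add_zero] at this
  exact this

/-- the trace-like invariant on a subspace -/
noncomputable def tw (W : Submodule F M) (A : End F M) : ℤ :=
  (finrank F (A.eigenspace 1 ⊓ W : Submodule F M) : ℤ) -
    finrank F (A.eigenspace (-1) ⊓ W : Submodule F M)

theorem exists_z {Γ : Type*} [Group Γ] [Finite Γ] (hΓ : IsPGroup 2 Γ) (N : Subgroup Γ) [N.Normal]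
    (hN : N ≠ ⊤) : ∃ z, z ∉ N ∧ z * z ∈ N ∧ ∀ g, (g * z)⁻¹ * (z * g) ∈ N := by
  haveI : Nontrivial (Γ ⧸ N) := QuotientGroup.nontrivial_iff.2 hN
  have hq := hΓ.to_quotient N
  haveI := hq.center_nontrivial
  obtain ⟨n, hn, hc⟩ := (hq.to_subgroup (Subgroup.center _)).nontrivial_iff_card.1 inferInstance
  obtain ⟨x, hx⟩ := exists_prime_orderOf_dvd_card' (G := Subgroup.center (Γ ⧸ N)) 2
    (hc ▸ dvd_pow_self 2 hn.ne')
  obtain ⟨z, hz⟩ := QuotientGroup.mk_surjective x.1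
  refine ⟨z, fun h => ?_, ?_, fun g => ?_⟩
  · have : x = 1 := Subtype.ext (by rw [← hz]; exact (QuotientGroup.eq_one_iff z).2 h)
    rw [this, orderOf_one] at hx
    omega
  · rw [← QuotientGroup.eq_one_iff, QuotientGroup.mk_mul, hz, ← Subgroup.coe_mul, ← sq, ← hx,
      pow_orderOf_eq_one, Subgroup.coe_one]
  · rw [← QuotientGroup.eq, QuotientGroup.mk_mul, QuotientGroup.mk_mul, hz]
    exact Subgroup.mem_center_iff.1 x.2 _

theorem sum_tw (h2 : (2 : F) ≠ 0) {Γ : Type*} [Group Γ] [Fintype Γ] (hΓ : IsPGroup 2 Γ)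
    (ρ : Γ →* End F M) (W : Submodule F M) (hW : ∀ g, ∀ v ∈ W, ρ g v ∈ W) :
    ∑ g, tw W (ρ g) =
      Fintype.card Γ * (finrank F ((⨅ g, (ρ g).eigenspace 1) ⊓ W : Submodule F M) : ℤ) := by
  induction hd : finrank F W using Nat.strong_induction_on generalizing W with
  | _ d ih =>
  have hm : ∀ a b v, ρ (a * b) v = ρ a (ρ b v) := fun a b v => by rw [map_mul]; rfl
  have h1 : ∀ v, ρ 1 v = v := fun v => by rw [map_one]; rfl
  let N : Subgroup Γ :=
    { carrier := {g | ∀ v ∈ W, ρ g v = v}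
      mul_mem' := fun {a b} ha hb v hv => by rw [hm, hb v hv, ha v hv]
      one_mem' := fun v _ => h1 v
      inv_mem' := fun {a} ha v hv => by
        conv_lhs => rw [← ha v hv]
        rw [← hm, inv_mul_cancel, h1] }
  haveI : N.Normal := ⟨fun a ha g v hv => by
    rw [hm, hm, ha _ (hW _ v hv), ← hm, mul_inv_cancel, h1]⟩
  by_cases hN : N = ⊤
  · have ht : ∀ g, ∀ v ∈ W, ρ g v = v := fun g => show g ∈ N from hN ▸ trivial
    have e1 : ∀ g, (ρ g).eigenspace 1 ⊓ W = W := fun g => inf_eq_right.2 fun v hv =>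
      End.mem_eigenspace_iff.2 (by rw [ht g v hv, one_smul])
    have e2 : ∀ g, (ρ g).eigenspace (-1) ⊓ W = ⊥ := fun g => eq_bot_iff.2 fun v hv => by
      have a := End.mem_eigenspace_iff.1 hv.1
      rw [ht g v hv.2, neg_one_smul] at a
      have : (2 : F) • v = 0 := by rw [two_smul]; exact add_eq_zero_iff_eq_neg.2 a
      exact (smul_eq_zero.1 this).resolve_left h2
    have e3 : (⨅ g, (ρ g).eigenspace 1) ⊓ W = W := inf_eq_right.2 (le_iInf fun g =>
      inf_eq_right.1 (e1 g))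
    have e4 : ∀ g, tw W (ρ g) = finrank F W := fun g => by
      rw [tw, e1, e2, finrank_bot, Nat.cast_zero, sub_zero]
    rw [e3]
    simp only [e4, Finset.sum_const, Finset.card_univ, nsmul_eq_mul]
  obtain ⟨z, hz, hzz, hzc⟩ := exists_z hΓ N hN
  have hc : ∀ g, ∀ v ∈ W, ρ z (ρ g v) = ρ g (ρ z v) := fun g v hv => by
    have := congrArg (ρ (g * z)) (hzc g v hv)
    rwa [← hm, mul_inv_cancel_left, hm, hm] at this
  have hz2 : ∀ v ∈ W, ρ z (ρ z v) = v := fun v hv => by rw [← hm]; exact hzz v hv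
  have hinv : ∀ (c : F) (g : Γ), ∀ v ∈ W ⊓ (ρ z).eigenspace c, ρ g v ∈ W ⊓ (ρ z).eigenspace c :=
    fun c g v hv => ⟨hW g v hv.1, End.mem_eigenspace_iff.2 (by
      rw [hc g v hv.1, End.mem_eigenspace_iff.1 hv.2, map_smul])⟩
  have hs : ∀ (c : F) (g : Γ), finrank F ((ρ g).eigenspace c ⊓ W : Submodule F M) =
      finrank F ((ρ g).eigenspace c ⊓ (W ⊓ (ρ z).eigenspace 1) : Submodule F M) +
      finrank F ((ρ g).eigenspace c ⊓ (W ⊓ (ρ z).eigenspace (-1)) : Submodule F M) := fun c g => by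
    rw [← inf_assoc, ← inf_assoc]
    refine fr_split h2 _ _ (fun v hv => ⟨End.mem_eigenspace_iff.2 ?_, hW z v hv.2⟩)
      fun v hv => hz2 v hv.2
    rw [← hc g v hv.2, End.mem_eigenspace_iff.1 hv.1, map_smul]
  have ht : ∀ g, tw W (ρ g) = tw (W ⊓ (ρ z).eigenspace 1) (ρ g) +
      tw (W ⊓ (ρ z).eigenspace (-1)) (ρ g) := fun g => by
    simp only [tw, hs]; push_cast; ring
  have hlt : finrank F (W ⊓ (ρ z).eigenspace 1 : Submodule F M) < d := by
    rw [← hd]
    refine Submodule.finrank_lt_finrank_of_lt (lt_of_le_of_ne inf_le_left fun h => hz fun v hv => ?_)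
    rw [← h] at hv
    rw [End.mem_eigenspace_iff.1 hv.2, one_smul]
  have hneg : ∀ (c : F) (g : Γ), (ρ (g * z)).eigenspace c ⊓ (W ⊓ (ρ z).eigenspace (-1)) =
      (ρ g).eigenspace (-c) ⊓ (W ⊓ (ρ z).eigenspace (-1)) := fun c g => by
    ext v
    simp only [Submodule.mem_inf, End.mem_eigenspace_iff]
    refine and_congr_left fun hv => ?_
    rw [hm, hv.2, neg_one_smul, map_neg, neg_smul, neg_eq_iff_eq_neg]
  have h0 : ∑ g, tw (W ⊓ (ρ z).eigenspace (-1)) (ρ g) = 0 := by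
    have e := Equiv.sum_comp (Equiv.mulRight z) fun g => tw (W ⊓ (ρ z).eigenspace (-1)) (ρ g)
    have : ∀ g, tw (W ⊓ (ρ z).eigenspace (-1)) (ρ (Equiv.mulRight z g)) =
        -tw (W ⊓ (ρ z).eigenspace (-1)) (ρ g) := fun g => by
      rw [tw, tw, Equiv.coe_mulRight, hneg, hneg, neg_neg, neg_sub]
    simp only [this, Finset.sum_neg_distrib] at e
    omega
  have hf : (⨅ g, (ρ g).eigenspace 1) ⊓ (W ⊓ (ρ z).eigenspace 1) = (⨅ g, (ρ g).eigenspace 1) ⊓ W :=
    le_antisymm (inf_le_inf_left _ inf_le_left)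
      (le_inf inf_le_left (le_inf inf_le_right (inf_le_left.trans (iInf_le _ z))))
  simp only [ht, Finset.sum_add_distrib, h0, add_zero]
  rw [ih _ hlt _ (hinv 1) rfl, hf]

end Gen

theorem br : BrStmt := by
  intro Γ _ _ hΓ φ χ
  have h2 : (2 : K) ≠ 0 := fun h => by
    have : ((2 : ℕ) : K) = 0 := by exact_mod_cast h
    exact absurd ((CharP.cast_eq_zero_iff K 3 2).1 this) (by decide)
  let ρ : Γ →* End K V :=
    { toFun := fun g => (((χ g : ℤˣ) : ℤ) : K) • act (φ g)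
      map_one' := by simp
      map_mul' := fun a b => by simp [smul_smul, mul_comm] }
  have he : ∀ (g : Γ) (c : K), (ρ g).eigenspace c = eig (φ g) (c * (((χ g : ℤˣ) : ℤ) : K)) :=
    fun g c => by
      ext v
      rw [End.mem_eigenspace_iff, mem_eig]
      change (((χ g : ℤˣ) : ℤ) : K) • act (φ g) v = _ ↔ _
      rcases Int.units_eq_one_or (χ g) with h | h <;> simp [h, neg_eq_iff_eq_neg]
  have := sum_tw h2 hΓ ρ ⊤ fun _ _ _ => trivial
  have e : (⨅ g, (ρ g).eigenspace 1) ⊓ ⊤ = ⨅ g, eig (φ g) (((χ g : ℤˣ) : ℤ) : K) := by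
    simp only [inf_top_eq, he, one_mul]
  rw [e] at this
  rw [← this]
  refine Finset.sum_congr rfl fun g _ => ?_
  rw [tw, inf_top_eq, inf_top_eq, he, he]
  change _ = (mu _ _ : ℤ) - mu _ _
  rcases Int.units_eq_one_or (χ g) with h | h <;> simp [h, tau]

end Cfsg.Agent.H9.E83B
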