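import Cfsg.Agent.H45.IvDefs

/-! Project CY, chapter IV: a fixed point free involution of a line is a translation. -/

set_option autoImplicit false

namespace Cfsg.Agent.H9.CyTra

open Subgroup MulAction Cfsg.Agent.H11.Cy Cfsg.Agent.H45.Iv
open scoped commutatorElement

theorem tra : TraStmt := by
  intro G _ _ Ω _ _ p A h _ ep sk ls z hz b hb hc
  obtain ⟨la, lb, -, -⟩ := ls b (z • b) hb.symm
  obtain ⟨l1, l2⟩ := sk.ln b (z • b)
  obtain ⟨r, hr, e⟩ := la.tr _ l2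
  have zf : ∀ t ∈ Zl A b (z • b), t • b = b := fun t ht => (ep.kfix _ _ hb.symm t).1 ht.2 b l1
  have zi : z⁻¹ = z := inv_eq_of_mul_eq_one_right hz
  refine ⟨r, hr, fun h' => hb (by rw [← e, zf r h']), ?_⟩
  have k1 : (r⁻¹ * z) • b = b := by rw [mul_smul, ← e, inv_smul_smul]
  have k2 : (r⁻¹ * z) • z • b = z • b := by
    rw [mul_smul, smul_smul z z, hz, one_smul, inv_smul_eq_iff, ← e, smul_smul, zf _ (lb.sq r hr)]
  refine ep.eps _ _ hb.symm _ ⟨k1, k2⟩ fun a ha => ?_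
  by_contra hne
  have a' : r⁻¹ * z * a * (r⁻¹ * z)⁻¹ ∈ A b := by
    have := h.eqv (r⁻¹ * z) b a ha
    rwa [k1] at this
  have aF : a ∈ Fl A b (z • b) := mem_sup_left ha
  have gF : a⁻¹ * (z * a * z⁻¹) ∈ Fl A b (z • b) :=
    mul_mem (inv_mem aF) (mem_sup_right (h.eqv z b a ha))
  have rF : r ∈ Fl A b (z • b) := la.sup ▸ mem_sup_left hr
  obtain ⟨c, hcl, hf, -⟩ := la.out _ gF (fun hg => by
    have c1 : ⁅a, a⁻¹ * (z * a * z⁻¹)⁆ ∈ Rl A b (z • b) := commutator_mem_commutator aF gF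
    have c2 : ⁅r, r⁻¹ * z * a * (r⁻¹ * z)⁻¹⁆ ∈ Rl A b (z • b) :=
      commutator_mem_commutator rF (mem_sup_left a')
    have := la.disj b _ (mul_mem a' (inv_mem ha)) (by
      convert mul_mem (inv_mem c2) (mul_mem c1 hg) using 1
      simp only [commutatorElement_def]; group)
    apply hne
    rw [mul_inv_eq_one, mul_inv_eq_iff_eq_mul] at this
    exact this.symm)
  apply hc c hcl
  rw [← hf]
  have e1 : a⁻¹ * (z * a * z⁻¹) * z = z * (a⁻¹ * (z * a * z⁻¹))⁻¹ := by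
    calc a⁻¹ * (z * a * z⁻¹) * z = a⁻¹ * z * a := by group
      _ = (z * z) * a⁻¹ * z * a := by rw [hz, one_mul]
      _ = _ := by rw [mul_inv_rev, mul_inv_rev, mul_inv_rev, inv_inv, inv_inv, zi]; group
  rw [smul_smul, e1, mul_smul, inv_smul_eq_iff.2 ((hf c).2 rfl).symm]

end Cfsg.Agent.H9.CyTra
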