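import Cfsg.Agent.H50.E72Defs

/-!
# Counting fixed spaces through weight spaces
-/

set_option autoImplicit false

namespace Cfsg.Agent.H9.E72Cnt

open Cfsg.Agent.H50.E72 Module Multiplicative
open scoped Matrix

theorem exists_root (s : ℕ) (hs : Odd s) : ∃ ζ : Kˣ, IsPrimitiveRoot ζ s := by
  have h0 : s ≠ 0 := by rintro rfl; simp at hs
  have h2 : (s : K) ≠ 0 := by
    rw [Ne, CharP.cast_eq_zero_iff K 2]
    exact fun h => (Nat.not_even_iff_odd.mpr hs) (even_iff_two_dvd.mpr h)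
  haveI : NeZero s := ⟨h0⟩
  haveI : NeZero (s : K) := ⟨h2⟩
  obtain ⟨z, hz⟩ := HasEnoughRootsOfUnity.exists_primitiveRoot K s
  exact ⟨(hz.isUnit h0).unit, IsPrimitiveRoot.coe_units_iff.mp (by simpa using hz)⟩

theorem card_ker (k : ℕ) (χ : Fin (k + 1) → ZMod 3) :
    (Finset.univ.filter fun e : Fin (k + 1) → ZMod 3 => χ ⬝ᵥ e = 0).card =
      3 ^ k + if χ = 0 then 2 * 3 ^ k else 0 := by
  by_cases h : χ = 0
  · subst h
    simp [pow_succ]
    ring
  · rw [if_neg h, add_zero]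
    let f : (Fin (k + 1) → ZMod 3) →+ ZMod 3 :=
      AddMonoidHom.mk' (fun e => χ ⬝ᵥ e) (fun a b => dotProduct_add _ _ _)
    have hf : Function.Surjective f := by
      obtain ⟨i, hi⟩ := Function.ne_iff.mp h
      intro c
      refine ⟨Pi.single i ((χ i)⁻¹ * c), ?_⟩
      show χ ⬝ᵥ _ = c
      haveI : Fact (Nat.Prime 3) := ⟨Nat.prime_three⟩
      rw [dotProduct_single, mul_inv_cancel_left₀ hi]
    have h1 := f.ker.card_mul_index
    rw [AddSubgroup.index_ker, AddMonoidHom.range_eq_top.mpr hf, AddSubgroup.card_top] at h1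
    have h2 : Nat.card f.ker =
        (Finset.univ.filter fun e : Fin (k + 1) → ZMod 3 => χ ⬝ᵥ e = 0).card := by
      rw [← Fintype.card_subtype, ← Nat.card_eq_fintype_card]
      rfl
    rw [h2] at h1
    have h3 : Nat.card (Fin (k + 1) → ZMod 3) = 3 ^ k * 3 := by simp [pow_succ]
    rw [h3, Nat.card_zmod] at h1
    omega

section

variable {n : Type} [Fintype n] [DecidableEq n] (π : G0 →* Matrix n n (ZMod 2))

theorem wt_empty (hW : WtStmt) {k s : ℕ} [NeZero s] {ζ : Kˣ} (hζ : IsPrimitiveRoot ζ s)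
    (x : Multiplicative (Fin k → ZMod s) →* G0) (W : Submodule K (n → K))
    (h : ∀ e, Inv π (x e) W) :
    finrank K W = ∑ χ, finrank K (W ⊓ wsp π ζ x χ : Submodule K _) := by
  have := hW n π k s ζ x W hζ h ∅ 0
  simp only [Finset.notMem_empty, iInf_false, iInf_top, IsEmpty.forall_iff, implies_true,
    Finset.filter_true] at this
  have h1 : (⨅ e ∈ (∅ : Finset (Fin k → ZMod s)),
      eig π (x (ofAdd e)) ((ζ ^ ((0 : (Fin k → ZMod s) → ZMod s) e).val : Kˣ) : K)) = ⊤ := by simp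
  rw [h1, inf_top_eq] at this
  exact this

theorem wt_single (hW : WtStmt) {k s : ℕ} [NeZero s] {ζ : Kˣ} (hζ : IsPrimitiveRoot ζ s)
    (x : Multiplicative (Fin k → ZMod s) →* G0) (W : Submodule K (n → K))
    (h : ∀ e, Inv π (x e) W) (e : Fin k → ZMod s) (c : ZMod s) :
    finrank K (W ⊓ eig π (x (ofAdd e)) ((ζ ^ c.val : Kˣ) : K) : Submodule K _) =
      ∑ χ with χ ⬝ᵥ e = c, finrank K (W ⊓ wsp π ζ x χ : Submodule K _) := by
  have := hW n π k s ζ x W hζ h {e} (fun _ => c)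
  simp only [Finset.mem_singleton, forall_eq] at this
  rw [← this]
  have h1 : (⨅ e' ∈ ({e} : Finset (Fin k → ZMod s)),
      eig π (x (ofAdd e')) ((ζ ^ c.val : Kˣ) : K)) =
      eig π (x (ofAdd e)) ((ζ ^ c.val : Kˣ) : K) := by simp
  rw [h1]

theorem wsp_zero {k s : ℕ} (ζ : Kˣ) (x : Multiplicative (Fin k → ZMod s) →* G0) :
    wsp π ζ x 0 = Fix π (Set.range x) := by
  ext v
  rw [mem_Fix, wsp, Submodule.mem_iInf]
  simp only [zero_dotProduct, ZMod.val_zero, pow_zero, Units.val_one, mem_eig, one_smul]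
  exact ⟨by rintro h _ ⟨e, rfl⟩; exact h (toAdd e), fun h e => h _ ⟨_, rfl⟩⟩

theorem inv_pow' {g : G0} {W : Submodule K (n → K)} (h : Inv π g W) (j : ℕ) :
    Inv π (g ^ j) W := by
  induction j with
  | zero => intro v hv; simpa using hv
  | succ j ih =>
    intro v hv
    rw [pow_succ, map_mul, Module.End.mul_apply]
    exact ih _ (h v hv)

theorem frob_fix (hF : FrobStmt) (S : Set G0) (g : G0) (η : K) :
    finrank K (Fix π S ⊓ eig π g η : Submodule K _) =
      finrank K (Fix π S ⊓ eig π g (η ^ 2) : Submodule K _) := by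
  have key : ∀ (θ : K) (f : Option S → K), f none = θ → (∀ s, f (some s) = 1) →
      (⨅ i : Option S, eig π (i.elim g Subtype.val) (f i) : Submodule K _) =
        Fix π S ⊓ eig π g θ := by
    intro θ f h0 h1
    rw [iInf_option, h0, inf_comm]
    congr 1
    simp only [h1, Option.elim, H50.E72.Fix]
    exact (iInf_subtype'' S fun s => eig π s 1)
  have := hF n π (Option S) (fun i => i.elim g Subtype.val) (fun i => i.elim η fun _ => 1)
  rwa [key η _ rfl (fun _ => rfl), key (η ^ 2) _ rfl (fun _ => one_pow 2)] at this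

end

theorem cnt (hW : WtStmt) : CntStmt := by
  intro n _ _ π k x W h
  obtain ⟨ζ, hζ⟩ := exists_root 3 (by decide)
  have h1 : ∀ e : Fin (k + 1) → ZMod 3,
      finrank K (W ⊓ eig π (x (ofAdd e)) 1 : Submodule K _) =
        ∑ χ, if χ ⬝ᵥ e = 0 then finrank K (W ⊓ wsp π ζ x χ : Submodule K _) else 0 := by
    intro e
    have := wt_single π hW hζ x W h e 0
    rw [ZMod.val_zero, pow_zero, Units.val_one, Finset.sum_filter] at this
    exact this
  have h2 : ∑ e, finrank K (W ⊓ eig π (x e) 1 : Submodule K _) =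
      ∑ e : Fin (k + 1) → ZMod 3, finrank K (W ⊓ eig π (x (ofAdd e)) 1 : Submodule K _) :=
    (Equiv.sum_comp ofAdd fun e => finrank K (W ⊓ eig π (x e) 1 : Submodule K _)).symm
  rw [h2, Finset.sum_congr rfl fun e _ => h1 e, Finset.sum_comm, wt_empty π hW hζ x W h,
    ← wsp_zero π ζ x]
  have h3 : ∀ χ : Fin (k + 1) → ZMod 3, (∑ e : Fin (k + 1) → ZMod 3,
      if χ ⬝ᵥ e = 0 then finrank K (W ⊓ wsp π ζ x χ : Submodule K _) else 0) =
      3 ^ k * finrank K (W ⊓ wsp π ζ x χ : Submodule K _) +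
        if χ = 0 then 2 * 3 ^ k * finrank K (W ⊓ wsp π ζ x χ : Submodule K _) else 0 := by
    intro χ
    rw [← Finset.sum_filter, Finset.sum_const, card_ker, smul_eq_mul, add_mul]
    split_ifs <;> simp
  rw [Finset.sum_congr rfl fun χ _ => h3 χ, Finset.sum_add_distrib, ← Finset.mul_sum,
    Finset.sum_ite_eq' Finset.univ 0, if_pos (Finset.mem_univ _)]

theorem p13 (hW : WtStmt) (hF : FrobStmt) : P13Stmt := by
  intro n _ _ π S g hg h
  obtain ⟨ζ, hζ⟩ := exists_root 13 (by decide)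
  let x : Multiplicative (Fin 1 → ZMod 13) →* G0 := MonoidHom.mk' (fun e => g ^ (toAdd e 0).val)
    (by
      intro a b
      rw [← pow_add, toAdd_mul, Pi.add_apply, ZMod.val_add, ← pow_eq_pow_mod _ hg])
  have hx : ∀ e, Inv π (x e) (Fix π S) := fun e => inv_pow' π h _
  have hx1 : x (ofAdd fun _ => 1) = g := by
    show g ^ (1 : ZMod 13).val = g
    rw [show (1 : ZMod 13).val = 1 from rfl, pow_one]
  obtain ⟨M, hM⟩ : ∃ M : ℕ → ℕ, ∀ j, M j =
    finrank K (Fix π S ⊓ eig π g ((ζ ^ j : Kˣ) : K) : Submodule K _) := ⟨_, fun _ => rfl⟩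
  have h1 : finrank K (Fix π S) = ∑ c : ZMod 13, M c.val := by
    rw [wt_empty π hW hζ x _ hx,
      ← Finset.sum_fiberwise Finset.univ (fun χ : Fin 1 → ZMod 13 => χ ⬝ᵥ fun _ => 1)]
    refine Finset.sum_congr rfl fun c _ => ?_
    rw [hM, ← wt_single π hW hζ x _ hx _ c, hx1]
  have h2 : ∀ j, M j = M (2 * j % 13) := by
    intro j
    rw [hM, hM, frob_fix π hF, ← pow_eq_pow_mod _ hζ.pow_eq_one, mul_comm, pow_mul,
      Units.val_pow_eq_pow_val (ζ ^ j)]
  have h3 : ∑ c : ZMod 13, M c.val = ∑ j ∈ Finset.range 13, M j :=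
    Fin.sum_univ_eq_sum_range M 13
  have h0 : M 0 = finrank K (Fix π S ⊓ eig π g 1 : Submodule K _) := by
    rw [hM, pow_zero, Units.val_one]
  refine ⟨M 1, ?_⟩
  rw [h1, h3, ← h0]
  simp only [Finset.sum_range_succ, Finset.sum_range_zero]
  have a1 := h2 1
  have a2 := h2 2
  have a3 := h2 3
  have a4 := h2 4
  have a5 := h2 5
  have a6 := h2 6
  have a7 := h2 7
  have a8 := h2 8
  have a9 := h2 9
  have a10 := h2 10
  have a11 := h2 11
  have a12 := h2 12
  norm_num at a1 a2 a3 a4 a5 a6 a7 a8 a9 a10 a11 a12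
  omega

end Cfsg.Agent.H9.E72Cnt
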