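import Cfsg.Agent.H6.E82Defs

/-!
# Derivations of the Lie algebra of type `E₈` in characteristic two are inner
-/

set_option autoImplicit false

namespace Cfsg.Agent.H9.E82Der

open Equiv Cfsg.Lie H37 H40 H34 H29 Module Finset Cfsg.Agent.H6.E82

theorem der (rf : RfStmt) (brb : BrbStmt) (brc : BrcStmt) (jac : JacStmt) (d1 : Der1Stmt)
    (d2 : Der2Stmt) : DerStmt := by
  obtain ⟨-, r2, -, -, -, -, -, r8, -, r10, r11, -⟩ := rf
  obtain ⟨-, -, b3, b4, b5, b6, -, -⟩ := brb
  obtain ⟨c1, -, -, -, c5, -, -, c8, c9, c10, -, c12, -, -, c15, -, -⟩ := brc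
  have hee : ∀ (r : Rt) (a b : K), a • ee r = b • ee r → a = b := fun r a b h => by
    have := congrFun h (Sum.inr r)
    rwa [Pi.smul_apply, Pi.smul_apply, c5, if_pos rfl, smul_eq_mul, smul_eq_mul, mul_one,
      mul_one] at this
  refine ⟨fun D hD => ?_, fun t ht => ?_⟩
  · obtain ⟨t, h1⟩ := d1 D hD
    have hD' : IsDer (D + br t) := fun a b => by
      simp only [LinearMap.add_apply, map_add]
      rw [hD a b, jac t a b]
      abel
    obtain ⟨h2, c, h3⟩ := d2 _ hD' h1
    have h4 : ∀ r s, pr r s = -1 → c (C8.R.τ r s) = c r + c s := fun r s h => by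
      have := hD' (ee r) (ee s)
      rw [h3, h3, map_smul, map_smul, LinearMap.smul_apply, b6 r s h, h3, ← add_smul] at this
      exact hee _ _ _ this
    have h5 : ∀ r, c (ng r) = c r := fun r => by
      have := hD' (ee r) (ee (ng r))
      rw [h3, h3, map_smul, map_smul, LinearMap.smul_apply, b5, h2 _ (c1 r), ← add_smul] at this
      exact (CharTwo.add_eq_zero.mp
        ((smul_eq_zero.mp this.symm).resolve_right (c12 r).2.2)).symm
    obtain ⟨h0, hh0, h6⟩ := r10 fun j => c (C8.R.simple j)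
    have h7 : ∀ r, C8.R.Pos r → ev r h0 = c r := by
      refine C8.R.pos_induction h6 fun r i _ hne _ hw _ ih => ?_
      rw [← C8.R.pair_simple_left] at hw
      have e1 : pr (C8.R.simple i) r = 1 := le_antisymm ((r2 _ r).resolve_left hne) hw
      have e2 : pr (C8.R.simple i) (C8.R.τ (C8.R.simple i) r) = -1 := by rw [(c15 _ r).2, e1]
      have e3 := h4 _ _ e2
      have e4 := c9 _ _ h0 e2
      rw [(c15 _ r).1] at e3 e4
      rw [← C8.R.τ_simple] at ih
      rw [e3, e4, ih, h6]
    have h8 : ∀ r, ev r h0 = c r := fun r => by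
      by_cases h : C8.R.Pos r
      · exact h7 r h
      · rw [← c8, ← h5]
        exact h7 _ ((C8.R.pos_neg_iff r).2 h)
    refine ⟨h0 - t, fun v => ?_⟩
    have h9 : (D + br t) v = br h0 v := by
      obtain ⟨h, hh, -, e⟩ := c10 v
      rw [e, map_add, map_add, h2 h hh, b3 h0 hh0 h hh, map_sum, map_sum]
      refine congrArg _ (Finset.sum_congr rfl fun r _ => ?_)
      rw [map_smul, map_smul, h3, b4 h0 hh0, h8]
    rw [map_sub, LinearMap.sub_apply, ← h9, LinearMap.add_apply, add_sub_cancel_right]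
  · have h1 : t ∈ Cart := fun r => by
      obtain ⟨h, hh, e⟩ := r8 r
      have hh' : ∀ s, h (Sum.inr s) = 0 := hh
      have := congrFun (ht h) (Sum.inr r)
      rw [br_inr, e] at this
      simpa [hh'] using this
    refine r11 t h1 fun j => hee (C8.R.simple j) _ _ ?_
    rw [← b4 t h1, ht, zero_smul]

end Cfsg.Agent.H9.E82Der
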