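import Cfsg.Agent.H2.FXDefs

/-!
# The numbers of subgroups in the partition of a group of order 29120
-/

set_option autoImplicit false

namespace Cfsg.Agent.H9.FXSzNum

open Cfsg.Agent.H2FX

universe u

theorem nsub_eq {Γ : Type u} [Group Γ] [Finite Γ] (p n : ℕ) [Fact p.Prime]
    (h : n = p ^ (Nat.card Γ).factorization p) : nsub Γ n = Nat.card (Sylow p Γ) := by
  refine Nat.card_congr ⟨fun U => Sylow.ofCard U.1 (U.2.trans h),
    fun P => ⟨P, P.card_eq_multiplicity.trans h.symm⟩, fun U => Subtype.ext rfl,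
    fun P => Sylow.ext rfl⟩

theorem fact_eq {N p k m : ℕ} (hp : p.Prime) (h : N = p ^ k * m) (hm : ¬ p ∣ m) :
    N.factorization p = k := by
  have h0 : m ≠ 0 := by rintro rfl; exact hm (dvd_zero p)
  rw [h, Nat.factorization_mul (pow_ne_zero _ hp.ne_zero) h0, Finsupp.add_apply,
    hp.factorization_pow, Nat.factorization_eq_zero_of_not_dvd hm]
  simp

theorem bound {Γ : Type u} [Group Γ] [Finite Γ] (p m : ℕ) [hp : Fact p.Prime]
    (h : Nat.card Γ = p ^ 1 * m) (hm : ¬ p ∣ m) : nsub Γ p ∣ m ∧ nsub Γ p % p = 1 % p := by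
  have h1 := fact_eq hp.out h hm
  rw [nsub_eq p p (by rw [h1, pow_one])]
  obtain ⟨P⟩ : Nonempty (Sylow p Γ) := inferInstance
  refine ⟨?_, card_sylow_modEq_one p Γ⟩
  have h2 := P.card_dvd_index
  have h3 := (P : Subgroup Γ).card_mul_index
  rw [P.card_eq_multiplicity, h1, h] at h3
  rwa [Nat.eq_of_mul_eq_mul_left (pow_pos hp.out.pos 1) h3] at h2

theorem szNum (part : PartStmt.{u}) : SzNumStmt.{u} := by
  intro Γ _ h
  haveI : Finite Γ := Nat.finite_of_card_ne_zero (by rw [h.1]; norm_num)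
  haveI := Fintype.ofFinite Γ
  haveI : Fact (Nat.Prime 5) := ⟨by norm_num⟩
  haveI : Fact (Nat.Prime 13) := ⟨by norm_num⟩
  refine ⟨?_, ?_, ?_, ?_⟩
  · rw [nsub_eq 2 64 (by rw [fact_eq (k := 6) (m := 455) Nat.prime_two h.1 (by norm_num)]; rfl)]
    exact h.2.1
  · obtain ⟨h1, h2⟩ := bound (Γ := Γ) 5 5824 h.1 (by norm_num)
    have h3 : ∀ d ∈ Nat.divisors 5824, d % 5 = 1 % 5 → d ≤ 1456 := by decide +kernel
    exact h3 _ (Nat.mem_divisors.mpr ⟨h1, by norm_num⟩) h2
  · obtain ⟨h1, h2⟩ := bound (Γ := Γ) 13 2240 h.1 (by norm_num)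
    have h3 : ∀ d ∈ Nat.divisors 2240, d % 13 = 1 % 13 → d ≤ 560 := by decide +kernel
    exact h3 _ (Nat.mem_divisors.mpr ⟨h1, by norm_num⟩) h2
  · have h1 := part Γ h fun _ => 1
    have h2 : ∀ n : ℕ, (∑ᶠ U : {U : Subgroup Γ // Nat.card U = n},
        ((∑ᶠ _g : U.1, (1 : ℂ)) - 1)) = (nsub Γ n : ℂ) * ((n : ℂ) - 1) := by
      intro n
      haveI := Fintype.ofFinite {U : Subgroup Γ // Nat.card U = n}
      have h3 : ∀ U : {U : Subgroup Γ // Nat.card U = n},
          ((∑ᶠ _g : U.1, (1 : ℂ)) - 1) = (n : ℂ) - 1 := by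
        intro U
        haveI := Fintype.ofFinite U.1
        rw [finsum_eq_sum_of_fintype, Finset.sum_const, Finset.card_univ,
          ← Nat.card_eq_fintype_card, U.2]
        simp
      rw [finsum_congr h3, finsum_eq_sum_of_fintype, Finset.sum_const, Finset.card_univ,
        ← Nat.card_eq_fintype_card, nsmul_eq_mul]
      rfl
    rw [Finset.sum_congr rfl fun n _ => h2 n, Finset.sum_const, Finset.card_univ,
      ← Nat.card_eq_fintype_card, h.1, Finset.sum_insert (by decide),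
      Finset.sum_insert (by decide), Finset.sum_insert (by decide), Finset.sum_singleton] at h1
    have h4 : ((63 * nsub Γ 64 + 4 * nsub Γ 5 + 6 * nsub Γ 7 + 12 * nsub Γ 13 : ℕ) : ℂ) =
        ((29119 : ℕ) : ℂ) := by
      rw [nsmul_eq_mul] at h1
      push_cast at h1 ⊢
      linear_combination -h1
    exact Nat.cast_injective h4

end Cfsg.Agent.H9.FXSzNum
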