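import Cfsg.Agent.H98.GbH

/-! Project GB (S4536): the coproduct of the elementary symmetric functions (ECOP). -/

set_option autoImplicit false
open Cfsg Finset
open scoped ComplexConjugate MatrixGroups

namespace Cfsg.Agent.H9.GbEcop
open Cfsg.Agent.H98.GB

universe u

section alg
variable {A : Type*} [CommRing A] [Algebra ℂ A]

theorem nw_zero (Q : ℕ → A) : nw Q 0 = 1 := by rw [nw]

theorem nw_rec (Q : ℕ → A) (n : ℕ) :
    (n : ℂ) • nw Q n = ∑ j ∈ range n, Q (j + 1) * nw Q (n - 1 - j) := by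
  cases n with
  | zero => simp
  | succ k =>
    rw [nw, smul_smul, mul_inv_cancel₀ (by exact_mod_cast Nat.succ_ne_zero k), one_smul,
      ← Fin.sum_univ_eq_sum_range (fun j => Q (j + 1) * nw Q (k + 1 - 1 - j))]
    rfl

theorem smul_cancel {n : ℕ} (hn : n ≠ 0) {x y : A} (h : (n : ℂ) • x = (n : ℂ) • y) : x = y := by
  have hn' : (n : ℂ) ≠ 0 := by exact_mod_cast hn
  have := congrArg (fun t => (n : ℂ)⁻¹ • t) h
  simpa only [smul_smul, inv_mul_cancel₀ hn', one_smul] using this

theorem der_nw (δ : A → A) (hadd : ∀ x y, δ (x + y) = δ x + δ y)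
    (hsm : ∀ (c : ℂ) x, δ (c • x) = c • δ x) (hmul : ∀ x y, δ (x * y) = δ x * y + x * δ y)
    (Q : ℕ → A) (K i : ℕ) (hi : 0 < i) (c : ℂ)
    (hQ : ∀ j, 0 < j → j ≤ K → δ (Q j) = if j = i then c • (1 : A) else 0) :
    ∀ k ≤ K, δ (nw Q k) = if i ≤ k then (c / i) • nw Q (k - i) else 0 := by
  let L : A →ₗ[ℂ] A := { toFun := δ, map_add' := hadd, map_smul' := hsm }
  have hL : ∀ x, L x = δ x := fun _ => rfl
  have h1 : δ 1 = 0 := by
    have := hmul 1 1
    simp only [mul_one, one_mul] at this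
    exact left_eq_add.1 this
  have hi' : (i : ℂ) ≠ 0 := by exact_mod_cast hi.ne'
  intro k
  induction k using Nat.strong_induction_on with
  | _ k ih =>
  intro hk
  rcases Nat.eq_zero_or_pos k with rfl | hk0
  · rw [nw_zero, h1, if_neg (by omega)]
  refine smul_cancel hk0.ne' ?_
  rw [← hsm, nw_rec, ← hL, map_sum]
  have e1 : ∀ j ∈ range k, L (Q (j + 1) * nw Q (k - 1 - j)) =
      (if j = i - 1 then c • nw Q (k - i) else 0) +
      (if j < k - i then (c / i) • (Q (j + 1) * nw Q (k - i - 1 - j)) else 0) := by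
    intro j hj
    rw [mem_range] at hj
    rw [hL, hmul, hQ (j + 1) (by omega) (by omega), ih (k - 1 - j) (by omega) (by omega)]
    congr 1
    · by_cases h : j = i - 1
      · rw [if_pos (by omega), if_pos h, smul_mul_assoc, one_mul]
        congr 2; omega
      · rw [if_neg (by omega), if_neg h, zero_mul]
    · by_cases h : j < k - i
      · rw [if_pos (by omega), if_pos h, mul_smul_comm]
        congr 3; omega
      · rw [if_neg (by omega), if_neg h, mul_zero]
  rw [sum_congr rfl e1, sum_add_distrib, sum_ite_eq' (range k), ← sum_filter, ← smul_sum]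
  have e2 : (range k).filter (fun j => j < k - i) = range (k - i) := by
    ext j; simp only [mem_filter, mem_range]; omega
  rw [e2, ← nw_rec]
  by_cases h : i ≤ k
  · rw [if_pos (mem_range.2 (by omega)), if_pos h, smul_smul, smul_smul, ← add_smul]
    congr 1
    rw [Nat.cast_sub h]; field_simp; ring
  · rw [if_neg (by rw [mem_range]; omega), if_neg h, show k - i = 0 by omega]
    simp

end alg

section hall
variable {F : Type u} [Field F] [Fintype F] [DecidableEq F] {η : Fˣ →* ℂˣ} (H : Hall η)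

theorem ip_conj (n : ℕ) (x y : H.A) : H.ip n x y = conj (H.ip n y x) := by
  simp only [Hall.ip, classInner, map_mul, map_inv₀, map_natCast, map_sum, Complex.conj_conj]
  congr 1
  exact sum_congr rfl fun g _ => mul_comm _ _

theorem ip_smul_left (n : ℕ) (c : ℂ) (x y : H.A) : H.ip n (c • x) y = c * H.ip n x y := by
  simp only [Hall.ip, classInner, map_smul, Pi.smul_apply, smul_eq_mul, mul_assoc, ← mul_sum]
  ring

theorem ip_smul_right (n : ℕ) (c : ℂ) (x y : H.A) : H.ip n x (c • y) = conj c * H.ip n x y := by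
  rw [ip_conj, ip_smul_left, map_mul, ← ip_conj]

theorem ip_add_left (n : ℕ) (x x' y : H.A) : H.ip n (x + x') y = H.ip n x y + H.ip n x' y := by
  simp only [Hall.ip, classInner, map_add, Pi.add_apply, add_mul, sum_add_distrib, mul_add]

theorem ip_zero_left (n : ℕ) (y : H.A) : H.ip n 0 y = 0 := by
  simp [Hall.ip, classInner]

theorem ip_zero_right (n : ℕ) (x : H.A) : H.ip n x 0 = 0 := by
  simp [Hall.ip, classInner]

theorem ip_sub_right (n : ℕ) (x y y' : H.A) : H.ip n x (y - y') = H.ip n x y - H.ip n x y' := by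
  simp only [Hall.ip, classInner, map_sub, Pi.sub_apply, mul_sub, sum_sub_distrib]

theorem ip_sum_left (n : ℕ) (s : Finset ℕ) (x : ℕ → H.A) (y : H.A) :
    H.ip n (∑ j ∈ s, x j) y = ∑ j ∈ s, H.ip n (x j) y := by
  induction s using Finset.induction_on with
  | empty => simp [ip_zero_left]
  | insert a s ha ih => rw [sum_insert ha, sum_insert ha, ip_add_left, ih]

theorem ip_of_hg {m n : ℕ} {x : H.A} (hx : H.Hg m x) (h : n ≠ m) (y : H.A) : H.ip n x y = 0 := by
  simp [Hall.ip, classInner, hx n h]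

theorem hg_smul {m : ℕ} {x : H.A} (c : ℂ) (hx : H.Hg m x) : H.Hg m (c • x) := fun n h => by
  simp [hx n h]

theorem hg_sub {m : ℕ} {x y : H.A} (hx : H.Hg m x) (hy : H.Hg m y) : H.Hg m (x - y) :=
  fun n h => by simp [hx n h, hy n h]

theorem hg_zero' (m : ℕ) : H.Hg m 0 := fun n _ => by simp

theorem hg_sum {m : ℕ} (s : Finset ℕ) (x : ℕ → H.A) (hx : ∀ j ∈ s, H.Hg m (x j)) :
    H.Hg m (∑ j ∈ s, x j) := fun n h => by
  rw [map_sum, Finset.sum_apply]
  exact sum_eq_zero fun j hj => hx j hj n h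

variable {H}

theorem eq_zero_of_prim (hF : H.Fock) {a : ℕ} (ha : 0 < a) {w : H.A} (hw : H.Hg a w)
    (h : ∀ m a' y x, m + a' = a → H.Pr m y → H.Hg a' x → H.ip a (y * x) w = 0) : w = 0 := by
  refine hF.span ha hw fun m y hy => ?_
  rcases lt_or_ge a m with hlt | hle
  · exact hF.D_lt y hw hlt
  obtain ⟨a', rfl⟩ := Nat.exists_eq_add_of_le hle
  have h1 := hF.D_hg y hw
  refine hF.ip_self h1 ?_
  rw [← hF.adj hy.1]
  exact h m a' y _ rfl hy h1

variable {d K : ℕ} {P : ℕ → H.A}

theorem hg_ee (hF : H.Fock) (hP : ∀ k, 0 < k → k ≤ K → H.Pr (d * k) (P k)) :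
    ∀ k ≤ K, H.Hg (d * k) (ee P k) := by
  intro k
  induction k using Nat.strong_induction_on with
  | _ k ih =>
  intro hk
  rcases Nat.eq_zero_or_pos k with rfl | hk0
  · rw [ee, nw_zero]; exact hF.hg_one
  have hk' : (k : ℂ) ≠ 0 := by exact_mod_cast hk0.ne'
  have e : ee P k = (k : ℂ)⁻¹ • ((k : ℂ) • ee P k) := by
    rw [smul_smul, inv_mul_cancel₀ hk', one_smul]
  rw [e]
  refine hg_smul H _ ?_
  rw [ee, nw_rec]
  refine hg_sum H _ _ fun j hj => ?_
  rw [mem_range] at hj
  have := hF.hg_mul (hg_smul H ((-1 : ℂ) ^ (j + 1 + 1)) (hP (j + 1) (by omega) (by omega)).1)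
    (ih (k - 1 - j) (by omega) (by omega))
  rwa [← mul_add, show j + 1 + (k - 1 - j) = k by omega] at this

theorem D_ee_raw (hF : H.Fock) (hd : 0 < d) (hP : ∀ k, 0 < k → k ≤ K → H.Pr (d * k) (P k))
    {i : ℕ} {y : H.A} (hy : H.Pr (d * i) y) : ∀ k ≤ K, H.D (d * i) y (ee P k) =
      if i ≤ k then ((-1 : ℂ) ^ (i + 1) * H.ip (d * i) (P i) y / i) • ee P (k - i) else 0 := by
  have hi : 0 < i := Nat.pos_of_mul_pos_left hy.2.1
  refine der_nw _ (hF.D_add _ _) (hF.D_smul _ _) (hF.D_mul hy) _ K i hi _ fun j hj hjK => ?_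
  rw [hF.D_smul, hF.D_pr hy (hP j hj hjK), smul_smul]
  by_cases h : j = i
  · subst h; rw [if_pos rfl]
  · rw [if_neg h, ip_of_hg H (hP j hj hjK).1 (fun e => h (Nat.eq_of_mul_eq_mul_left hd e).symm),
      mul_zero, zero_smul]

theorem D_ee (hF : H.Fock) (hd : 0 < d) (hP : ∀ k, 0 < k → k ≤ K → H.Pr (d * k) (P k))
    {k : ℕ} (hk : k ≤ K) {m : ℕ} {y : H.A} (hy : H.Pr m y) : H.D m y (ee P k) =
      if d ∣ m ∧ m / d ≤ k then H.ip m (ee P (m / d)) y • ee P (k - m / d) else 0 := by
  by_cases hm : d ∣ m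
  · obtain ⟨i, rfl⟩ := hm
    rw [Nat.mul_div_cancel_left i hd, D_ee_raw hF hd hP hy k hk]
    by_cases h : i ≤ k
    · rw [if_pos h, if_pos ⟨dvd_mul_right _ _, h⟩]
      congr 1
      have h1 := hF.adj hy.1 0 1 (ee P i)
      rw [D_ee_raw hF hd hP hy i (by omega), if_pos le_rfl, Nat.sub_self, ip_smul_right, ee,
        nw_zero, hF.ip_one, mul_one, mul_one, add_zero] at h1
      rw [ip_conj H _ (ee P i), ee, h1, Complex.conj_conj]
    · rw [if_neg h, if_neg fun h' => h h'.2]
  · rw [if_neg fun h' => hm h'.1]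
    have := der_nw _ (hF.D_add m y) (hF.D_smul m y) (hF.D_mul hy)
      (fun i => (-1 : ℂ) ^ (i + 1) • P i) K 1 one_pos 0 (fun j hj hjK => by
        rw [hF.D_smul, hF.D_pr hy (hP j hj hjK),
          ip_of_hg H (n := m) (hP j hj hjK).1 (fun e => hm ⟨j, e⟩)]
        simp) k hk
    rw [ee, this]; simp

theorem ip_mul_ee (hF : H.Fock) (hd : 0 < d) (hP : ∀ k, 0 < k → k ≤ K → H.Pr (d * k) (P k)) :
    ∀ a k, k ≤ K → ∀ b x z, a + b = d * k → H.Hg a x → H.Hg b z →
    H.ip (d * k) (x * z) (ee P k) =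
      if d ∣ a then H.ip a x (ee P (a / d)) * H.ip b z (ee P (k - a / d)) else 0 := by
  intro a
  induction a using Nat.strong_induction_on with
  | _ a ih =>
  intro k hk b x z hab hx hz
  rcases Nat.eq_zero_or_pos a with rfl | ha
  · rw [if_pos (dvd_zero d), Nat.zero_div, Nat.sub_zero, show b = d * k by omega]
    conv_lhs => rw [hF.hg_zero hx, smul_mul_assoc, one_mul, ip_smul_left]
    rw [show ee P 0 = 1 from nw_zero _]
  have hak : a / d ≤ k := Nat.div_le_of_le_mul (by omega)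
  set w : H.A := H.D b z (ee P k) -
    if d ∣ a then conj (H.ip b z (ee P (k - a / d))) • ee P (a / d) else 0 with hw
  have key : ∀ x', H.ip a x' w = H.ip (d * k) (x' * z) (ee P k) -
      if d ∣ a then H.ip a x' (ee P (a / d)) * H.ip b z (ee P (k - a / d)) else 0 := by
    intro x'
    rw [hw, ip_sub_right, ← hF.adj hz, add_comm b a, hab, mul_comm z]
    congr 1
    split_ifs
    · rw [ip_smul_right, Complex.conj_conj, mul_comm]
    · exact ip_zero_right H _ _
  have hwa : H.Hg a w := by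
    refine hg_sub H (hF.D_hg z ?_) ?_
    · rw [add_comm, hab]; exact hg_ee hF hP k hk
    · split_ifs with h
      · refine hg_smul H _ ?_
        have := hg_ee hF hP (a / d) (by omega)
        rwa [Nat.mul_div_cancel' h] at this
      · exact hg_zero' H a
  have hw0 : w = 0 := by
    refine eq_zero_of_prim hF ha hwa fun m a' y x' hm hy hx' => ?_
    have hm0 : 0 < m := hy.2.1
    rw [key, sub_eq_zero]
    have e1 : H.ip (d * k) (y * x' * z) (ee P k) = H.ip (a' + b) (x' * z) (H.D m y (ee P k)) := by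
      rw [← hF.adj hy.1, mul_assoc, ← add_assoc, hm, hab]
    have e2 : H.ip a (y * x') (ee P (a / d)) = H.ip a' x' (H.D m y (ee P (a / d))) := by
      rw [← hF.adj hy.1, hm]
    rw [e1, e2, D_ee hF hd hP hk hy, D_ee hF hd hP (hak.trans hk) hy]
    by_cases hdm : d ∣ m
    · obtain ⟨i, rfl⟩ := hdm
      have hik : i ≤ k := Nat.le_of_mul_le_mul_left (by omega) hd
      have e3 : a' + b = d * (k - i) := by rw [Nat.mul_sub]; omega
      rw [Nat.mul_div_cancel_left i hd, if_pos ⟨dvd_mul_right _ _, hik⟩, ip_smul_right, e3,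
        ih a' (by omega) (k - i) (by omega) b x' z e3 hx' hz]
      by_cases hda : d ∣ a'
      · obtain ⟨j, rfl⟩ := hda
        subst hm
        rw [← mul_add, Nat.mul_div_cancel_left _ hd, Nat.mul_div_cancel_left _ hd,
          if_pos (dvd_mul_right _ _), if_pos (dvd_mul_right _ _),
          if_pos ⟨dvd_mul_right _ _, Nat.le_add_right _ _⟩, ip_smul_right, Nat.add_sub_cancel_left,
          Nat.sub_sub, mul_assoc]
      · rw [if_neg hda, if_neg fun h => hda ((Nat.dvd_add_right (dvd_mul_right d i)).1 (hm ▸ h)),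
          mul_zero]
    · rw [if_neg fun h => hdm h.1, if_neg (show ¬ (d ∣ m ∧ m / d ≤ a / d) from fun h => hdm h.1),
        ip_zero_right, ip_zero_right, zero_mul, ite_self]
  have := key x
  rw [hw0, ip_zero_right] at this
  exact (sub_eq_zero.1 this.symm)

theorem ip_ee_ee (hF : H.Fock) (hd : 0 < d) (hP : ∀ k, 0 < k → k ≤ K → H.Pr (d * k) (P k)) :
    ∀ k ≤ K, (∀ i, 0 < i → i ≤ k → H.ip (d * i) (P i) (P i) = i) →
      H.ip (d * k) (ee P k) (ee P k) = 1 := by
  intro k
  induction k using Nat.strong_induction_on with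
  | _ k ih =>
  intro hk hPi
  rcases Nat.eq_zero_or_pos k with rfl | hk0
  · rw [show ee P 0 = 1 from nw_zero _]; exact hF.ip_one
  have hk' : (k : ℂ) ≠ 0 := by exact_mod_cast hk0.ne'
  refine mul_left_cancel₀ hk' ?_
  rw [← ip_smul_left, mul_one]
  conv_lhs => rw [ee, nw_rec, ip_sum_left]
  rw [sum_congr rfl (g := fun _ => (1 : ℂ)) fun j hj => ?_]
  · simp
  rw [mem_range] at hj
  have hPj := hP (j + 1) (by omega) (by omega)
  have e : d * k = d * (j + 1) + d * (k - 1 - j) := by rw [← mul_add]; congr 1; omega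
  change H.ip (d * k) (((-1 : ℂ) ^ (j + 1 + 1) • P (j + 1)) * ee P (k - 1 - j)) (ee P k) = 1
  rw [smul_mul_assoc, ip_smul_left, e, hF.adj hPj.1, D_ee_raw hF hd hP hPj k hk,
    if_pos (by omega), ip_smul_right, hPi (j + 1) (by omega) (by omega),
    show k - (j + 1) = k - 1 - j by omega,
    ih (k - 1 - j) (by omega) (by omega) fun i h1 h2 => hPi i h1 (by omega)]
  have hj' : ((j + 1 : ℕ) : ℂ) ≠ 0 := by exact_mod_cast Nat.succ_ne_zero j
  rw [mul_div_cancel_right₀ _ hj', map_pow, map_neg, map_one, mul_one, ← mul_pow]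
  simp

end hall

theorem ecop (hF : FOCKStmt.{u}) : ECOPStmt.{u} := by
  intro F _ _ _ η H d K P hd hP k hk
  have h := hF F η H
  exact ⟨hg_ee h hP k hk, fun m y hy => D_ee h hd hP hk hy,
    fun a b x z => ip_mul_ee h hd hP a k hk b x z, ip_ee_ee h hd hP k hk⟩

end Cfsg.Agent.H9.GbEcop
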