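import Cfsg.Agent.H98.GbL

/-! Project GB (S4536): the constituents of the restricted characters (TH2c). -/

set_option autoImplicit false
open Cfsg Finset
open scoped ComplexConjugate MatrixGroups

namespace Cfsg.Agent.H9.GbTh2c
open Cfsg.Agent.H98.GB

universe u

theorem th2c (hN : NWEHStmt.{u}) (hJ : JTStmt.{u}) (hG : GENStmt.{u}) (hO : ORTHStmt.{u})
    (hC : CONCStmt.{u}) (hH : HISOStmt.{u}) (hI : IRRStmt.{u}) (hL : LABStmt.{u}) :
    TH2cStmt.{u} := by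
  intro F _ _ _ C c HH In P hT k0 Λo v hV hΛo n hn Λ hΛ hrs
  classical
  obtain ⟨R, hR⟩ := (hG F).2.2 (C.eta c) HH
  have hmem : ∀ x, x ∈ R ↔ x ∈ RF (C.eta c) HH := fun x => by rw [← hR]; rfl
  have hA := hN (∀ j, (HH j).A)
  have hx : v * sL C.N P (C.rs In Λ) ∈ R := by
    refine R.mul_mem ((hmem _).2 hV.rf) (R.prod_mem fun φ _ => ?_)
    by_cases h : In φ
    · refine hJ _ _ R _ _ ?_ fun j _ => (hmem _).2 (hT.rf φ j h)
      simp only [Ctx.rs, if_pos h]; exact hΛ.1 φ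
    · simp only [Ctx.rs, if_neg h]
      rw [hA.2.2.2.2.1]; exact R.one_mem
  have hxj : ∀ j, (v * sL C.N P (C.rs In Λ)) j =
      v j * sL C.N (fun φ k => P φ k j) (C.rs In Λ) := by
    intro j
    rw [Pi.mul_apply, sL, sL, Finset.prod_apply]
    congr 1
    refine prod_congr rfl fun φ _ => ?_
    have := (hA.2.2.2.1 (HH j).A (Pi.evalAlgHom ℂ (fun j => (HH j).A) j) (P φ)).2.2 C.N
      (C.rs In Λ φ)
    simpa only [Pi.evalAlgHom_apply] using this
  obtain ⟨θ, hθ, hθe⟩ := (hmem _).1 hx n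
  simp only [hxj] at hθe
  have hwt : k0 + wt C.dg (C.rs In Λ) = n := by
    rw [← hΛo.2, ← hΛ.2, hrs, wt, wt, wt, ← sum_add_distrib]
    refine sum_congr rfl fun φ _ => ?_
    by_cases h : In φ <;> simp [Ctx.rs, h, H19.wtS_range]
  have hlab : LabOn C.N In (C.rs In Λ) := fun φ => by
    by_cases h : In φ <;> simp [Ctx.rs, h, hΛ.1 φ]
  have hnrm : ∀ j : ℕ, classInner (av (dl (C.eta c) n).ker (dl (C.eta c) n ^ j) θ)
      (av (dl (C.eta c) n).ker (dl (C.eta c) n ^ j) θ) = 1 := by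
    intro j
    have := (hO F _ (HH j) C.Φ C.dg In C.n0 C.N (fun φ k => P φ k j) k0 (v j)
      (Nat.le_mul_of_pos_left _ (Nat.succ_pos _))
      ⟨(hL F C).dg_pos, fun φ k h hk _ => hT.pr φ k j h hk, hV.hg j,
        fun φ k h hk _ => hV.vac φ k j h hk⟩ (hT.gram j _) _ _ hlab hlab (by omega) (by omega)).2
    rw [if_pos rfl, hV.nrm, hwt, Hall.ip, hθe] at this
    exact this
  obtain ⟨T, hTe⟩ := hH F _ _ (pow_zero (C.eta c)) (HH 0) C.H
  have h0 : av (dl (C.eta c) n).ker 1 θ = C.sC Λ n := by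
    rw [← pow_zero (dl (C.eta c) n), ← hθe, ← hTe, map_mul, Ctx.sC]
    have e1 : T (v 0) = sL C.N C.pp Λo := C.H.inj (by rw [hTe, hV.zero])
    rw [e1, hrs, sL, sL, sL, map_prod, ← prod_mul_distrib]
    refine congrArg (fun x => C.H.ev x n) (prod_congr rfl fun φ _ => ?_)
    have hB := hN C.H.A
    by_cases h : In φ
    · simp only [Ctx.rs, h, not_true, if_true, if_false]
      rw [hB.2.2.2.2.1, one_mul]
      refine (((hN (HH 0).A).2.2.2.1 _ T.toAlgHom fun k => P φ k 0).2.2 _ _).trans ?_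
      exact hB.2.2.2.2.2.1 _ _ _ _ fun k hk _ => C.H.inj ((hTe _).trans (hT.zero φ k h hk))
    · simp only [Ctx.rs, h, not_false_iff, if_true, if_false]
      rw [(hN (HH 0).A).2.2.2.2.1, map_one, mul_one]
  obtain ⟨h1, h2, h3⟩ := (hC _ (dl (C.eta c) n)).1 θ ⟨_, (hI F C n hn Λ hΛ).2.1⟩ hθ hnrm h0
  exact ⟨⟨θ, h1⟩, h2, h3, hwt, hθe⟩

end Cfsg.Agent.H9.GbTh2c
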