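import Cfsg.Agent.H99.HNSet
import Cfsg.Agent.H84.CoreOf
import Cfsg.Agent.H3.Cores

/-! The piece S1 of the recognition of `HN`: the structure of the centraliser of `Z(S)`. -/

set_option autoImplicit false

universe u

namespace Cfsg.Agent.H9.HnS1

open Subgroup Cfsg Cfsg.Agent.H63 Cfsg.Agent.H67 Cfsg.Agent.H91 Cfsg.Agent.H67.T3

variable {G : Type u} [Group G]

/-- The data before the splitting. -/
structure Hy (z : G) (Q : Subgroup G) (Γ : Subgroup (SL25 × G)) : Prop where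
  z3 : z ^ 3 = 1
  z1 : z ≠ 1
  zQ : z ∈ Q
  cQ : Nat.card Q = 243
  Qe : ∀ a ∈ Q, a ^ 3 = 1
  QQ : ∀ a ∈ Q, ∀ b ∈ Q, a * b * a⁻¹ * b⁻¹ ∈ zpowers z
  NQ : N[zpowers z] ≤ N[Q]
  CQ : C[Q] ≤ Q
  gr : Gr Γ C1[z] Q
  sur : ∀ σ, ∃ y, (σ, y) ∈ Γ

namespace Hy

variable {z : G} {Q : Subgroup G} {Γ : Subgroup (SL25 × G)} (h : Hy z Q Γ)

include h

theorem cZ : Nat.card (zpowers z) = 3 := by
  rw [Nat.card_zpowers]; exact orderOf_eq_prime h.z3 h.z1

theorem ZQ : zpowers z ≤ Q := zpowers_le.2 h.zQ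

theorem gz {σ : SL25} {l : G} (hl : (σ, l) ∈ Γ) : l * z = z * l :=
  mem_centralizer_singleton_iff.1 (h.gr.mem hl)

theorem inv_mod {s : G} (hs : s * s = 1) (hz : s * z = z * s) (hC : Q ⊓ C1[s] ≤ zpowers z) {q : G}
    (hq : q ∈ Q) : s * q * s⁻¹ * q ∈ zpowers z := by
  have hq' := conj_mem_of_mem_normalizer (h.NQ (norm_of_comm hz)) hq
  refine hC ⟨mul_mem hq' hq, mem_centralizer_singleton_iff.2 ?_⟩
  have hc := h.QQ q hq _ hq'
  have e0 : s * (s * q * s⁻¹) * s⁻¹ = q := by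
    calc s * (s * q * s⁻¹) * s⁻¹ = (s * s) * q * (s * s)⁻¹ := by group
      _ = q := by rw [hs]; group
  generalize s * q * s⁻¹ = q' at *
  have e1 : s * q * s⁻¹ = q' := by
    rw [← e0]
    calc s * (s * q' * s⁻¹) * s⁻¹ = (s * s) * q' * (s * s)⁻¹ := by group
      _ = q' := by rw [hs]; group
  have e2 : s * (q' * q) * s⁻¹ = (q * q' * q⁻¹ * q'⁻¹) * (q' * q) := by
    calc s * (q' * q) * s⁻¹ = (s * q' * s⁻¹) * (s * q * s⁻¹) := by group
      _ = _ := by rw [e0, e1]; group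
  generalize q * q' * q⁻¹ * q'⁻¹ = c at *
  generalize q' * q = w at *
  have e3 : s * c * s⁻¹ = c := mul_inv_eq_iff_eq_mul.2 (comm_of_zp hz hc)
  have e4 : w = c * c * w := by
    calc w = (s * s) * w * (s * s)⁻¹ := by rw [hs]; group
      _ = s * (s * w * s⁻¹) * s⁻¹ := by group
      _ = (s * c * s⁻¹) * (s * w * s⁻¹) := by nth_rewrite 1 [e2]; group
      _ = c * c * w := by rw [e3, e2, mul_assoc]
  have e5 : c = 1 := eq_one_of_sq_cube (by simpa using e4.symm) (h.Qe c (h.ZQ hc))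
  rw [e5, one_mul] at e2
  exact (mul_inv_eq_iff_eq_mul.1 e2).symm

theorem lift {t : G} (ht : ((-1 : SL25), t) ∈ Γ) (tt : t * t = 1) (σ : SL25) :
    ∃ y, (σ, y) ∈ Γ ∧ Commute y t := by
  obtain ⟨y, hy⟩ := h.sur σ
  obtain ⟨n, hn, e⟩ := exists_cent h.Qe tt (g := y)
    (h.gr.memK (pmul ht (pconj hy ht)) (by simp))
  exact ⟨_, h.gr.Kmul hy hn, e⟩

theorem liftY {t : G} (ht : ((-1 : SL25), t) ∈ Γ) (tt : t * t = 1) :
    ∃ y, (slY, y) ∈ Γ ∧ y ^ 5 = 1 ∧ Commute y t := by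
  obtain ⟨y1, hy1, e⟩ := h.lift ht tt slY
  refine ⟨y1 ^ 6, ?_, ?_, e.pow_left 6⟩
  · have := ppow hy1 6
    rwa [pow_succ, slY_pow, one_mul] at this
  · rw [← pow_mul, show 6 * 5 = 5 * 3 * 2 from rfl, pow_mul, pow_mul,
      h.Qe _ (h.gr.memK (ppow hy1 5) slY_pow), one_pow]

variable [Finite G]

theorem exists_t : ∃ t, ((-1 : SL25), t) ∈ Γ ∧ t * t = 1 ∧ Q ⊓ C1[t] = zpowers z := by
  obtain ⟨g0, hg0⟩ := h.sur (-1)
  have h2 : g0 ^ 2 ∈ Q := h.gr.memK (ppow hg0 2) (by simp)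
  have ht : ((-1 : SL25), g0 ^ 3) ∈ Γ := by
    have := ppow hg0 3
    rwa [show (-1 : SL25) ^ 3 = -1 by decide] at this
  have tt : g0 ^ 3 * g0 ^ 3 = 1 := by rw [← h.Qe _ h2]; group
  generalize g0 ^ 3 = t at ht tt
  obtain ⟨y, hy, y5, yt⟩ := h.liftY ht tt
  have hp : IsPGroup 5 (zpowers y) := IsPGroup.of_card (n := 1) (by
    rw [Nat.card_zpowers, pow_one]
    exact orderOf_eq_prime y5 fun e => slY_ne_one (h.gr.one hy (e ▸ Q.one_mem)))
  have yQ : zpowers y ≤ N[Q] := zpowers_le.2 (h.NQ (norm_of_comm (h.gz hy)))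
  have Zy : zpowers z ≤ C[zpowers y] := by
    rw [centralizer_zpowers, zpowers_le]
    exact mem_centralizer_singleton_iff.2 (h.gz hy).symm
  have three : ∀ A, A ≤ Q → A ≠ Q → Nat.card A ≡ 3 [MOD 5] → zpowers z ≤ A → A = zpowers z := by
    intro A hA hA' hm hz
    refine (eq_of_le_of_card_ge hz ?_).symm
    rcases dvd243 (h.cQ ▸ card_dvd_of_le' hA) with e | e | e | e | e | e
    · rw [e] at hm; exact absurd hm (by decide)
    · rw [e, h.cZ]
    · rw [e] at hm; exact absurd hm (by decide)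
    · rw [e] at hm; exact absurd hm (by decide)
    · rw [e] at hm; exact absurd hm (by decide)
    · exact absurd (eq_of_le_of_card_ge hA (by rw [e, h.cQ])) hA'
  have hB : Q ⊓ C[zpowers y] = zpowers z := by
    refine three _ inf_le_left (fun e => ?_) ?_ (le_inf h.ZQ Zy)
    · refine slY_ne_one (h.gr.one hy (h.CQ ?_))
      exact le_centralizer_iff.1 (e.ge.trans inf_le_right) (mem_zpowers y)
    · have := H3.card_modEq_card_inf_centralizer hp yQ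
      rw [h.cQ] at this
      exact this.symm.trans (by decide)
  have Zt : zpowers z ≤ Q ⊓ C1[t] :=
    le_inf h.ZQ (zpowers_le.2 (mem_centralizer_singleton_iff.2 (h.gz ht).symm))
  refine ⟨t, ht, tt, three _ inf_le_left (fun e => ?_) ?_ Zt⟩
  · refine sl25_neg_one_ne (h.gr.one ht (h.CQ ?_))
    exact mem_centralizer_iff_le.2 (e.ge.trans inf_le_right)
  · have h1 : zpowers y ≤ N[Q ⊓ C1[t]] := le_normalizer_inf yQ
      (le_normalizer_of_le (zpowers_le.2 (mem_centralizer_singleton_iff.2 yt.eq)))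
    have := H3.card_modEq_card_inf_centralizer hp h1
    rwa [le_antisymm ((inf_le_inf_right _ inf_le_left).trans hB.le) (le_inf Zt Zy), h.cZ] at this

theorem exists_ι : ∃ ι : SL25 →* G, (∀ σ, (σ, ι σ) ∈ Γ) ∧
    ∀ q ∈ Q, ι (-1) * q * (ι (-1))⁻¹ * q ∈ zpowers z := by
  obtain ⟨t, ht, tt, hC⟩ := h.exists_t
  have tz := h.gz ht
  have toZ : ∀ {σ y}, (σ, y) ∈ Γ → σ = 1 → Commute y t → y ∈ zpowers z := fun hy e c =>
    hC ▸ ⟨h.gr.memK hy e, mem_centralizer_singleton_iff.2 c⟩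
  obtain ⟨X0, hX0, X0t⟩ := h.lift ht tt slX
  have X03 : X0 ^ 3 = 1 := by
    obtain ⟨D, hD, Dt⟩ := h.lift ht tt slF
    have a1 := toZ (ppow hX0 3) slX_pow (X0t.pow_left 3)
    have a2 := toZ (pmul hX0 (pconj hD hX0)) (by decide)
      (X0t.mul_left ((Dt.mul_left X0t).mul_left Dt.inv_left))
    have a3 : (X0⁻¹ * (X0 * (D * X0 * D⁻¹))) ^ 3 = (X0 ^ 3)⁻¹ := by
      rw [(Commute.inv_left (comm_of_zp (h.gz hX0) a2)).mul_pow, h.Qe _ (h.ZQ a2), mul_one, inv_pow]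
    rw [inv_mul_cancel_left, conj_pow, comm_of_zp (h.gz hD) a1, mul_inv_cancel_right] at a3
    exact eq_one_of_sq_cube (mul_eq_one_iff_eq_inv.2 a3) (h.Qe _ (h.ZQ a1))
  obtain ⟨Y, hY, Y5, Yt⟩ := h.liftY ht tt
  have hc : (X0 * Y) ^ 4 ∈ zpowers z :=
    toZ (ppow (pmul hX0 hY) 4) (by decide) ((X0t.mul_left Yt).pow_left 4)
  obtain ⟨c, ec⟩ : ∃ c, c = (X0 * Y) ^ 4 := ⟨_, rfl⟩
  rw [← ec] at hc
  have c3 := h.Qe c (h.ZQ hc)
  have cX : Commute X0 c⁻¹ := Commute.inv_right (comm_of_zp (h.gz hX0) hc)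
  have cY : Commute Y c⁻¹ := Commute.inv_right (comm_of_zp (h.gz hY) hc)
  have hX := h.gr.mulK hX0 (inv_mem (h.ZQ hc))
  have X3 : (X0 * c⁻¹) ^ 3 = 1 := by rw [cX.mul_pow, X03, inv_pow, c3]; simp
  have XY4 : (X0 * c⁻¹ * Y) ^ 4 = 1 := by
    rw [mul_assoc, ← cY.eq, ← mul_assoc, (cX.mul_left cY).mul_pow, ← ec, inv_pow, pow_succ, c3]
    simp
  have Xt : Commute (X0 * c⁻¹) t :=
    X0t.mul_left (Commute.inv_left (comm_of_zp tz hc).symm)
  generalize X0 * c⁻¹ = X at hX X3 XY4 Xt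
  have XY2 : (X * Y) ^ 2 = t := by
    have c1 : Commute ((X * Y) ^ 2) t := (Xt.mul_left Yt).pow_left 2
    have h1 := toZ (pmul (ppow (pmul hX hY) 2) ht) (by decide) (c1.mul_left (Commute.refl t))
    have h2 := eq_one_of_sq_cube (by
      rw [← sq, c1.mul_pow, ← pow_mul, XY4, sq, tt, one_mul]) (h.Qe _ (h.ZQ h1))
    rw [eq_inv_of_mul_eq_one_left h2, inv_eq_of_mul_eq_one_right tt]
  obtain ⟨ι, -, iX, iY⟩ := exists_hom_sl25 X3 Y5 XY4 (by rw [XY2]; exact Xt.eq)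
    (by rw [XY2]; exact fun e => sl25_neg_one_ne (h.gr.one ht (e ▸ Q.one_mem)))
  refine ⟨ι, fun σ => ?_, fun q hq => ?_⟩
  · have : Subgroup.closure {slX, slY} ≤ Γ.comap ((MonoidHom.id SL25).prod ι) := by
      rw [closure_le]
      rintro s (rfl | rfl)
      · rw [← iX] at hX; exact hX
      · rw [← iY] at hY; exact hY
    exact this (closure_slXY ▸ mem_top σ)
  · rw [← slXY_sq, map_pow, map_mul, iX, iY, XY2]
    exact h.inv_mod tt tz hC.le hq

end Hy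

theorem s1 : H99.HN.S1Stmt.{u} := by
  intro G _ _ S Z hZ C hC Q hQ hex hc he hCQ hx e
  have hSC : (S : Subgroup G) ≤ C := by
    rw [hC, le_centralizer_iff, hZ]; exact inf_le_right
  have hQS : Q ≤ S := by
    rw [hQ, H3.pCore_eq_normalCore (S.subtype hSC), map_le_iff_le_comap]
    exact normalCore_le _
  have hZQ : Z ≤ Q ⊓ C[Q] := by
    have : Z ≤ C[Q] := hZ ▸ inf_le_right.trans (centralizer_le hQS)
    exact le_inf (this.trans hCQ) this
  have hm : (center Q).map Q.subtype = Q ⊓ C[Q] := by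
    ext g
    constructor
    · rintro ⟨a, ha, rfl⟩
      exact ⟨a.2, fun b hb => congrArg Subtype.val (mem_center_iff.1 ha ⟨b, hb⟩)⟩
    · rintro ⟨h1, h2⟩
      exact ⟨⟨g, h1⟩, mem_center_iff.2 fun b => Subtype.ext (h2 b b.2), rfl⟩
  have h3 : Nat.card (Q ⊓ C[Q] : Subgroup G) = 3 := by
    rw [← hm, card_map_of_injective Q.subtype_injective, hex.2]
  obtain ⟨z, hz, z1⟩ : ∃ z ∈ Z, z ≠ 1 := by
    have : Nontrivial S := (Subgroup.nontrivial_iff_ne_bot _).2 fun hb => by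
      rw [hb, le_bot_iff] at hQS
      rw [hQS] at hc
      simp at hc
    have := S.isPGroup'.center_nontrivial
    obtain ⟨a, ha⟩ := exists_ne (1 : center S)
    refine ⟨a.1.1, hZ ▸ ⟨a.1.2, fun b hb => congrArg Subtype.val (mem_center_iff.1 a.2 ⟨b, hb⟩)⟩,
      fun hh => ha (Subtype.ext (Subtype.ext hh))⟩
  have z3 := he z (hZQ hz).1
  have e1 : zpowers z = Q ⊓ C[Q] := eq_of_le_of_card_ge (zpowers_le.2 (hZQ hz)) (by
    rw [h3, Nat.card_zpowers, orderOf_eq_prime z3 z1])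
  have e2 : Z = zpowers z := le_antisymm (e1 ▸ hZQ) (zpowers_le.2 hz)
  rw [e2, centralizer_zpowers] at hC
  subst hC
  have hQC : Q ≤ C1[z] := hQ ▸ map_subtype_le _
  obtain ⟨Γ, gr, hΓ⟩ := exists_gr (K := Q) (e.toMonoidHom.comp (QuotientGroup.mk' _))
    (fun y => by
      rw [hQ, MonoidHom.comp_apply, MulEquiv.coe_toMonoidHom, MulEquiv.map_eq_one_iff,
        QuotientGroup.mk'_apply, QuotientGroup.eq_one_iff]
      exact (mem_map_iff_mem (C1[z]).subtype_injective).symm) hQC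
  have NQ : N[zpowers z] ≤ N[Q] := by
    rw [hQ]
    refine le_trans ?_ (H84.normalizer_le_normalizer_pCoreOf (p := 3) C1[z])
    rw [← centralizer_zpowers]
    exact (centralizer_normalIn_normalizer _).2
  have h : Hy z Q Γ := ⟨z3, z1, (hZQ hz).1, hc, he, fun a ha b hb => ?_, NQ, hCQ, gr, fun σ => ?_⟩
  · obtain ⟨ι, h1, h2⟩ := h.exists_ι
    refine ⟨z, Q, ι, z3, z1, h.zQ, hc, he, fun a ha => mem_centralizer_singleton_iff.1 (hQC ha),
      h.QQ, fun a ha hb => e1 ▸ ⟨ha, fun b hb' => (hb b hb').symm⟩, fun g hg q hq => ?_,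
      fun k => h.gz (h1 k), fun k hk => gr.one (h1 k) hk, fun r hr => ?_, h2, ⟨S, hZ ▸ e2⟩, ?_⟩
    · refine conj_mem_of_mem_normalizer (NQ (mem_normalizer_of_cj_le ?_)) hq
      refine cj_le_iff.2 ?_
      rintro _ ⟨k, rfl⟩
      rw [← conj_zpow]
      exact zpow_mem hg k
    · obtain ⟨σ, hσ⟩ := gr.ex (mem_centralizer_singleton_iff.2 hr)
      exact ⟨_, gr.div hσ (h1 σ), σ, by group⟩
    · obtain ⟨x, a1, a2⟩ := hx
      rw [e2, MonoidHom.map_zpowers] at a1 a2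
      refine ⟨x, zpowers_le.1 a1, fun hh => a2 (eq_of_le_of_card_ge (zpowers_le.2 hh) ?_)⟩
      rw [Nat.card_zpowers, Nat.card_zpowers]
      exact ((MulAut.conj x).orderOf_eq z).ge
  · rw [e1, ← hm, ← hex.1.2.2]
    exact ⟨_, commutator_mem_commutator (mem_top (⟨a, ha⟩ : Q)) (mem_top ⟨b, hb⟩), rfl⟩
  · obtain ⟨y, hy⟩ := QuotientGroup.mk'_surjective _ (e.symm σ)
    exact ⟨y, (hΓ σ y).2 ⟨y.2, by
      rw [MonoidHom.comp_apply, Subtype.coe_eta, hy]; exact e.apply_symm_apply σ⟩⟩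

end Cfsg.Agent.H9.HnS1
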