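import Cfsg.Agent.H9.KCSpec

/-! Elementary consequences of the class data. -/

set_option autoImplicit false

namespace Cfsg.Agent.H9.KC

open Finset

variable {ι : Type*} [Fintype ι] {N : ℕ} {o c : ι → ℕ}

theorem Base.cpos (h : Base N o c) (i : ι) : 0 < c i := Nat.pos_of_dvd_of_pos (h.a1.dvd i) h.a1.pos

theorem Base.opos (h : Base N o c) (i : ι) : 0 < o i := Nat.pos_of_dvd_of_pos (h.a1.od i) (h.cpos i)

theorem Base.odN (h : Base N o c) (i : ι) : o i ∣ N := (h.a1.od i).trans (h.a1.dvd i)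

theorem Base.ole (h : Base N o c) (i : ι) : o i ≤ c i := Nat.le_of_dvd (h.cpos i) (h.a1.od i)

theorem Base.ord (h : Base N o c) {p : ℕ} (hp : p.Prime) (hN : p ∣ N) :
    ∃ j, o j = p ∧ ¬ p ∣ N / c j := by
  obtain ⟨i, h1, h2, -⟩ := h.a1.one
  obtain ⟨j, h3, -, h4⟩ := h.a1.ext i p hp (h2 ▸ hN) (by rw [h1]; exact hp.not_dvd_one)
  exact ⟨j, by rw [h3, h1, mul_one], h2 ▸ h4⟩

theorem Base.n120 (h : Base N o c) : 120 ≤ N := by
  obtain ⟨j, hj, -⟩ := h.ord Nat.prime_two h.a4.two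
  have h8 : 8 ∣ N := (h.a4.h8 j (by omega) fun r hr hd =>
    (Nat.prime_dvd_prime_iff_eq hr Nat.prime_two).1 (hj ▸ hd)).trans (h.a1.dvd j)
  obtain ⟨p, q, hp, hq, h2, hpq, h3, h4⟩ := h.a4.three
  have c1 : Nat.Coprime p q := (Nat.coprime_primes hp hq).2 hpq.ne
  have c2 : Nat.Coprime 8 (p * q) := by
    refine Nat.Coprime.pow_left 3 (m := 2) (Nat.Coprime.mul_right ?_ ?_)
    · exact (Nat.coprime_primes Nat.prime_two hp).2 h2.ne
    · exact (Nat.coprime_primes Nat.prime_two hq).2 (h2.trans hpq).ne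
  have := Nat.le_of_dvd h.a1.pos (c2.mul_dvd_of_dvd_of_dvd h8 (c1.mul_dvd_of_dvd_of_dvd h3 h4))
  have hq5 : 5 ≤ q := by
    by_contra hh
    have : q = 4 := by omega
    subst this
    exact absurd hq (by decide)
  have : 3 * 5 ≤ p * q := Nat.mul_le_mul h2 hq5
  omega

theorem Base.cast_div (h : Base N o c) (i : ι) : ((N / c i : ℕ) : ℚ) = N * (1 / (c i : ℚ)) := by
  rw [Nat.cast_div (h.a1.dvd i) (by have := h.cpos i; positivity), mul_one_div]

theorem Base.sum_inv (h : Base N o c) : ∑ i, 1 / (c i : ℚ) = 1 := by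
  have h1 : ((∑ i, N / c i : ℕ) : ℚ) = N := by rw [h.a1.sum]
  have h2 : (N : ℚ) ≠ 0 := by have := h.a1.pos; positivity
  rw [Nat.cast_sum, sum_congr rfl fun i _ => h.cast_div i, ← mul_sum] at h1
  exact mul_left_cancel₀ h2 (by rw [h1, mul_one])

theorem Base.sing_inv (h : Base N o c) {q : ℕ} (hq : q.Prime) (hN : ¬ q * q ∣ N) :
    ∑ i ∈ univ.filter (fun i => q ∣ o i), 1 / (c i : ℚ) = (mC o q : ℚ) / q := by
  have h1 : ((q * ∑ i ∈ univ.filter (fun i => q ∣ o i), N / c i : ℕ) : ℚ) = (mC o q * N : ℕ) := by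
    rw [h.a2.sing q hq hN]
  have h2 : (N : ℚ) ≠ 0 := by have := h.a1.pos; positivity
  have h3 : (q : ℚ) ≠ 0 := by have := hq.pos; positivity
  rw [Nat.cast_mul, Nat.cast_sum, sum_congr rfl fun i _ => h.cast_div i, ← mul_sum,
    Nat.cast_mul] at h1
  rw [eq_div_iff h3]
  exact mul_left_cancel₀ h2 (by linear_combination h1)

theorem mC_le_sC (o : ι → ℕ) (q : ℕ) : mC o q ≤ sC o q :=
  card_le_card fun i hi => by simp only [mem_filter, mem_univ, true_and] at hi ⊢; rw [hi]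

theorem mC_lt_sC {q : ℕ} {i : ι} (h1 : q ∣ o i) (h2 : o i ≠ q) : mC o q < sC o q :=
  card_lt_card ⟨fun i hi => by simp only [mem_filter, mem_univ, true_and] at hi ⊢; rw [hi],
    fun hh => h2 (by simpa using hh (x := i) (by simpa using h1))⟩

theorem exists_of_lt {q : ℕ} (h : mC o q ≠ sC o q) : ∃ i, q ∣ o i ∧ o i ≠ q := by
  by_contra hh
  push Not at hh
  refine h (congrArg card ?_)
  ext i
  simp only [mem_filter, mem_univ, true_and]
  exact ⟨fun h => by rw [h], hh i⟩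

theorem exists_of_mC {q : ℕ} (h : 0 < mC o q) : ∃ i, o i = q := by
  obtain ⟨i, hi⟩ := card_pos.1 h
  exact ⟨i, by simpa using hi⟩

theorem two_mul_le {q n : ℕ} (hn : 0 < n) (h1 : q ∣ n) (h2 : n ≠ q) : 2 * q ≤ n := by
  obtain ⟨t, rfl⟩ := h1
  have : t ≠ 0 := by rintro rfl; simp at hn
  have : t ≠ 1 := by rintro rfl; simp at h2
  rw [mul_comm]
  exact Nat.mul_le_mul_left q (by omega)

theorem Base.two_m (h : Base N o c) {q : ℕ} (hq : q.Prime) (hN : ¬ q * q ∣ N) :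
    mC o q = sC o q ∨ 2 * mC o q ≤ sC o q := by
  refine or_iff_not_imp_left.2 fun hne => ?_
  obtain ⟨k, hk, hk'⟩ := exists_of_lt hne
  obtain ⟨j, hj, hj'⟩ := h.a1.pow k q hk
  have h1 : ∀ i ∈ univ.filter (fun i => q ∣ o i), 1 / (c i : ℚ) ≤ 1 / (2 * q : ℕ) := by
    intro i hi
    refine one_div_le_one_div_of_le (by have := hq.pos; positivity) (Nat.cast_le.2 ?_)
    by_cases hi' : o i = q
    · rw [h.a2.same q hq hN i j hi' hj]
      exact ((two_mul_le (h.opos k) hk hk').trans (h.ole k)).trans (Nat.le_of_dvd (h.cpos j) hj')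
    · exact (two_mul_le (h.opos i) (by simpa using hi) hi').trans (h.ole i)
  have h2 := sum_le_sum h1
  rw [h.sing_inv hq hN, sum_const, nsmul_eq_mul] at h2
  have h3 : (0 : ℚ) < q := by have := hq.pos; positivity
  change _ ≤ (sC o q : ℚ) * _ at h2
  rw [mul_one_div, div_le_div_iff₀ h3 (by have := hq.pos; positivity)] at h2
  push_cast at h2
  have : (2 * mC o q : ℚ) ≤ sC o q := le_of_mul_le_mul_right (by linarith) h3
  exact_mod_cast this

theorem Base.not31 (h : Base N o c) (hN : ¬ 3 * 3 ∣ N) (hm : 0 < mC o 3) : sC o 3 ≠ 1 := by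
  intro hs
  have h1 := h.sing_inv Nat.prime_three hN
  have h2 : mC o 3 = 1 := by have := mC_le_sC o 3; omega
  obtain ⟨i, hi⟩ := card_eq_one.1 hs
  rw [hi, h2, sum_singleton] at h1
  refine h.a4.c3 i ?_
  have h3 : (c i : ℚ) = 3 := by
    have := congrArg (fun x : ℚ => x⁻¹) h1
    simpa using this
  exact_mod_cast h3

theorem Base.gal (h : Base N o c) {q : ℕ} (hq : q.Prime) (h2 : q ≠ 2) (hN : q ∣ N) :
    ∃ m e, m * e + 1 = q ∧ m ≤ mC o q ∧ (∀ d, d ∣ e → ∃ j, o j = d) ∧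
      (¬ q * q ∣ N → 2 ≤ e ∧ mC o q = m) ∧ ¬ (q = 3 ∧ m = 2) := by
  obtain ⟨m, e, h3, h4, h5, h6⟩ := h.a2.gal q hq h2 hN
  by_cases hh : q = 3 ∧ m = 2
  · obtain ⟨rfl, rfl⟩ := hh
    refine ⟨1, 2, rfl, by omega, fun d hd => ?_, fun hn => by have := h6 hn; omega, by omega⟩
    rcases (Nat.dvd_prime Nat.prime_two).1 hd with rfl | rfl
    · exact h5 1 (one_dvd _)
    · exact (h.ord Nat.prime_two h.a4.two).imp fun j hj => hj.1
  · exact ⟨m, e, h3, h4, h5, h6, hh⟩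

variable {P : List PP} {So M : List ℕ}

theorem mem_Reg {i : ι} : i ∈ Reg o P ↔ o i ≠ 1 ∧ ∀ x ∈ P, ¬ x.q ∣ o i := by simp [Reg]

theorem Pr.memM (hp : Pr N o P So M) {x : PP} (hx : x ∈ P) {i : ι} (h1 : x.q ∣ o i)
    (h2 : o i ≠ x.q) : x.q ∈ M := by
  obtain ⟨-, -, -, -, h3, h4, -⟩ := hp.pP x hx
  exact (hp.pM _).2 ⟨x, hx, rfl, by have := mC_lt_sC h1 h2; omega⟩

theorem Pr.primeM (hp : Pr N o P So M) {p : ℕ} (h : p ∈ M) :
    p.Prime ∧ 2 < p ∧ ¬ p * p ∣ N := by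
  obtain ⟨x, hx, rfl, -⟩ := (hp.pM p).1 h
  obtain ⟨h1, h2, -, h3, -⟩ := hp.pP x hx
  exact ⟨h1, h2, h3⟩

theorem Base.kind0 (h : Base N o c) (hp : Pr N o P So M) {q : ℕ} (hq : q ∈ So) {i : ι}
    (hi : o i = q) : q * q ∣ c i ∨ ∃ p ∈ M, p < q ∧ q * p ∣ c i := by
  obtain ⟨h1, -, -, -, h2⟩ := hp.pS q hq
  by_cases hN : q * q ∣ N
  · exact Or.inl (h.a1.sq i q h1 (fun r hr hd =>
      (Nat.prime_dvd_prime_iff_eq hr h1).1 (hi ▸ hd)) hN)
  · obtain ⟨p, hp', h3, k, hk⟩ := h2.resolve_left hN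
    obtain ⟨j, hj, hj'⟩ := h.a1.pow k q ((dvd_mul_right q p).trans hk)
    exact Or.inr ⟨p, hp', h3, by
      rw [h.a2.same q h1 hN i j hi hj]; exact (hk.trans (h.a1.od k)).trans hj'⟩

theorem Base.ne_gen (h : Base N o c) (hp : Pr N o P So M) {q : ℕ} (hq : q ∈ So) {i : ι}
    (hi : o i ≠ 1) : c i ≠ q := by
  intro hc
  obtain ⟨h1, h2, -⟩ := hp.pS q hq
  have h3 := ((Nat.dvd_prime h1).1 (hc ▸ h.a1.od i)).resolve_left hi
  rcases h.kind0 hp hq h3 with h4 | ⟨p, hp', -, h4⟩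
  · have := Nat.le_of_dvd (h.cpos i) h4
    nlinarith
  · have := Nat.le_of_dvd (h.cpos i) h4
    have := (hp.primeM hp').2.1
    nlinarith

/-- A class `≠ 1` has centralizer order divisible by `8` or order divisible by an odd prime. -/
theorem Base.eight_or (h : Base N o c) {i : ι} (hi : o i ≠ 1) :
    8 ∣ c i ∨ ∃ r, r.Prime ∧ r ≠ 2 ∧ r ∣ o i := by
  refine or_iff_not_imp_right.2 fun hh => h.a4.h8 i hi fun r hr hd => ?_
  by_contra h2
  exact hh ⟨r, hr, h2, hd⟩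

theorem Base.lcm (h : Base N o c) (hp : Pr N o P So M) {D : ℕ} (hD : ∀ x ∈ P, x.q ∣ D) (K : ℕ)
    (hK : D ∣ K) (hc : ∀ i ∈ Reg o P, c i ∣ K) : N ∣ K := by
  refine (Nat.dvd_iff_prime_pow_dvd_dvd K N).2 fun p k hpp hk => ?_
  rcases Nat.eq_zero_or_pos k with rfl | hk0
  · simp
  have hpN : p ∣ N := (dvd_pow_self p hk0.ne').trans hk
  by_cases hx : ∃ x ∈ P, x.q = p
  · obtain ⟨x, hx, rfl⟩ := hx
    have : k = 1 := by
      by_contra hne
      refine (hp.pP x hx).2.2.2.1 (Dvd.dvd.trans ?_ hk)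
      rw [← pow_two]; exact pow_dvd_pow _ (by omega)
    rw [this, pow_one]
    exact (hD x hx).trans hK
  · obtain ⟨j, hj, hj'⟩ := h.ord hpp hpN
    refine Dvd.dvd.trans ?_ (hc j (mem_Reg.2 ⟨hj ▸ hpp.one_lt.ne', fun x hx' hd => hx ⟨x, hx',
      (Nat.prime_dvd_prime_iff_eq (hp.pP x hx').1 hpp).1 (hj ▸ hd)⟩⟩))
    rw [← Nat.mul_div_cancel' (h.a1.dvd j)] at hk
    exact (((Nat.Prime.coprime_iff_not_dvd hpp).2 hj').pow_left k).dvd_of_dvd_mul_right hk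

end Cfsg.Agent.H9.KC
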