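import Cfsg.Agent.H9.KCRunS

/-! Needs, feasibility and the enumeration of the exponents. -/

set_option autoImplicit false

namespace Cfsg.Agent.H9.KC

open Finset

universe u

theorem getM_spec (sg : List PP) (d : ℕ) (h : getM sg d ≠ 0) :
    ∃ x ∈ sg, x.q = d ∧ x.m = getM sg d := by
  induction sg with
  | nil => exact absurd rfl h
  | cons x l ih =>
    change cond (Nat.beq x.q d) x.m (getM l d) ≠ 0 at h
    change ∃ y ∈ x :: l, y.q = d ∧ y.m = cond (Nat.beq x.q d) x.m (getM l d)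
    cases hb : Nat.beq x.q d
    · rw [hb] at h
      obtain ⟨y, hy, h1⟩ := ih h
      exact ⟨y, List.mem_cons_of_mem _ hy, h1⟩
    · exact ⟨x, List.mem_cons_self, beq_iff.1 hb, rfl⟩

theorem minL_spec (a : ℕ) (l : List ℕ) (ha : 0 < a) (hl : ∀ b ∈ l, 0 < b) :
    0 < minL a l ∧ ∀ b ∈ l, minL a l ≤ b := by
  induction l with
  | nil => exact ⟨ha, by simp⟩
  | cons b l ih =>
    obtain ⟨h1, h2⟩ := ih fun x hx => hl x (List.mem_cons_of_mem _ hx)
    have e : minL a (b :: l) = min b (minL a l) := mn_eq _ _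
    have := hl b List.mem_cons_self
    rw [e]
    refine ⟨by omega, fun x hx => ?_⟩
    rcases List.mem_cons.1 hx with rfl | hx
    · omega
    · have := h2 x hx; omega

theorem np_single (d n a b : ℕ) {x : ℕ} (h : b ∣ x) : np ⟨d, n, a, [b], false⟩ x = true := by
  rw [np, cond_false_right]
  exact ⟨anyL_iff.2 ⟨b, List.mem_singleton_self b, dv_iff.2 h⟩, rfl⟩

variable {ι : Type u} [Fintype ι] {N : ℕ} {o c : ι → ℕ}

theorem mkK_sound (h : Base N o c) {z : St} (hz : Inv N o c z) {d : ℕ} (h1 : 1 < d)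
    (h2 : ∃ i, o i = d) (h3 : ∀ x ∈ z.P, ¬ x.q ∣ d) : ∃ x : Need, x.d = d ∧ x.f = false ∧ 0 < x.n ∧
      0 < x.cm ∧ x.n ≤ mC o d ∧ (∀ i, o i = d → np x (c i) = true ∧ x.cm ≤ c i) ∧
      ∀ k, mkK z.sg z.M d k = k x := by
  have hm : 1 ≤ mC o d := by
    obtain ⟨i, hi⟩ := h2
    exact card_pos.2 ⟨i, by simpa using hi⟩
  by_cases h0 : getM z.sg d = 0
  · by_cases h4 : d = 2 ^ Nat.log2 d
    · refine ⟨⟨d, 1, mx d 8, [mx d 8], false⟩, rfl, rfl, one_pos,
        by change 0 < mx d 8; rw [mx_eq]; omega, hm,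
        fun i hi => ?_, fun k => ?_⟩
      · have h5 : mx d 8 ∣ c i := by
          rw [mx_eq]
          rcases max_choice d 8 with e | e <;> rw [e]
          · exact hi ▸ h.a1.od i
          · exact h.a4.h8 i (by omega) fun r hr hd => (Nat.prime_dvd_prime_iff_eq hr
              Nat.prime_two).1 (hr.dvd_of_dvd_pow (h4 ▸ hi ▸ hd))
        exact ⟨np_single _ _ _ _ h5, Nat.le_of_dvd (h.cpos i) h5⟩
      · rw [mkK, force_eq, beq_iff.2 h0, cond_true, beq_iff.2 (show d = Nat.pow 2 _ from h4)]; rfl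
    · refine ⟨⟨d, 1, d, [d], false⟩, rfl, rfl, one_pos, one_pos.trans h1, hm, fun i hi =>
        ⟨np_single _ _ _ _ (hi ▸ h.a1.od i), hi ▸ h.ole i⟩, fun k => ?_⟩
      have : Nat.beq d (Nat.pow 2 (Nat.log2 d)) = false :=
        Bool.eq_false_iff.2 fun hh => h4 (beq_iff.1 hh)
      rw [mkK, force_eq, beq_iff.2 h0, cond_true, this]; rfl
  · obtain ⟨x, hx, rfl, e⟩ := getM_spec _ _ h0
    obtain ⟨-, -, -, h4, h5, h6⟩ := hz.sg x hx
    have h7 : x.q ∈ z.So := h6 (by_contra fun hh => h3 x (h5 hh) dvd_rfl)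
    set alt := (x.q :: z.M.filter fun p => Nat.ble p x.q).map (Nat.mul x.q) with halt
    obtain ⟨h8, h9⟩ := minL_spec (Nat.mul x.q x.q) alt (Nat.mul_pos (by omega) (by omega)) (by
      intro b hb
      obtain ⟨p, hp, rfl⟩ := List.mem_map.1 hb
      refine Nat.mul_pos (by omega) ?_
      rcases List.mem_cons.1 hp with rfl | hp
      · omega
      · exact (hz.pr.primeM (List.mem_filter.1 hp).1).1.pos)
    refine ⟨⟨x.q, getM z.sg x.q, minL (Nat.mul x.q x.q) alt, alt, false⟩, rfl, rfl,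
      Nat.pos_of_ne_zero h0, h8, e ▸ h4, fun i hi => ?_, fun k => ?_⟩
    · have : ∃ b ∈ alt, b ∣ c i := by
        rcases h.kind0 hz.pr h7 hi with h10 | ⟨p, hp, h10, h11⟩
        · exact ⟨_, List.mem_map_of_mem List.mem_cons_self, h10⟩
        · exact ⟨_, List.mem_map_of_mem (List.mem_cons_of_mem _
            (List.mem_filter.2 ⟨hp, ble_iff.2 h10.le⟩)), h11⟩
      obtain ⟨b, hb, h10⟩ := this
      refine ⟨?_, (h9 b hb).trans (Nat.le_of_dvd (h.cpos i) h10)⟩
      rw [np, cond_false_right]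
      exact ⟨anyL_iff.2 ⟨b, hb, dv_iff.2 h10⟩, rfl⟩
    · have : Nat.beq (getM z.sg x.q) 0 = false := Bool.eq_false_iff.2 fun hh => h0 (beq_iff.1 hh)
      rw [mkK, force_eq, this, cond_false, filtK_eq, forceL_eq, force_eq, mapL_eq]

theorem cnt_Reg {P : List PP} {d : ℕ} (h1 : 1 < d) (h3 : ∀ x ∈ P, ¬ x.q ∣ d) (f : Bool)
    (hf : f = false) :
    mC o d ≤ #{i ∈ Reg o P | o i = d ∧ (f = true → c i % 4 = 2)} := by
  refine card_le_card fun i hi => ?_
  simp only [mem_filter, mem_univ, true_and] at hi ⊢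
  exact ⟨mem_Reg.2 ⟨by omega, hi ▸ h3⟩, hi, by simp [hf]⟩

theorem needK_sound (h : Base N o c) {z : St} (hz : Inv N o c z) {W : List ℕ} (hW : W.Nodup)
    (hw : ∀ d ∈ W, 1 < d ∧ ∃ i, o i = d) : ∃ nd, NV o c (Reg o z.P) nd ∧ (∀ x ∈ nd, 0 < x.n) ∧
      (∀ x ∈ nd, x.d ∈ W) ∧ ∀ k, needK z.sg z.P z.M W k = k nd := by
  induction W with
  | nil => exact ⟨[], ⟨by simp, by simp, by simp, by simp⟩, by simp, by simp, fun k => rfl⟩
  | cons d W ih =>
    rw [List.nodup_cons] at hW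
    obtain ⟨nd, h1, h2, h3, h4⟩ := ih hW.2 fun a ha => hw a (List.mem_cons_of_mem _ ha)
    have e : ∀ k, needK z.sg z.P z.M (d :: W) k = cond (anyL z.P fun x => dv x.q d)
      (needK z.sg z.P z.M W k) (mkK z.sg z.M d fun x => needK z.sg z.P z.M W fun l => k (x :: l)) :=
      fun k => rfl
    cases hb : anyL z.P fun x => dv x.q d
    · have h5 : ∀ x ∈ z.P, ¬ x.q ∣ d := fun x hx hd =>
        Bool.eq_false_iff.1 hb (anyL_iff.2 ⟨x, hx, dv_iff.2 hd⟩)
      obtain ⟨h6, h7⟩ := hw d List.mem_cons_self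
      obtain ⟨x, rfl, a2, a3, a4, a5, a6, a7⟩ := mkK_sound h hz h6 h7 h5
      refine ⟨x :: nd, ⟨?_, ?_, ?_, ?_⟩, ?_, ?_, fun k => by rw [e, hb, cond_false, a7, h4]⟩
      · rw [List.map_cons, List.nodup_cons]
        refine ⟨fun hh => hW.1 ?_, h1.nodup⟩
        obtain ⟨y, hy, e⟩ := List.mem_map.1 hh
        exact e ▸ h3 y hy
      · exact List.forall_mem_cons.2 ⟨a4, h1.pos⟩
      · exact List.forall_mem_cons.2 ⟨a5.trans (cnt_Reg h6 h5 _ a2), h1.cnt⟩
      · exact List.forall_mem_cons.2 ⟨fun i hi _ => a6 i hi, h1.ok⟩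
      · exact List.forall_mem_cons.2 ⟨a3, h2⟩
      · exact List.forall_mem_cons.2 ⟨List.mem_cons_self,
          fun y hy => List.mem_cons_of_mem _ (h3 y hy)⟩
    · exact ⟨nd, h1, h2, fun y hy => List.mem_cons_of_mem _ (h3 y hy),
        fun k => by rw [e, hb, cond_true, h4]⟩

theorem loF_sound (h : Base N o c) {z : St} (hz : Inv N o c z) {q : ℕ} (hq : 0 < q)
    (hc : ∀ p, p.Prime → p ∣ N → p < q → p ≤ z.last) :
    0 < loF z.So q ∧ ∀ i ∈ Reg o z.P, loF z.So q ≤ c i := by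
  have e : loF z.So q ≤ q ∧ 0 < loF z.So q ∧ loF z.So q ≤ 8 ∧ (3 ∈ z.So → loF z.So q ≤ 6) := by
    rw [loF, mn_eq]
    cases hb : anyL z.So fun q => Nat.beq q 3
    · have : 3 ∉ z.So := fun hh => Bool.eq_false_iff.1 hb (anyL_iff.2 ⟨3, hh, rfl⟩)
      cases Nat.ble q 3 <;> simp only [cond_true, cond_false] <;>
        exact ⟨by omega, by omega, by omega, fun hh => absurd hh this⟩
    · simp only [cond_true]; omega
  obtain ⟨e1, e2, e3, e4⟩ := e
  refine ⟨e2, fun i hi => ?_⟩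
  obtain ⟨h1, h2⟩ := mem_Reg.1 hi
  rcases h.eight_or h1 with h3 | ⟨r, hr, h3, h4⟩
  · exact e3.trans (Nat.le_of_dvd (h.cpos i) h3)
  · have h5 := h4.trans (h.a1.od i)
    have h6 := Nat.le_of_dvd (h.cpos i) h5
    by_cases h7 : r < q
    · have h8 := h4.trans (h.odN i)
      rcases hz.cpl r hr h8 (hc r hr h8 h7) with h9 | h9 | ⟨x, hx, rfl⟩
      · exact absurd h9 h3
      · have a1 := two_mul_le (h.cpos i) h5 (h.ne_gen hz.pr h9 h1)
        have a2 := (hz.pr.pS r h9).2.1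
        by_cases a3 : r = 3
        · subst a3; have := e4 h9; omega
        · omega
      · exact absurd h4 (h2 x hx)
    · omega

theorem feas_sound (h : Base N o c) {z : St} (hz : Inv N o c z) {nd : List Need}
    (hn : NV o c (Reg o z.P) nd) {lo sn sd : ℕ} (hlo : 0 < lo) (hR : ∀ i ∈ Reg o z.P, lo ≤ c i)
    (hd : 0 < sd) (hs : (sn : ℚ) / sd = sgQ nd) :
    sgN nd ≤ 11 - z.used ∧ feas z.A z.D (Nat.sub 11 z.used) lo (sgN nd) sn sd = true := by
  obtain ⟨h1, h2⟩ := hn.bound hlo hR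
  have h3 : #(Reg o z.P) ≤ 11 - z.used := by have := h.hk; have := hz.used; omega
  refine ⟨h1.trans h3, ?_⟩
  rw [feas, cond_false_right, ble_iff, ble_iff]
  refine ⟨h1.trans h3, ?_⟩
  simp only [Nat.mul_eq, Nat.add_eq, Nat.sub_eq]
  have hD : (0 : ℚ) < z.D := by exact_mod_cast Nat.pos_of_dvd_of_pos hz.dN h.a1.pos
  have hlo' : (0 : ℚ) < lo := by exact_mod_cast hlo
  have hd' : (0 : ℚ) < sd := by exact_mod_cast hd
  have h4 : (1 : ℚ) / N ≤ 1 / 120 :=
    one_div_le_one_div_of_le (by norm_num) (by exact_mod_cast h.n120)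
  have h5 : ((#(Reg o z.P) - sgN nd : ℕ) : ℚ) / lo ≤ ((11 - z.used - sgN nd : ℕ) : ℚ) / lo :=
    div_le_div_of_nonneg_right (by exact_mod_cast Nat.sub_le_sub_right h3 _) hlo'.le
  have h6 : (z.A : ℚ) / z.D ≤ 1 / 120 + sn / sd + ((11 - z.used - sgN nd : ℕ) : ℚ) / lo := by
    rw [hz.eq, hs]; linarith
  generalize 11 - z.used - sgN nd = t at h6 ⊢
  rw [div_le_iff₀ hD] at h6
  have h7 := mul_le_mul_of_nonneg_right h6 (show (0 : ℚ) ≤ 120 * sd * lo by positivity)
  have h8 : (1 / 120 + (sn : ℚ) / sd + (t : ℚ) / lo) * z.D * (120 * sd * lo) =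
      z.D * (sd * lo + 120 * (sn * lo + t * sd)) := by field_simp; ring
  rw [h8] at h7
  have : (z.A : ℚ) * 120 * sd * lo ≤ z.D * (sd * lo + 120 * (sn * lo + t * sd)) := by linarith
  exact_mod_cast this

theorem insK_spec (G : ℕ → Prop) (ds W : List ℕ) (hd : ∀ d ∈ ds, G d) (hW : W.Nodup)
    (hw : ∀ d ∈ W, G d) : ∃ W', W'.Nodup ∧ (∀ d ∈ W', G d) ∧ ∀ k, insK ds W k = k W' := by
  induction ds generalizing W with
  | nil => exact ⟨W, hW, hw, fun k => rfl⟩
  | cons d ds ih =>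
    have e : ∀ k, insK (d :: ds) W k = cond (anyL W fun a => Nat.beq a d) (insK ds W k)
      (insK ds (d :: W) k) := fun k => rfl
    have hd' := fun a ha => hd a (List.mem_cons_of_mem d ha)
    cases hb : anyL W fun a => Nat.beq a d
    · obtain ⟨W', h1, h2, h3⟩ := ih (d :: W) hd' (List.nodup_cons.2 ⟨fun hh =>
        Bool.eq_false_iff.1 hb (anyL_iff.2 ⟨d, hh, beq_iff.2 rfl⟩), hW⟩)
        (List.forall_mem_cons.2 ⟨hd d List.mem_cons_self, hw⟩)
      exact ⟨W', h1, h2, fun k => by rw [e, hb, cond_false, h3]⟩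
    · obtain ⟨W', h1, h2, h3⟩ := ih W hd' hW hw
      exact ⟨W', h1, h2, fun k => by rw [e, hb, cond_true, h3]⟩

section E

variable (G : ℕ → Prop) (E : ℕ) (hE : E ≠ 0) (hG : ∀ d, d ∣ E → 1 < d → G d)
  (hl : ∀ W : List ℕ, W.Nodup → (∀ d ∈ W, G d) → W.length ≤ 9)

include hE hG hl

theorem ePow_spec {p : ℕ} (hp : 1 < p) (f a e : ℕ) (ds top W : List ℕ) (he : e * p ^ a ∣ E)
    (hd : ∀ d ∈ ds, d ∣ e) (ht : ∀ d ∈ top, d ∣ e) (hW : W.Nodup) (hw : ∀ d ∈ W, G d) :
    ∃ ds' W', (∀ d ∈ ds', d ∣ e * p ^ a) ∧ W'.Nodup ∧ (∀ d ∈ W', G d) ∧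
      ∀ k, ePow p k f e ds top W = true → k (e * p ^ a) ds' W' = true := by
  induction f generalizing a e ds top W with
  | zero => exact ⟨[], W, by simp, hW, hw, fun k hk => absurd hk Bool.false_ne_true⟩
  | succ f ih =>
    have e1 : ∀ k, ePow p k (f + 1) e ds top W = cond (k e ds W)
      (forceL (mapL (Nat.mul p) top) fun top' => insK top' W fun W' =>
        cond (Nat.ble (lenL W') 9) (force (Nat.mul e p) fun e' => forceL (top' ++ ds) fun ds' =>
          ePow p k f e' ds' top' W') true) false := fun k => rfl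
    rcases a with _ | a
    · refine ⟨ds, W, by simpa using hd, hW, hw, fun k hk => ?_⟩
      rw [e1, cond_false_right] at hk
      simpa using hk.1
    · have e2 : e * p ^ (a + 1) = e * p * p ^ a := by ring
      rw [e2] at he ⊢
      have h1 : ∀ d ∈ top.map (Nat.mul p), d ∣ e * p := fun d hd => by
        obtain ⟨t, ht', rfl⟩ := List.mem_map.1 hd
        rw [mul_comm]
        exact Nat.mul_dvd_mul_left p (ht t ht')
      obtain ⟨W', h2, h3, h4⟩ := insK_spec G (top.map (Nat.mul p)) W (fun d hd => by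
        have h5 := (h1 d hd).trans ((dvd_mul_right _ _).trans he)
        refine hG d h5 ?_
        obtain ⟨t, -, rfl⟩ := List.mem_map.1 hd
        have : t ≠ 0 := by rintro rfl; exact hE (zero_dvd_iff.1 h5)
        exact hp.trans_le (Nat.le_mul_of_pos_right _ (Nat.pos_of_ne_zero this))) hW hw
      obtain ⟨ds', W'', h5, h6, h7, h8⟩ := ih a (e * p) (top.map (Nat.mul p) ++ ds) _ W' he
        (fun d hd' => (List.mem_append.1 hd').elim (h1 d) fun hh => (hd d hh).mul_right p) h1 h2 h3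
      refine ⟨ds', W'', h5, h6, h7, fun k hk => h8 k ?_⟩
      rw [e1, cond_false_right, forceL_eq, mapL_eq, h4, cond_true_right, ble_iff, lenL_eq,
        force_eq, forceL_eq] at hk
      exact hk.2 (hl W' h2 h3)

theorem eAll_spec (ps : List ℕ) (hp : ∀ p ∈ ps, p.Prime) (e w : ℕ) (ds W : List ℕ)
    (he : e * w = E) (hw' : ∀ p, p.Prime → p ∣ w → p ∈ ps) (hd : ∀ d ∈ ds, d ∣ e) (hW : W.Nodup)
    (hw : ∀ d ∈ W, G d) : ∃ W', W'.Nodup ∧ (∀ d ∈ W', G d) ∧
      ∀ k, eAll k ps e ds W = true → k E W' = true := by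
  induction ps generalizing e w ds W with
  | nil =>
    have : w = 1 := by_contra fun hh => by
      obtain ⟨p, h1, h2⟩ := Nat.exists_prime_and_dvd hh
      simpa using hw' p h1 h2
    rw [this, mul_one] at he
    exact ⟨W, hW, hw, fun k hk => he ▸ hk⟩
  | cons p ps ih =>
    have h1 := hp p List.mem_cons_self
    have h0 : w ≠ 0 := by rintro rfl; exact hE (by simpa using he.symm)
    obtain ⟨a, w', h2, rfl⟩ := Nat.exists_eq_pow_mul_and_not_dvd h0 p h1.ne_one
    rw [← mul_assoc] at he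
    obtain ⟨ds', W', h3, h4, h5, h6⟩ := ePow_spec G E hE hG hl h1.one_lt 12 a e ds ds W
      (Dvd.intro _ he) hd hd hW hw
    obtain ⟨W'', h7, h8, h9⟩ := ih (fun q hq => hp q (List.mem_cons_of_mem _ hq)) _ w' ds' W' he
      (fun q hq hd' => (List.mem_cons.1 (hw' q hq (hd'.mul_left _))).resolve_left
        fun hh => h2 (hh ▸ hd')) h3 h4 h5
    exact ⟨W'', h7, h8, fun k hk => h9 k (h6 (eAll k ps) hk)⟩

end E

theorem length_le_card {W : List ℕ} (hW : W.Nodup) (S : Finset ι)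
    (hw : ∀ d ∈ W, ∃ i ∈ S, o i = d) : W.length ≤ #S := by
  rw [← List.toFinset_card_of_nodup hW]
  refine le_trans (card_le_card fun d hd => ?_) (card_image_le (f := o))
  obtain ⟨i, hi, e⟩ := hw d (List.mem_toFinset.1 hd)
  exact mem_image.2 ⟨i, hi, e⟩

theorem kc_sound {P : List PP} {So M W : List ℕ} (hp : Pr N o P So M) (hW : W.Nodup)
    (hw : ∀ d ∈ W, ∃ i, o i = d) : kc P W = true := by
  classical
  refine allL_iff.2 fun x hx => ble_iff.2 ?_
  obtain ⟨-, -, -, -, h1, h2, -⟩ := hp.pP x hx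
  rw [cntL_eq, List.countP_eq_length_filter, ← h1, ← h2]
  have h3 := length_le_card (o := o) (hW.filter fun d =>
    cond (dv x.q d) (cond (Nat.beq d x.q) false true) false)
    (univ.filter (fun i => x.q ∣ o i) \ univ.filter (fun i => o i = x.q)) (fun d hd => by
      obtain ⟨h4, h5⟩ := List.mem_filter.1 hd
      rw [cond_false_right, cond_false_left, dv_iff, beq_iff] at h5
      obtain ⟨i, rfl⟩ := hw d h4
      exact ⟨i, by simpa using ⟨h5.1, h5.2.1⟩, rfl⟩)
  rw [card_sdiff_of_subset fun i hi => by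
    simp only [mem_filter, mem_univ, true_and] at hi ⊢; rw [hi]] at h3
  have := mC_le_sC o x.q
  exact (Nat.add_le_add_right h3 _).trans (Nat.sub_add_cancel this).le

end Cfsg.Agent.H9.KC
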