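import Cfsg.Agent.H9.KCProg

/-! Part 15 of the class equation search. -/

set_option maxRecDepth 200000

namespace Cfsg.Agent.H9.KC

theorem part15 : go [(true, [310]), (true, [511]), (false, [722, 1311, 1312, 710, 733, 1310, 711, 1122, 712, 720])] root = true := by decide +kernel

end Cfsg.Agent.H9.KC
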