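import Cfsg.Agent.H9.KCProg

/-! Part 36 of the class equation search. -/

set_option maxRecDepth 200000

namespace Cfsg.Agent.H9.KC

theorem part36 : go [(true, [312]), (false, [522, 510, 511, 520, 513, 730, 512, 710])] root = true := by decide +kernel

end Cfsg.Agent.H9.KC
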