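import Cfsg.Agent.H9.KCDefs

/-! The class equation search as a program evaluated by the kernel. -/

set_option autoImplicit false

namespace Cfsg.Agent.H9.KC

/-- Evaluate `a` before continuing. -/
noncomputable def force (a : ℕ) (f : ℕ → Bool) : Bool :=
  Nat.rec (motive := fun _ => Bool) false (fun a' _ => f a') (Nat.succ a)

theorem force_eq (a : ℕ) (f : ℕ → Bool) : force a f = f a := rfl

/-- Divisibility test. -/
def dv (a b : ℕ) : Bool := Nat.beq (Nat.mod b a) 0

noncomputable def allL {α : Type} (l : List α) (p : α → Bool) : Bool :=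
  List.rec (motive := fun _ => Bool) true (fun a _ ih => cond (p a) ih false) l

noncomputable def anyL {α : Type} (l : List α) (p : α → Bool) : Bool :=
  List.rec (motive := fun _ => Bool) false (fun a _ ih => cond (p a) true ih) l

noncomputable def cntL {α : Type} (l : List α) (p : α → Bool) : ℕ :=
  List.rec (motive := fun _ => ℕ) 0 (fun a _ ih => cond (p a) (Nat.succ ih) ih) l

noncomputable def allN (n : ℕ) (p : ℕ → Bool) : Bool :=
  Nat.rec (motive := fun _ => Bool) true (fun a ih => cond (p a) ih false) n

noncomputable def powAll (q hi : ℕ) (k : ℕ → Bool) (f : ℕ) : ℕ → Bool :=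
  Nat.rec (motive := fun _ => ℕ → Bool) (fun _ => false)
    (fun _ ih u => cond (Nat.ble u hi) (cond (k u) (force (Nat.mul u q) ih) false) true) f

noncomputable def smAll (hi : ℕ) (k : ℕ → Bool) (ps : List ℕ) : ℕ → Bool :=
  List.rec (motive := fun _ => ℕ → Bool) k (fun q _ ih => powAll q hi ih 64) ps

noncomputable def two (l hi : ℕ) (k : ℕ → Bool) (u : ℕ) : Bool :=
  force (cond (Nat.ble u l) (Nat.mul u (Nat.pow 2 (Nat.succ (Nat.log2 (Nat.div l u))))) u)
    (powAll 2 hi k 64)

/-- At least `n` further classes of order `d`. -/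
structure Need where
  d : ℕ
  n : ℕ
  cm : ℕ
  alt : List ℕ
  f : Bool

noncomputable def np (x : Need) (c : ℕ) : Bool :=
  cond (anyL x.alt fun a => dv a c) (cond x.f (Nat.beq (Nat.mod c 4) 2) true) false

noncomputable def sig (nd : List Need) : (ℕ → ℕ → ℕ → Bool) → Bool :=
  List.rec (motive := fun _ => (ℕ → ℕ → ℕ → Bool) → Bool) (fun k => k 0 0 1)
    (fun x _ ih k => ih fun sN sn sd => force (Nat.add sN x.n) fun a =>
      force (Nat.add (Nat.mul sn x.cm) (Nat.mul x.n sd)) fun b =>
        force (Nat.mul sd x.cm) fun c => k a b c) nd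

noncomputable def updK (c : ℕ) (nd : List Need) : (List Need → Bool) → Bool :=
  List.rec (motive := fun _ => (List Need → Bool) → Bool) (fun k => k [])
    (fun x _ ih k => cond (np x c)
      (cond (Nat.ble x.n 1) (ih k)
        (force (Nat.pred x.n) fun n => ih fun l => k (⟨x.d, n, x.cm, x.alt, x.f⟩ :: l)))
      (ih fun l => k (x :: l))) nd

def mn (a b : ℕ) : ℕ := cond (Nat.ble a b) a b

def mx (a b : ℕ) : ℕ := cond (Nat.ble a b) b a

def hiB (A L j sN sn sd : ℕ) : ℕ :=
  cond (Nat.ble (Nat.mul (Nat.pred A) sd) (Nat.mul sn L))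
    (cond (Nat.beq A 1) (Nat.mul (Nat.succ j) L) (Nat.div (Nat.mul j L) (Nat.pred A)))
    (mn (Nat.div (Nat.mul j L) (Nat.pred A))
      (Nat.div (Nat.mul (Nat.mul (Nat.sub j sN) L) sd)
        (Nat.sub (Nat.mul (Nat.pred A) sd) (Nat.mul sn L))))

noncomputable def stepK (e2 : Bool) (A L c : ℕ) (nd : List Need) (k : ℕ → ℕ → List Need → Bool) :
    Bool :=
  force (Nat.gcd L c) fun g => force (Nat.mul (Nat.div L g) c) fun L' =>
    cond (cond e2 (dv L' 20160) true)
      (force (Nat.sub (Nat.mul A (Nat.div c g)) (Nat.div L g)) fun A' =>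
        updK c nd fun nd' => k A' L' nd') true

noncomputable def dfs (gp : List ℕ) (vc : ℕ → Bool) (e2 : Bool) (leaf : ℕ → List ℕ → Bool)
    (j : ℕ) : ℕ → ℕ → ℕ → List Need → List ℕ → Bool :=
  Nat.rec (motive := fun _ => ℕ → ℕ → ℕ → List Need → List ℕ → Bool)
    (fun A L _ nd cs => cond (Nat.beq A 1)
      (sig nd fun sN _ _ => cond (Nat.beq sN 0) (leaf L cs) true) true)
    (fun j ih A L lo nd cs => sig nd fun sN sn sd => cond (Nat.ble sN (Nat.succ j))
      (force (mx lo (Nat.div L A)) fun l => force (hiB A L (Nat.succ j) sN sn sd) fun h =>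
        cond (Nat.ble h l) true
          (smAll h (two l h fun c => cond (vc c)
            (stepK e2 A L c nd fun A' L' nd' => ih A' L' (Nat.pred c) nd' (c :: cs)) true) gp 1))
      true) j

/-- An odd prime divisor `q = m * e + 1` of the order; `s = 0` for a general prime. -/
structure PP where
  q : ℕ
  m : ℕ
  e : ℕ
  s : ℕ

noncomputable def divs (l : List ℕ) : List ℕ :=
  List.rec (motive := fun _ => List ℕ) [1] (fun q _ ih => ih ++ ih.map (Nat.mul q)) l

noncomputable def prodL (l : List ℕ) : ℕ :=
  List.rec (motive := fun _ => ℕ) 1 (fun q _ ih => Nat.mul q ih) l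

noncomputable def sumF {α : Type} (l : List α) (f : α → ℕ) : ℕ :=
  List.rec (motive := fun _ => ℕ) 0 (fun a _ ih => Nat.add (f a) ih) l

/-- Validity of the type `t` for the centralizer order `c`. -/
noncomputable def vt (So M : List ℕ) (P : List PP) (t c : ℕ) : Bool :=
  cond (Nat.ble t 1) false (cond (dv t c)
    (cond (cond (Nat.beq t 2) (dv 8 c) (cond (anyL So fun q => Nat.beq q t)
        (cond (dv (Nat.mul t t) c) true (anyL M fun p => dv p c)) true))
      (allL P fun x => cond (dv x.q c)
        (Nat.ble (Nat.mul (Nat.succ (Nat.mul 3 x.m)) t)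
          (Nat.add (Nat.add (Nat.mul 2 x.m) 2) (Nat.mul x.s t))) true) false) false)

/-- Some choice of the involution classes among the `2`-classes is consistent. -/
noncomputable def invK (N K : ℕ) (P : List PP) (full : Bool) (l : List (ℕ × ℕ)) :
    ℕ → Bool → Bool → Bool :=
  List.rec (motive := fun _ => ℕ → Bool → Bool → Bool)
    (fun t cen al => cond cen (cond (cond al full true)
      (cond (Nat.ble (Nat.mul t t) (Nat.add t (Nat.mul (Nat.pred K) N)))
        (allL P fun x => cond (Nat.beq x.s x.m) (cond (dv 2 x.e)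
          (Nat.ble (Nat.mul x.m N) (Nat.mul t t)) true) true) false) false) false)
    (fun y _ ih t cen al => cond (Nat.beq y.1 2)
      (cond (ih t cen false) true
        (force (Nat.add t (Nat.div N y.2)) fun t' =>
          ih t' (cond (dv 2 (Nat.div N y.2)) cen true) al)) (ih t cen al)) l

noncomputable def filt (So ND : List ℕ) (P : List PP) (K N : ℕ) (l : List (ℕ × ℕ)) : Bool :=
  cond (allL (divs (2 :: So)) fun δ => force (Nat.pow δ 64) fun X =>
      dv (Nat.gcd N X) (Nat.succ (sumF l fun y => cond (dv y.1 X) (Nat.div N y.2) 0)))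
    (cond (allL l fun y => allL (2 :: So) fun q => cond (dv q y.1) true (cond (dv q y.2)
        (anyL l fun z => cond (Nat.beq z.1 (Nat.mul q y.1))
          (cond (dv z.2 y.2) (cond (dv q (Nat.div y.2 z.2)) false true) false) false) true))
      (cond (allL ND fun d => anyL l fun y =>
          cond (Nat.beq y.1 (Nat.gcd (prodL (2 :: So)) d)) (dv d y.2) false)
        (cond (Nat.ble (cntL l fun y => Nat.beq y.2 6)
            (cntL l fun y => cond (Nat.beq y.1 3) (Nat.beq (Nat.mod y.2 4) 2) false))
          (cond (cond (Nat.beq N 7920) (allL l fun y => cond (Nat.beq y.2 16) false true)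
            (cond (Nat.beq N 29120) (allL l fun y => cond (Nat.beq y.2 8) false true)
            (cond (Nat.beq N 20160) (allL l fun y => cond (Nat.beq y.1 2)
              (cond (dv 16 y.2) (cond (dv 32 y.2) (dv 64 y.2) true) false) true)
            (cond (Nat.beq N 6048) (anyL l fun y => cond (Nat.beq y.1 6) (dv 12 y.2) false) true))))
            (invK N K P (allL l fun y => cond (Nat.beq y.1 2)
              (cond (dv 2 (Nat.div N y.2)) false true) true) l 0 false true)
            false) false) false) false) false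

noncomputable def lab (ts : List ℕ) (v : ℕ → ℕ → Bool) (f : List (ℕ × ℕ) → Bool) (cs : List ℕ) :
    List (ℕ × ℕ) → Bool :=
  List.rec (motive := fun _ => List (ℕ × ℕ) → Bool) (fun acc => cond (f acc) false true)
    (fun c _ ih acc => allL ts fun t => cond (v t c) (ih ((t, c) :: acc)) true) cs

def outB (K N : ℕ) : Bool :=
  Nat.beq N 10752 || Nat.beq N 21504 || Nat.beq N 86016 || Nat.beq N 30720 ||
    (Nat.beq K 10 && (Nat.beq N 7920 || Nat.beq N 20160)) || (Nat.beq K 11 && Nat.beq N 29120)

noncomputable def leaf (So M ND : List ℕ) (P : List PP) (e2 : Bool) (K N : ℕ) (cs : List ℕ) :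
    Bool :=
  cond (cond e2 (Nat.beq N 20160) true)
    (cond (allL M fun p => anyL cs fun c => dv p c)
      (cond (cond (dv 256 N) true (cond (Nat.ble 2000000000000 N) true
          (anyL ordList fun a => Nat.beq a N)))
        (cond (allL P fun x => Nat.ble (Nat.add (cntL cs fun c => dv x.q c) x.m) x.s)
          (cond (outB K N) true (cond (Nat.ble N 18446744073709551616)
            (lab (divs (2 :: So)) (vt So M P) (filt So ND P K N) cs []) false))
          true) true) true) true

noncomputable def vcF (So M : List ℕ) (c : ℕ) : Bool :=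
  cond (allL M fun p => cond (dv (Nat.mul p p) c) false true)
    (cond (dv 8 c) true (anyL So fun q => cond (dv q c) (cond (Nat.beq c q) false true) false))
    false

def add3 (n6 : ℕ) (nd : List Need) : List Need :=
  cond (Nat.beq n6 0) nd (⟨3, n6, 18, [18], true⟩ :: nd.filter fun x => !Nat.beq x.d 3)

noncomputable def sixP (three e2 : Bool)
    (go : ℕ → ℕ → ℕ → ℕ → List Need → List ℕ → Bool) (j : ℕ) :
    ℕ → ℕ → ℕ → List Need → List ℕ → Bool :=
  Nat.rec (motive := fun _ => ℕ → ℕ → ℕ → List Need → List ℕ → Bool)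
    (fun n6 A L nd cs => go 0 A L 7 (add3 n6 nd) cs)
    (fun j ih n6 A L nd cs => cond (go (Nat.succ j) A L 7 (add3 n6 nd) cs)
      (cond three (cond (Nat.ble (Nat.mul A 6) L) true
        (stepK e2 A L 6 nd fun A' L' nd' => ih (Nat.succ n6) A' L' nd' (6 :: cs))) true) false) j

noncomputable def forceL (l : List ℕ) : (List ℕ → Bool) → Bool :=
  List.rec (motive := fun _ => (List ℕ → Bool) → Bool) (fun k => k [])
    (fun a _ ih k => force a fun a' => ih fun l' => k (a' :: l')) l

noncomputable def filtK {α : Type} (p : α → Bool) (l : List α) : (List α → Bool) → Bool :=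
  List.rec (motive := fun _ => (List α → Bool) → Bool) (fun k => k [])
    (fun x _ ih k => cond (p x) (ih fun l => k (x :: l)) (ih k)) l

noncomputable def lenL {α : Type} (l : List α) : ℕ :=
  List.rec (motive := fun _ => ℕ) 0 (fun _ _ ih => Nat.succ ih) l

noncomputable def mapL {α β : Type} (f : α → β) (l : List α) : List β :=
  List.rec (motive := fun _ => List β) [] (fun a _ ih => f a :: ih) l

noncomputable def fE2 (sg : List PP) : Bool :=
  anyL sg fun x => cond (Nat.beq x.s x.m) (cond (Nat.beq x.e 2)
    (allL sg fun y => cond (Nat.beq y.q x.q) true (Nat.ble y.q 7)) false) false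

/-- `P`: the entries with `s ≠ 0`, `So`: the general odd primes, `M`: the primes with `m < s`. -/
noncomputable def run (sg P : List PP) (So M : List ℕ) (nd : List Need) (A D used : ℕ) : Bool :=
  cond (Nat.ble (lenL sg) 1) true
    (cond (cond (fE2 sg) (dv D 20160) true)
      (forceL (So ++ M) fun gp => forceL (mapL Need.d nd) fun ND =>
        allN (Nat.sub 12 used) fun j =>
          sixP (anyL So fun q => Nat.beq q 3) (fE2 sg)
            (dfs gp (vcF So M) (fE2 sg) (leaf So M ND P (fE2 sg) (Nat.add used j))) j 0 A D nd [])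
      true)

/-- The multiplicity attached to the prime `d`, or `0`. -/
noncomputable def getM (sg : List PP) (d : ℕ) : ℕ :=
  List.rec (motive := fun _ => ℕ) 0 (fun x _ ih => cond (Nat.beq x.q d) x.m ih) sg

noncomputable def minL (a : ℕ) (l : List ℕ) : ℕ :=
  List.rec (motive := fun _ => ℕ) a (fun b _ ih => mn b ih) l

/-- The need for the order `d`. -/
noncomputable def mkK (sg : List PP) (M : List ℕ) (d : ℕ) (k : Need → Bool) : Bool :=
  force (getM sg d) fun m => cond (Nat.beq m 0)
    (cond (Nat.beq d (Nat.pow 2 (Nat.log2 d))) (force (mx d 8) fun a => k ⟨d, 1, a, [a], false⟩)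
      (k ⟨d, 1, d, [d], false⟩))
    (filtK (fun p => Nat.ble p d) M fun M' => forceL (mapL (Nat.mul d) (d :: M')) fun alt =>
      force (minL (Nat.mul d d) alt) fun a => k ⟨d, m, a, alt, false⟩)

noncomputable def needK (sg P : List PP) (M W : List ℕ) : (List Need → Bool) → Bool :=
  List.rec (motive := fun _ => (List Need → Bool) → Bool) (fun k => k [])
    (fun d _ ih k => cond (anyL P fun x => dv x.q d) (ih k)
      (mkK sg M d fun x => ih fun l => k (x :: l))) W

noncomputable def kc (P : List PP) (W : List ℕ) : Bool :=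
  allL P fun x =>
    Nat.ble (Nat.add (cntL W fun d => cond (dv x.q d) (cond (Nat.beq d x.q) false true) false) x.m) x.s

def feas (A D jm lo sN sn sd : ℕ) : Bool :=
  cond (Nat.ble sN jm)
    (Nat.ble (Nat.mul (Nat.mul (Nat.mul A 120) sd) lo)
      (Nat.mul D (Nat.add (Nat.mul sd lo) (Nat.mul 120 (Nat.add (Nat.mul sn lo)
        (Nat.mul (Nat.sub jm sN) sd)))))) false

noncomputable def insK (ds : List ℕ) : List ℕ → (List ℕ → Bool) → Bool :=
  List.rec (motive := fun _ => List ℕ → (List ℕ → Bool) → Bool) (fun W k => k W)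
    (fun d _ ih W k => cond (anyL W fun a => Nat.beq a d) (ih W k) (ih (d :: W) k)) ds

/-- Multiply `e` by powers of `p`; `top` are divisors of `e` with the full power of `p`. -/
noncomputable def ePow (p : ℕ) (k : ℕ → List ℕ → List ℕ → Bool) (f : ℕ) :
    ℕ → List ℕ → List ℕ → List ℕ → Bool :=
  Nat.rec (motive := fun _ => ℕ → List ℕ → List ℕ → List ℕ → Bool) (fun _ _ _ _ => false)
    (fun _ ih e ds top W => cond (k e ds W)
      (forceL (mapL (Nat.mul p) top) fun top' => insK top' W fun W' =>
        cond (Nat.ble (lenL W') 9) (force (Nat.mul e p) fun e' => forceL (top' ++ ds) fun ds' =>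
          ih e' ds' top' W') true) false) f

noncomputable def eAll (k : ℕ → List ℕ → Bool) (ps : List ℕ) : ℕ → List ℕ → List ℕ → Bool :=
  List.rec (motive := fun _ => ℕ → List ℕ → List ℕ → Bool) (fun e _ W => k e W)
    (fun p _ ih e ds W => ePow p ih 12 e ds ds W) ps

noncomputable def comp (q : ℕ) : Bool :=
  anyL [2, 3, 5, 7, 11, 13] fun r => cond (dv r q) (cond (Nat.beq q r) false true) false

noncomputable def loF (So : List ℕ) (q : ℕ) : ℕ :=
  mn q (cond (anyL So fun q => Nat.beq q 3) 6 (cond (Nat.ble q 3) 6 8))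

/-- The state of the enumeration of the prime divisors. -/
structure St where
  sg : List PP
  P : List PP
  So : List ℕ
  M : List ℕ
  W : List ℕ
  last : ℕ
  A : ℕ
  D : ℕ
  used : ℕ

noncomputable def kids (ih : St → Bool) (z : St) (q m e : ℕ) (W : List ℕ) : Bool :=
  cond (cond (Nat.ble e 1) true (allN (Nat.sub 12 z.used) fun s =>
      cond (Nat.ble m s)
      (cond (cond (Nat.beq m s) true (Nat.ble (Nat.mul 2 m) s))
      (cond (cond (Nat.beq q 3) (Nat.beq s 1) false) true
      (force (Nat.sub (Nat.mul z.A q) (Nat.mul m z.D)) fun A' => force (Nat.mul z.D q) fun D' =>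
        force (Nat.add z.used s) fun u' =>
        cond (Nat.beq m s)
          (ih ⟨⟨q, m, e, s⟩ :: z.sg, ⟨q, m, e, s⟩ :: z.P, z.So, z.M, q :: W, q, A', D', u'⟩)
          (ih ⟨⟨q, m, e, s⟩ :: z.sg, ⟨q, m, e, s⟩ :: z.P, z.So, q :: z.M, q :: W, q, A', D', u'⟩)))
      true) true))
    (cond (cond (Nat.beq q 3) (Nat.beq m 2) false) true
      (ih ⟨⟨q, m, e, 0⟩ :: z.sg, z.P, q :: z.So, z.M, q :: W, q, z.A, z.D, z.used⟩)) false

/-- One step of the enumeration. -/
noncomputable def expand (ih : St → Bool) (d : Bool) (z : St) : Bool :=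
  needK z.sg z.P z.M z.W fun nd => sig nd fun sN sn sd => force (Nat.sub 11 z.used) fun jm =>
    cond (feas z.A z.D jm (loF z.So (Nat.succ z.last)) sN sn sd)
      (cond (cond d (run z.sg z.P z.So z.M nd z.A z.D z.used) true)
        (eAll (fun e W => cond (kc z.P W)
          (needK z.sg z.P z.M W fun nd' => sig nd' fun sN sn sd =>
            allN (Nat.sub jm sN) fun m0 => force (Nat.succ m0) fun m =>
            force (Nat.succ (Nat.mul m e)) fun q =>
            cond (Nat.ble q z.last) true (cond (comp q) true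
            (cond (feas z.A z.D jm (loF z.So q) (Nat.add sN m)
                (Nat.add (Nat.mul sn q) (Nat.mul m sd)) (Nat.mul sd q))
              (kids ih z q m e W) true))) true) (2 :: mapL PP.q z.sg) 1 [1] z.W) false) true

noncomputable def recS (fuel : ℕ) : St → Bool :=
  Nat.rec (motive := fun _ => St → Bool) (fun _ => false) (fun _ ih z => expand ih true z) fuel

/-- A code of the last entry. -/
noncomputable def code (z : St) : ℕ :=
  List.rec (motive := fun _ => ℕ) 0
    (fun x _ _ => Nat.add (Nat.mul 100 x.q) (Nat.add (Nat.mul 10 x.m) x.s)) z.sg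

/-- The part of the search selected by the tickets `T`. -/
noncomputable def go (T : List (Bool × List ℕ)) : St → Bool :=
  List.rec (motive := fun _ => St → Bool) (recS 12)
    (fun t T ih z => expand (fun z' => force (code z') fun a =>
      cond (anyL t.2 fun b => Nat.beq a b) (cond t.1 (ih z') true) (cond t.1 true (ih z')))
      (cond t.1 false (allL T fun u => cond u.1 false true)) z) T

/-- The initial state. -/
def root : St := ⟨[], [], [], [], [2], 2, 1, 1, 1⟩

end Cfsg.Agent.H9.KC
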