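import Cfsg.Agent.H9.KCNeed

/-! Soundness of the enumeration of the prime divisors. -/

set_option autoImplicit false

namespace Cfsg.Agent.H9.KC

open Finset

universe u

variable {ι : Type u} [Fintype ι] {N : ℕ} {o c : ι → ℕ}

theorem Inv.lt_P {z : St} (hz : Inv N o c z) {x : PP} (hx : x ∈ z.P) : x.q ≤ z.last :=
  (hz.sg x (hz.sP x hx)).2.1

theorem Inv.lt_S {z : St} (hz : Inv N o c z) {p : ℕ} (hp : p ∈ z.So) : p ≤ z.last := by
  obtain ⟨x, hx, rfl⟩ := hz.sS p hp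
  exact (hz.sg x hx).2.1

section Kids

variable (h : Base N o c) {z : St} (hz : Inv N o c z) {q m e : ℕ} {W : List ℕ} (hq : q.Prime)
  (hN : q ∣ N) (hl : z.last < q) (hmin : ∀ p, p.Prime → p ∣ N → p < q → p ≤ z.last)
  (hme : m * e + 1 = q) (hm : m ≤ mC o q) (hW : W.Nodup)
  (hw : ∀ d ∈ W, 1 < d ∧ d < q ∧ ∃ i, o i = d)

include h hz hq hN hl hmin hme hm hW hw

theorem inv_gen (hg : q * q ∣ N ∨ ∃ x ∈ z.P, ∃ i, x.q ∣ o i ∧ q ∣ o i) :
    Inv N o c ⟨⟨q, m, e, 0⟩ :: z.sg, z.P, q :: z.So, z.M, q :: W, q, z.A, z.D, z.used⟩ := by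
  have h2 := hz.l2
  have h0 : 0 < m := Nat.pos_of_ne_zero (by rintro rfl; omega)
  refine ⟨⟨hz.pr.pP, List.forall_mem_cons.2 ⟨⟨hq, by omega, hN, fun x hx =>
      ((hz.lt_P hx).trans_lt hl).ne, hg.imp_right ?_⟩, hz.pr.pS⟩, hz.pr.pM, hz.pr.nadj⟩,
    List.forall_mem_cons.2 ⟨⟨hN, le_rfl, h0, hm, fun hh => absurd rfl hh,
      fun _ => List.mem_cons_self⟩, fun x hx => ?_⟩, fun x hx => List.mem_cons_of_mem _ (hz.sP x hx),
    List.forall_mem_cons.2 ⟨⟨_, List.mem_cons_self, rfl⟩, fun p hp => ?_⟩, fun p hp hd hp' => ?_,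
    List.nodup_cons.2 ⟨fun hh => lt_irrefl _ (hw q hh).2.1, hW⟩,
    List.forall_mem_cons.2 ⟨⟨hq.one_lt, le_rfl, exists_of_mC (h0.trans_le hm)⟩, fun d hd =>
      ⟨(hw d hd).1, (hw d hd).2.1.le, (hw d hd).2.2⟩⟩, hz.eq, hz.dN, hz.dq,
    fun p hp hd => (hz.dl p hp hd).trans hl.le, hz.used, h2.trans hl.le⟩
  · rintro ⟨x, hx, i, h3, h4⟩
    have h5 := (hz.lt_P hx).trans_lt hl
    refine ⟨x.q, hz.pr.memM hx h3 fun hh => ?_, h5, i, Nat.Coprime.mul_dvd_of_dvd_of_dvd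
      ((Nat.coprime_primes hq (hz.pr.pP x hx).1).2 h5.ne') h4 h3⟩
    exact absurd (Nat.le_of_dvd (hz.pr.pP x hx).1.pos (hh ▸ h4)) h5.not_ge
  · obtain ⟨a1, a2, a3, a4, a5, a6⟩ := hz.sg x hx
    exact ⟨a1, a2.trans hl.le, a3, a4, a5, fun hh => List.mem_cons_of_mem _ (a6 hh)⟩
  · obtain ⟨x, hx, e⟩ := hz.sS p hp
    exact ⟨x, List.mem_cons_of_mem _ hx, e⟩
  · rcases hp'.lt_or_eq with h3 | rfl
    · exact (hz.cpl p hp hd (hmin p hp hd h3)).imp_right (Or.imp_left (List.mem_cons_of_mem _))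
    · exact Or.inr (Or.inl List.mem_cons_self)

theorem inv_iso (h1 : ¬ q * q ∣ N) (h3 : ∀ x ∈ z.P, ∀ i, x.q ∣ o i → ¬ q ∣ o i)
    (hm' : mC o q = m) (M' : List ℕ) (hM : ∀ p, p ∈ M' ↔ p ∈ z.M ∨ (p = q ∧ m ≠ sC o q)) :
    sC o q ≤ #(Reg o z.P) ∧ Inv N o c ⟨⟨q, m, e, sC o q⟩ :: z.sg, ⟨q, m, e, sC o q⟩ :: z.P, z.So,
      M', q :: W, q, z.A * q - m * z.D, z.D * q, z.used + sC o q⟩ := by
  classical
  have h2 := hz.l2
  have h0 : 0 < m := Nat.pos_of_ne_zero (by rintro rfl; omega)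
  have hs := mC_le_sC o q
  have hS : univ.filter (fun i => q ∣ o i) ⊆ Reg o z.P := fun i hi => by
    have hi : q ∣ o i := by simpa using hi
    exact mem_Reg.2 ⟨fun hh => hq.not_dvd_one (hh ▸ hi), fun x hx hd => h3 x hx i hd hi⟩
  have hR : Reg o (⟨q, m, e, sC o q⟩ :: z.P) = Reg o z.P \ univ.filter (fun i => q ∣ o i) := by
    ext i
    simp only [mem_Reg, List.forall_mem_cons, mem_sdiff, mem_filter, mem_univ, true_and]
    tauto
  have hc : sC o q ≤ #(Reg o z.P) := card_le_card hS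
  refine ⟨hc, ⟨List.forall_mem_cons.2 ⟨⟨hq, by change 2 < q; omega, hN, h1, hm', rfl, hme⟩,
      hz.pr.pP⟩, fun p hp => ?_, fun p => ?_, ?_⟩,
    List.forall_mem_cons.2 ⟨⟨hN, le_rfl, h0, hm, fun _ => List.mem_cons_self,
      fun hh => absurd hh (by change sC o q ≠ 0; omega)⟩, fun x hx => ?_⟩,
    List.forall_mem_cons.2 ⟨List.mem_cons_self, fun x hx => List.mem_cons_of_mem _ (hz.sP x hx)⟩,
    fun p hp => ?_, fun p hp hd hp' => ?_,
    List.nodup_cons.2 ⟨fun hh => lt_irrefl _ (hw q hh).2.1, hW⟩,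
    List.forall_mem_cons.2 ⟨⟨hq.one_lt, le_rfl, exists_of_mC (h0.trans_le hm)⟩, fun d hd =>
      ⟨(hw d hd).1, (hw d hd).2.1.le, (hw d hd).2.2⟩⟩, ?_, ?_,
    List.forall_mem_cons.2 ⟨dvd_mul_left _ _, fun x hx => (hz.dq x hx).mul_right q⟩,
    fun p hp hd => ?_, ?_, h2.trans hl.le⟩
  · obtain ⟨a1, a2, a3, a4, a5⟩ := hz.pr.pS p hp
    refine ⟨a1, a2, a3, List.forall_mem_cons.2 ⟨((hz.lt_S hp).trans_lt hl).ne', a4⟩,
      a5.imp_right fun ⟨r, hr, a6⟩ => ⟨r, (hM r).2 (Or.inl hr), a6⟩⟩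
  · change p ∈ M' ↔ _
    rw [hM, hz.pr.pM]
    simp only [List.mem_cons, exists_eq_or_imp]
    rw [eq_comm (a := p), or_comm]
  · intro x hx y hy i a1 a2
    rcases List.mem_cons.1 hx with rfl | hx <;> rcases List.mem_cons.1 hy with rfl | hy
    · rfl
    · exact absurd a1 (h3 y hy i a2)
    · exact absurd a2 (h3 x hx i a1)
    · exact hz.pr.nadj x hx y hy i a1 a2
  · obtain ⟨a1, a2, a3, a4, a5, a6⟩ := hz.sg x hx
    exact ⟨a1, a2.trans hl.le, a3, a4, fun hh => List.mem_cons_of_mem _ (a5 hh), a6⟩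
  · obtain ⟨x, hx, e⟩ := hz.sS p hp
    exact ⟨x, List.mem_cons_of_mem _ hx, e⟩
  · rcases hp'.lt_or_eq with a1 | rfl
    · exact (hz.cpl p hp hd (hmin p hp hd a1)).imp_right (Or.imp_right fun ⟨x, hx, e⟩ =>
        ⟨x, List.mem_cons_of_mem _ hx, e⟩)
    · exact Or.inr (Or.inr ⟨_, List.mem_cons_self, rfl⟩)
  · change ((z.A * q - m * z.D : ℕ) : ℚ) / (z.D * q : ℕ) = _ + ∑ i ∈ Reg o (_ :: z.P), _
    have a1 := hz.eq
    rw [← sum_sdiff hS, h.sing_inv hq h1, hm', ← hR] at a1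
    have hD : (0 : ℚ) < z.D := by exact_mod_cast Nat.pos_of_dvd_of_pos hz.dN h.a1.pos
    have hq' : (0 : ℚ) < q := by exact_mod_cast hq.pos
    have a2 : (0 : ℚ) ≤ 1 / N + ∑ i ∈ Reg o (⟨q, m, e, sC o q⟩ :: z.P), 1 / (c i : ℚ) := by
      positivity
    have a3 : m * z.D ≤ z.A * q := by
      have : (m : ℚ) / q ≤ z.A / z.D := by linarith
      rw [div_le_div_iff₀ hq' hD] at this
      exact_mod_cast this
    have a4 : ((z.A * q - m * z.D : ℕ) : ℚ) / (z.D * q : ℕ) = z.A / z.D - m / q := by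
      rw [Nat.cast_sub a3]; push_cast; field_simp
    rw [a4]; linarith
  · refine Nat.Coprime.mul_dvd_of_dvd_of_dvd
      ((Nat.Prime.coprime_iff_not_dvd hq).2 fun hd => ?_).symm hz.dN hN
    exact absurd (hz.dl q hq hd) hl.not_ge
  · rcases (Nat.Prime.dvd_mul hp).1 hd with a1 | a1
    · exact (hz.dl p hp a1).trans hl.le
    · exact Nat.le_of_dvd hq.pos a1
  · change _ = z.used + sC o q + #(Reg o (_ :: z.P))
    rw [hR, card_sdiff_of_subset hS, hz.used]
    change _ = _ + (_ - sC o q)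
    omega

theorem kids_sound (h1 : ¬ q * q ∣ N → 2 ≤ e ∧ mC o q = m) (h2 : ¬ (q = 3 ∧ m = 2)) :
    ∃ z', Inv N o c z' ∧ ∀ ih, kids ih z q m e W = true → ih z' = true := by
  by_cases hg : q * q ∣ N ∨ ∃ x ∈ z.P, ∃ i, x.q ∣ o i ∧ q ∣ o i
  · refine ⟨_, inv_gen h hz hq hN hl hmin hme hm hW hw hg, fun ih hk => ?_⟩
    rw [kids, cond_false_right, cond_mid (a := cond _ _ _), cond_false_right, beq_iff,
      beq_iff] at hk
    exact hk.2 h2
  · push Not at hg
    obtain ⟨h3, h4⟩ := h1 hg.1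
    have h0 : 0 < m := Nat.pos_of_ne_zero (by rintro rfl; have := hz.l2; omega)
    have key : ∀ ih, kids ih z q m e W = true → sC o q ≤ #(Reg o z.P) →
        cond (Nat.beq m (sC o q))
        (ih ⟨⟨q, m, e, sC o q⟩ :: z.sg, ⟨q, m, e, sC o q⟩ :: z.P, z.So, z.M, q :: W, q,
          z.A * q - m * z.D, z.D * q, z.used + sC o q⟩)
        (ih ⟨⟨q, m, e, sC o q⟩ :: z.sg, ⟨q, m, e, sC o q⟩ :: z.P, z.So, q :: z.M, q :: W, q,
          z.A * q - m * z.D, z.D * q, z.used + sC o q⟩) = true := by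
      intro ih hk hc
      rw [kids, cond_false_right, cond_mid, ble_iff, allN_iff] at hk
      have h5 := hk.1 (by omega) (sC o q) (by
        have := h.hk; have := hz.used; change _ < 12 - z.used; omega)
      rw [cond_true_right, cond_true_right, cond_mid (a := cond _ _ _), cond_false_right,
        cond_true_left, ble_iff, ble_iff, beq_iff, beq_iff, beq_iff] at h5
      refine h5 (h4 ▸ mC_le_sC o q) (h4 ▸ h.two_m hq hg.1) ?_
      rintro ⟨rfl, h6⟩
      exact h.not31 hg.1 (h0.trans_le hm) h6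
    by_cases h5 : m = sC o q
    · obtain ⟨h6, h7⟩ := inv_iso h hz hq hN hl hmin hme hm hW hw hg.1 hg.2 h4 z.M (by tauto)
      exact ⟨_, h7, fun ih hk => by simpa only [beq_iff.2 h5, cond_true] using key ih hk h6⟩
    · obtain ⟨h6, h7⟩ := inv_iso h hz hq hN hl hmin hme hm hW hw hg.1 hg.2 h4 (q :: z.M)
        (fun p => by rw [List.mem_cons]; tauto)
      have : Nat.beq m (sC o q) = false := Bool.eq_false_iff.2 fun hh => h5 (beq_iff.1 hh)
      exact ⟨_, h7, fun ih hk => by simpa only [this, cond_false] using key ih hk h6⟩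

end Kids

theorem comp_prime {q : ℕ} (hq : q.Prime) : ¬ comp q = true := by
  intro h
  obtain ⟨r, hr, h⟩ := anyL_iff.1 h
  rw [cond_false_right, cond_false_left, dv_iff, beq_iff] at h
  rcases (Nat.dvd_prime hq).1 h.1 with rfl | rfl
  · simp at hr
  · exact h.2.1 rfl

theorem expand_sound (hL : LeafStmt.{u}) (hD : DfsStmt.{u}) (h : Base N o c) {z : St}
    (hz : Inv N o c z) : (∀ ih, expand ih true z = true → Out (Fintype.card ι) N) ∨
      ∃ z', Inv N o c z' ∧ ∀ ih d, expand ih d z = true → ih z' = true := by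
  classical
  obtain ⟨nd, n1, n2, -, n4⟩ := needK_sound h hz hz.wn fun d hd => ⟨(hz.w d hd).1, (hz.w d hd).2.2⟩
  obtain ⟨sn, sd, s1, s2, s3⟩ := sig_spec nd n1.pos
  obtain ⟨l1, l2⟩ := loF_sound h hz (Nat.succ_pos z.last) fun p _ _ hp => Nat.lt_succ_iff.1 hp
  have f1 := (feas_sound h hz n1 l1 l2 s1 s2).2
  by_cases hc : ∃ q, q.Prime ∧ q ∣ N ∧ z.last < q
  swap
  · refine Or.inl fun ih hk => ?_
    rw [expand, n4, s3, force_eq, f1, cond_true, cond_false_right, cond_true] at hk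
    exact run_sound hL hD h hz (fun p hp hd => hz.cpl p hp hd (not_lt.1 fun hh => hc ⟨p, hp, hd, hh⟩))
      n1 n2 hk.1
  right
  obtain ⟨hq, hN, hl⟩ := Nat.find_spec hc
  have hmin : ∀ p, p.Prime → p ∣ N → p < Nat.find hc → p ≤ z.last := fun p hp hd hp' =>
    not_lt.1 fun hh => Nat.find_min hc hp' ⟨hp, hd, hh⟩
  generalize Nat.find hc = q at hq hN hl hmin
  have h2 := hz.l2
  obtain ⟨m, e, g1, g2, g3, g4, g5⟩ := h.gal hq (by omega) hN
  have h0 : 0 < m := Nat.pos_of_ne_zero (by rintro rfl; omega)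
  have he : e ≠ 0 := by rintro rfl; omega
  have heq : e < q := by nlinarith
  obtain ⟨W, w1, w2, w3⟩ := eAll_spec (fun d => 1 < d ∧ d < q ∧ ∃ i, o i = d) e he
    (fun d hd h1 => ⟨h1, (Nat.le_of_dvd (Nat.pos_of_ne_zero he) hd).trans_lt heq, g3 d hd⟩)
    (fun W hW hw => by
      have := length_le_card (o := o) (W := 1 :: q :: W) (List.nodup_cons.2 ⟨fun hh => by
          rcases List.mem_cons.1 hh with hh | hh
          · omega
          · exact lt_irrefl _ (hw 1 hh).1,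
        List.nodup_cons.2 ⟨fun hh => lt_irrefl _ (hw q hh).2.1, hW⟩⟩) univ (by
          simp only [mem_univ, true_and, List.forall_mem_cons]
          exact ⟨g3 1 (one_dvd _), exists_of_mC (h0.trans_le g2), fun d hd => (hw d hd).2.2⟩)
      have := h.hk
      simp only [List.length_cons, card_univ] at *
      omega)
    (2 :: mapL PP.q z.sg) (by
      rw [mapL_eq]
      refine List.forall_mem_cons.2 ⟨Nat.prime_two, fun p hp => ?_⟩
      obtain ⟨x, hx, rfl⟩ := List.mem_map.1 hp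
      obtain ⟨-, -, -, -, a1, a2⟩ := hz.sg x hx
      by_cases hs : x.s = 0
      · exact (hz.pr.pS _ (a2 hs)).1
      · exact (hz.pr.pP _ (a1 hs)).1) 1 e [1] z.W (one_mul e) (fun p hp hd => by
      obtain ⟨j, hj⟩ := g3 p hd
      have a1 : p ∣ N := hj ▸ h.odN j
      rcases hz.cpl p hp a1 (hmin p hp a1
        ((Nat.le_of_dvd (Nat.pos_of_ne_zero he) hd).trans_lt heq)) with rfl | a2
      · exact List.mem_cons_self
      · obtain ⟨x, hx, rfl⟩ := hz.mem_sg a2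
        rw [mapL_eq]
        exact List.mem_cons_of_mem _ (List.mem_map_of_mem hx)) (by simp) hz.wn
      fun d hd => ⟨(hz.w d hd).1, (hz.w d hd).2.1.trans_lt hl, (hz.w d hd).2.2⟩
  obtain ⟨z', z1, z2⟩ := kids_sound h hz hq hN hl hmin g1 g2 w1 w2 g4 g5
  refine ⟨z', z1, fun ih d hk => z2 ih ?_⟩
  obtain ⟨nd', m1, -, m3, m4⟩ := needK_sound h hz w1 fun d hd => ⟨(w2 d hd).1, (w2 d hd).2.2⟩
  obtain ⟨sn', sd', t1, t2, t3⟩ := sig_spec nd' m1.pos
  obtain ⟨l3, l4⟩ := loF_sound h hz hq.pos hmin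
  have m5 : NV o c (Reg o z.P) (⟨q, m, q, [q], false⟩ :: nd') := by
    refine ⟨List.nodup_cons.2 ⟨fun hh => ?_, m1.nodup⟩, List.forall_mem_cons.2 ⟨hq.pos, m1.pos⟩,
      List.forall_mem_cons.2 ⟨g2.trans (cnt_Reg hq.one_lt (fun x hx hd => ?_) _ rfl), m1.cnt⟩,
      List.forall_mem_cons.2 ⟨fun i hi _ => ?_, m1.ok⟩⟩
    · obtain ⟨y, hy, e⟩ := List.mem_map.1 hh
      exact (w2 _ (m3 y hy)).2.1.ne e
    · exact ((hz.lt_P hx).trans_lt hl).ne ((Nat.prime_dvd_prime_iff_eq (hz.pr.pP x hx).1 hq).1 hd)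
    · have hi : o i = q := hi
      exact ⟨np_single _ _ _ _ (hi ▸ h.a1.od i), hi ▸ h.ole i⟩
  have e1 : sgN (⟨q, m, q, [q], false⟩ :: nd') = sgN nd' + m := by simp [sgN, add_comm]
  obtain ⟨f2, f3⟩ := feas_sound h hz m5 l3 l4 (sn := sn' * q + m * sd') (Nat.mul_pos t1 hq.pos) (by
    have : sgQ (⟨q, m, q, [q], false⟩ :: nd') = (m : ℚ) / q + sgQ nd' := by simp [sgQ]
    have a1 : (sd' : ℚ) ≠ 0 := by positivity
    have a2 : (q : ℚ) ≠ 0 := by have := hq.pos; positivity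
    rw [this, ← t2]; push_cast; field_simp; ring)
  rw [e1] at f2 f3
  rw [expand, n4, s3, force_eq, f1, cond_true, cond_false_right] at hk
  have hk := w3 _ hk.2
  rw [kc_sound hz.pr w1 fun d hd => (w2 d hd).2.2, cond_true, m4, t3, allN_iff] at hk
  obtain ⟨m0, rfl⟩ := Nat.exists_eq_succ_of_ne_zero h0.ne'
  have hk := hk m0 (by change m0 < 11 - z.used - sgN nd'; omega)
  have e2 : Nat.succ (Nat.mul m0.succ e) = q := g1
  rw [force_eq, force_eq, e2, cond_mid, cond_mid, cond_true_right, ble_iff] at hk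
  exact hk hl.not_ge (comp_prime hq) f3

theorem recS_sound (hL : LeafStmt.{u}) (hD : DfsStmt.{u}) (h : Base N o c) (f : ℕ) {z : St}
    (hz : Inv N o c z) (hr : recS f z = true) : Out (Fintype.card ι) N := by
  induction f generalizing z with
  | zero => exact absurd hr Bool.false_ne_true
  | succ f ih =>
    rcases expand_sound hL hD h hz with h1 | ⟨z', h1, h2⟩
    · exact h1 (recS f) hr
    · exact ih h1 (h2 (recS f) true hr)

/-- The ticket lists in `S` cover the search. -/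
inductive Cov : (List (Bool × List ℕ) → Prop) → Prop
  | base (S : List (Bool × List ℕ) → Prop) : S [] → Cov S
  | split (S : List (Bool × List ℕ) → Prop) (gs : List (List ℕ)) :
      (∀ g ∈ gs, Cov fun T => S ((true, g) :: T)) → S [(false, gs.flatten)] → Cov S

theorem go_sound (hL : LeafStmt.{u}) (hD : DfsStmt.{u}) (h : Base N o c)
    {S : List (Bool × List ℕ) → Prop} (hS : Cov S) {z : St} (hz : Inv N o c z)
    (hr : ∀ T, S T → go T z = true) : Out (Fintype.card ι) N := by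
  induction hS generalizing z with
  | base S hS => exact recS_sound hL hD h 12 hz (hr [] hS)
  | split S gs _ hS ih =>
    rcases expand_sound hL hD h hz with h1 | ⟨z', h1, h2⟩
    · exact h1 _ (hr _ hS)
    · by_cases hc : code z' ∈ gs.flatten
      · obtain ⟨g, hg, hc⟩ := List.mem_flatten.1 hc
        refine ih g hg h1 fun T hT => ?_
        have := h2 _ _ (hr _ hT)
        rwa [force_eq, anyL_iff.2 ⟨_, hc, beq_iff.2 rfl⟩] at this
      · have := h2 _ _ (hr _ hS)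
        have e : (anyL gs.flatten fun b => Nat.beq (code z') b) = false :=
          Bool.eq_false_iff.2 fun hh => by
            obtain ⟨b, hb, e⟩ := anyL_iff.1 hh
            exact hc (beq_iff.1 e ▸ hb)
        rw [force_eq, e] at this
        exact recS_sound hL hD h 12 h1 this

theorem inv_root (h : Base N o c) : Inv N o c root := by
  classical
  obtain ⟨i, h1, h2, h3⟩ := h.a1.one
  have hR : Reg o [] = univ.erase i := by
    ext j
    simp only [mem_Reg, List.not_mem_nil, false_imp_iff, implies_true, and_true, mem_erase, mem_univ]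
    exact ⟨fun hj hh => hj (hh ▸ h1), fun hj hh => hj (h3 j hh)⟩
  refine ⟨⟨by simp [root], by simp [root], by simp [root], by simp [root]⟩, by simp [root],
    by simp [root], by simp [root], fun p hp _ hp' => Or.inl (le_antisymm hp' hp.two_le),
    List.nodup_singleton 2, ?_, ?_, one_dvd N, by simp [root],
    fun p hp hd => absurd hd hp.not_dvd_one, ?_, le_rfl⟩
  · refine List.forall_mem_singleton.2 ⟨one_lt_two, le_rfl, ?_⟩
    exact (h.ord Nat.prime_two h.a4.two).imp fun j hj => hj.1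
  · change ((1 : ℕ) : ℚ) / (1 : ℕ) = _ + ∑ i ∈ Reg o [], _
    rw [hR, ← h2, add_sum_erase univ (fun j => 1 / (c j : ℚ)) (mem_univ i), h.sum_inv]
    simp
  · change _ = 1 + #(Reg o [])
    rw [hR, add_comm, card_erase_add_one (mem_univ i), card_univ]

theorem arith_of (hL : LeafStmt.{u}) (hD : DfsStmt.{u}) (hS : Cov fun T => go T root = true) :
    ArithStmt.{u} := fun _ _ _ _ _ hk h1 h2 h3 h4 h5 h6 =>
  go_sound hL hD ⟨hk, h1, h2, h3, h4, h5, h6⟩ hS (inv_root ⟨hk, h1, h2, h3, h4, h5, h6⟩)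
    fun _ hT => hT

end Cfsg.Agent.H9.KC
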