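import Cfsg.Agent.H9.KCBase

/-! The invariant of the enumeration of the primes, and the soundness of `run`. -/

set_option autoImplicit false

namespace Cfsg.Agent.H9.KC

open Finset

universe u

section

variable {ι : Type*} [Fintype ι] (N : ℕ) (o c : ι → ℕ)

/-- The invariant of the enumeration. -/
structure Inv (z : St) : Prop where
  pr : Pr N o z.P z.So z.M
  sg : ∀ x ∈ z.sg, x.q ∣ N ∧ x.q ≤ z.last ∧ 0 < x.m ∧ x.m ≤ mC o x.q ∧ (x.s ≠ 0 → x ∈ z.P) ∧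
    (x.s = 0 → x.q ∈ z.So)
  sP : ∀ x ∈ z.P, x ∈ z.sg
  sS : ∀ q ∈ z.So, ∃ x ∈ z.sg, x.q = q
  cpl : ∀ p, p.Prime → p ∣ N → p ≤ z.last → p = 2 ∨ p ∈ z.So ∨ ∃ x ∈ z.P, x.q = p
  wn : z.W.Nodup
  w : ∀ d ∈ z.W, 1 < d ∧ d ≤ z.last ∧ ∃ i, o i = d
  eq : (z.A : ℚ) / z.D = 1 / N + ∑ i ∈ Reg o z.P, 1 / (c i : ℚ)
  dN : z.D ∣ N
  dq : ∀ x ∈ z.P, x.q ∣ z.D
  dl : ∀ p, p.Prime → p ∣ z.D → p ≤ z.last
  used : Fintype.card ι = z.used + #(Reg o z.P)
  l2 : 2 ≤ z.last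

end

variable {ι : Type u} [Fintype ι] {N : ℕ} {o c : ι → ℕ}

theorem Inv.mem_sg {z : St} (hz : Inv N o c z) {p : ℕ}
    (h : p ∈ z.So ∨ ∃ x ∈ z.P, x.q = p) : ∃ x ∈ z.sg, x.q = p := by
  rcases h with h | ⟨x, hx, h⟩
  · exact hz.sS p h
  · exact ⟨x, hz.sP x hx, h⟩

theorem fE2_sound (h : Base N o c) {z : St} (hz : Inv N o c z) (hc : Cpl N z.P z.So)
    (he : fE2 z.sg = true) : N = 20160 := by
  obtain ⟨x, hx, he⟩ := anyL_iff.1 he
  rw [cond_false_right, cond_false_right, beq_iff, beq_iff, allL_iff] at he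
  obtain ⟨h1, h2, h3⟩ := he
  obtain ⟨-, -, h4, -, h5, -⟩ := hz.sg x hx
  obtain ⟨a1, a2, -, a3, a4, a5, a6⟩ := hz.pr.pP x (h5 (by omega))
  refine h.a4.e2 x.q a1 a2.ne' a3 (by omega) (by rw [a4, ← a6, h2, mul_comm]) fun r hr hd => ?_
  rcases hc r hr hd with rfl | h6
  · exact Or.inr (by norm_num)
  · obtain ⟨y, hy, rfl⟩ := hz.mem_sg h6
    have := h3 y hy
    rwa [cond_true_left, beq_iff, ble_iff] at this

theorem vc_aux (h : Base N o c) {P : List PP} {So M : List ℕ} (hp : Pr N o P So M)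
    (hc : Cpl N P So) {i : ι} (hi : i ∈ Reg o P) : 8 ∣ c i ∨ ∃ q ∈ So, q ∣ c i ∧ c i ≠ q := by
  obtain ⟨h1, h2⟩ := mem_Reg.1 hi
  refine (h.eight_or h1).imp_right fun ⟨r, hr, h3, h4⟩ => ?_
  rcases hc r hr (h4.trans (h.odN i)) with h5 | h5 | ⟨x, hx, rfl⟩
  · exact absurd h5 h3
  · exact ⟨r, h5, h4.trans (h.a1.od i), h.ne_gen hp h5 h1⟩
  · exact absurd h4 (h2 x hx)

theorem six_aux (h : Base N o c) {P : List PP} {So M : List ℕ} (hp : Pr N o P So M)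
    (h3 : 3 ∈ So) : (∀ j, o j = 3 → c j % 4 = 2 → 18 ∣ c j) ∧
      #{j ∈ Reg o P | c j = 6} ≤ #{j ∈ Reg o P | o j = 3 ∧ c j % 4 = 2} := by
  have h9 : ∀ j, o j = 3 → 9 ∣ c j := fun j hj => by
    rcases h.kind0 hp h3 hj with h4 | ⟨p, hp', h4, -⟩
    · exact h4
    · have := (hp.primeM hp').2.1; omega
  refine ⟨fun j hj h4 => by have := h9 j hj; omega, le_trans (card_le_card fun j hj => ?_)
    (h.a3.six.trans (card_le_card fun j hj => ?_))⟩
  · simp only [mem_filter, mem_univ, true_and] at hj ⊢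
    refine ⟨?_, hj.2⟩
    have h1 := (mem_Reg.1 hj.1).1
    have h2 : o j ∣ 6 := hj.2 ▸ h.a1.od j
    have h5 := Nat.le_of_dvd (by norm_num) h2
    have h6 := h9 j
    have h7 : o j = 2 → 8 ∣ c j := fun hh => h.a4.h8 j h1 fun r hr hd =>
      (Nat.prime_dvd_prime_iff_eq hr Nat.prime_two).1 (hh ▸ hd)
    rw [hj.2] at h6 h7
    interval_cases o j <;> omega
  · simp only [mem_filter, mem_univ, true_and] at hj ⊢
    refine ⟨mem_Reg.2 ⟨by omega, fun x hx hd => (hp.pS 3 h3).2.2.2.1 x hx ?_⟩, hj.1, by omega⟩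
    exact (Nat.prime_dvd_prime_iff_eq (hp.pP x hx).1 Nat.prime_three).1 (hj.1 ▸ hd)

theorem run_sound (hL : LeafStmt.{u}) (hD : DfsStmt.{u}) (h : Base N o c) {z : St}
    (hz : Inv N o c z) (hc : Cpl N z.P z.So) {nd : List Need} (hn : NV o c (Reg o z.P) nd)
    (hn1 : ∀ x ∈ nd, 0 < x.n) (hr : run z.sg z.P z.So z.M nd z.A z.D z.used = true) :
    Out (Fintype.card ι) N := by
  classical
  have hp := hz.pr
  rw [run, cond_mid, cond_true_right, cond_true_right, forceL_eq, forceL_eq, allN_iff, ble_iff,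
    lenL_eq, mapL_eq, dv_iff] at hr
  have h2 : ¬ z.sg.length ≤ 1 := by
    intro hl
    obtain ⟨p, q, hp', hq, h2, hpq, h3, h4⟩ := h.a4.three
    obtain ⟨x, hx, rfl⟩ := hz.mem_sg ((hc p hp' h3).resolve_left h2.ne')
    obtain ⟨y, hy, rfl⟩ := hz.mem_sg ((hc q hq h4).resolve_left (h2.trans hpq).ne')
    have : x = y := by
      rcases hs : z.sg with _ | ⟨a, _ | ⟨b, l⟩⟩ <;> rw [hs] at hx hy hl
      · simp at hx
      · simp only [List.mem_singleton] at hx hy; rw [hx, hy]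
      · simp at hl
    rw [this] at hpq
    exact lt_irrefl _ hpq
  have hk := h.hk
  have hu := hz.used
  have hr := hr h2 (fun he => fE2_sound h hz hc he ▸ hz.dN) #(Reg o z.P)
    (by change _ < 12 - z.used; omega)
  refine hD ι N o c (Reg o z.P) _ _ _ _ _ _ z.A z.D nd h.a1.pos h.a1.dvd ?_ ?_ ?_ ?_ ?_ ?_ ?_ ?_ hr
  · intro q hq
    rcases List.mem_append.1 hq with hq | hq
    · exact (hp.pS q hq).1
    · exact (hp.primeM hq).1
  · intro i hi p hp' hd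
    rcases hc p hp' (hd.trans (h.a1.dvd i)) with h3 | h3 | ⟨x, hx, rfl⟩
    · exact Or.inl h3
    · exact Or.inr (List.mem_append_left _ h3)
    · obtain ⟨j, hj, -⟩ := h.a1.ext i x.q hp' hd ((mem_Reg.1 hi).2 x hx)
      refine Or.inr (List.mem_append_right _ (hp.memM hx (i := j) (hj ▸ dvd_mul_right _ _) ?_))
      rw [hj]
      intro hh
      exact (mem_Reg.1 hi).1 (Nat.eq_of_mul_eq_mul_left hp'.pos (by rw [hh, mul_one]))
  · intro i hi
    rw [vcF, cond_false_right, allL_iff, cond_true_left, dv_iff, anyL_iff]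
    refine ⟨fun p hp' => ?_, (vc_aux h hp hc hi).imp_right fun ⟨q, hq, h3, h4⟩ => ⟨q, hq, ?_⟩⟩
    · rw [cond_false_left, dv_iff]
      exact ⟨fun hd => (hp.primeM hp').2.2 (hd.trans (h.a1.dvd i)), rfl⟩
    · rw [cond_false_right, cond_false_left, dv_iff, beq_iff]
      exact ⟨h3, h4, rfl⟩
  · intro i hi
    rcases vc_aux h hp hc hi with h3 | ⟨q, hq, h3, h4⟩
    · exact Or.inr (Nat.le_of_dvd (h.cpos i) h3)
    · have h5 := two_mul_le (h.cpos i) h3 h4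
      have h6 := (hp.pS q hq).2.1
      by_cases h7 : c i = 7
      · rw [h7] at h3 h4 h5
        have : q = 3 := by omega
        subst this
        omega
      · omega
  · exact fun he => fE2_sound h hz hc he ▸ dvd_rfl
  · intro i hi h6
    have h3 : 3 ∈ z.So := by
      rcases vc_aux h hp hc hi with h3 | ⟨q, hq, h3, h4⟩
      · omega
      · have h5 := two_mul_le (h.cpos i) h3 h4
        have h7 := (hp.pS q hq).2.1
        have : q = 3 := by omega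
        exact this ▸ hq
    exact ⟨anyL_iff.2 ⟨3, h3, rfl⟩, six_aux h hp h3⟩
  · intro l h3 h4 h5
    refine hL ι N o c z.P z.So z.M (nd.map Need.d) _ l h hp hc h3 h4 (fun d hd => ?_)
      (fE2_sound h hz hc) (by rw [hu]; exact h5)
    obtain ⟨x, hx, rfl⟩ := List.mem_map.1 hd
    obtain ⟨i, hi⟩ := card_pos.1 ((hn1 x hx).trans_le (hn.cnt x hx))
    exact ⟨i, (mem_filter.1 hi).1, (mem_filter.1 hi).2.1⟩
  · exact ⟨by simp, by simp, List.nodup_nil, hz.eq, Nat.pos_of_dvd_of_pos hz.dN h.a1.pos, hz.dN,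
      h.lcm hp hz.dq, hn⟩

end Cfsg.Agent.H9.KC
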