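import Cfsg.Agent.H9.KCProg

/-! Specifications of the helper functions of the search, invariants and interfaces. -/

set_option autoImplicit false

namespace Cfsg.Agent.H9.KC

open Finset

universe u

section Helpers

variable {α β : Type}

theorem cond_true_right {a b : Bool} : cond a b true = true ↔ (a = true → b = true) := by
  cases a <;> simp

theorem cond_false_right {a b : Bool} : cond a b false = true ↔ (a = true ∧ b = true) := by
  cases a <;> simp

theorem cond_true_left {a b : Bool} : cond a true b = true ↔ (a = true ∨ b = true) := by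
  cases a <;> simp

theorem cond_false_left {a b : Bool} : cond a false b = true ↔ (¬ a = true ∧ b = true) := by
  cases a <;> simp

theorem cond_mid {a b : Bool} : cond a true b = true ↔ (¬ a = true → b = true) := by
  cases a <;> simp

theorem beq_iff {a b : ℕ} : Nat.beq a b = true ↔ a = b := Nat.beq_eq ▸ Iff.rfl

theorem ble_iff {a b : ℕ} : Nat.ble a b = true ↔ a ≤ b := Nat.ble_eq ▸ Iff.rfl

theorem dv_iff {a b : ℕ} : dv a b = true ↔ a ∣ b := by
  rw [dv, beq_iff, Nat.dvd_iff_mod_eq_zero]; rfl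

theorem allL_iff {l : List α} {p : α → Bool} : allL l p = true ↔ ∀ a ∈ l, p a = true := by
  induction l with
  | nil => simp [allL]
  | cons a l ih =>
    change cond (p a) (allL l p) false = true ↔ _
    rw [cond_false_right, ih]; simp

theorem anyL_iff {l : List α} {p : α → Bool} : anyL l p = true ↔ ∃ a ∈ l, p a = true := by
  induction l with
  | nil => simp [anyL]
  | cons a l ih =>
    change cond (p a) true (anyL l p) = true ↔ _
    rw [cond_true_left, ih]; simp

theorem cntL_eq (l : List α) (p : α → Bool) : cntL l p = l.countP p := by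
  induction l with
  | nil => rfl
  | cons a l ih =>
    change cond (p a) (Nat.succ (cntL l p)) (cntL l p) = _
    rw [ih, List.countP_cons]; cases p a <;> simp

theorem allN_iff {n : ℕ} {p : ℕ → Bool} : allN n p = true ↔ ∀ a < n, p a = true := by
  induction n with
  | zero => simp [allN]
  | succ n ih =>
    change cond (p n) (allN n p) false = true ↔ _
    rw [cond_false_right, ih, Nat.forall_lt_succ_right]; tauto

theorem mn_eq (a b : ℕ) : mn a b = min a b := by
  unfold mn; cases h : Nat.ble a b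
  · have : ¬ a ≤ b := by rw [← ble_iff, h]; simp
    simp; omega
  · simp [ble_iff.1 h]

theorem mx_eq (a b : ℕ) : mx a b = max a b := by
  unfold mx; cases h : Nat.ble a b
  · have : ¬ a ≤ b := by rw [← ble_iff, h]; simp
    simp; omega
  · simp [ble_iff.1 h]

theorem prodL_eq (l : List ℕ) : prodL l = l.prod := by
  induction l with
  | nil => rfl
  | cons a l ih => change a * prodL l = _; rw [ih, List.prod_cons]

theorem sumF_eq (l : List α) (f : α → ℕ) : sumF l f = (l.map f).sum := by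
  induction l with
  | nil => rfl
  | cons a l ih => change f a + sumF l f = _; rw [ih, List.map_cons, List.sum_cons]

theorem lenL_eq (l : List α) : lenL l = l.length := by
  induction l with
  | nil => rfl
  | cons a l ih => change lenL l + 1 = _; rw [ih, List.length_cons]

theorem mapL_eq (f : α → β) (l : List α) : mapL f l = l.map f := by
  induction l with
  | nil => rfl
  | cons a l ih => change f a :: mapL f l = _; rw [ih, List.map_cons]

theorem forceL_eq (l : List ℕ) (k : List ℕ → Bool) : forceL l k = k l := by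
  induction l generalizing k with
  | nil => rfl
  | cons a l ih => exact ih fun l' => k (a :: l')

theorem filtK_eq (p : α → Bool) (l : List α) (k : List α → Bool) :
    filtK p l k = k (l.filter p) := by
  induction l generalizing k with
  | nil => rfl
  | cons a l ih =>
    change cond (p a) (filtK p l fun l => k (a :: l)) (filtK p l k) = _
    rw [ih, ih, List.filter_cons]; cases p a <;> rfl

theorem divs_cons (q : ℕ) (l : List ℕ) : divs (q :: l) = divs l ++ (divs l).map (Nat.mul q) := rfl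

theorem dvd_of_mem_divs {l : List ℕ} {t : ℕ} (h : t ∈ divs l) : t ∣ l.prod := by
  induction l generalizing t with
  | nil => simp [divs] at h; simp [h]
  | cons q l ih =>
    rw [divs_cons, List.mem_append, List.mem_map] at h
    rw [List.prod_cons]
    rcases h with h | ⟨a, h, rfl⟩
    · exact (ih h).mul_left q
    · exact Nat.mul_dvd_mul_left q (ih h)

theorem mem_divs {l : List ℕ} (hl : ∀ q ∈ l, q.Prime) {t : ℕ} (h : t ∣ l.prod) : t ∈ divs l := by
  induction l generalizing t with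
  | nil => simp at h; simp [divs, h]
  | cons q l ih =>
    rw [divs_cons, List.mem_append, List.mem_map]
    rw [List.prod_cons] at h
    have hq := hl q (by simp)
    have ih' := fun t => @ih (fun r hr => hl r (by simp [hr])) t
    by_cases hd : q ∣ t
    · obtain ⟨a, rfl⟩ := hd
      exact Or.inr ⟨a, ih' a (Nat.dvd_of_mul_dvd_mul_left hq.pos h), rfl⟩
    · exact Or.inl (ih' t (((Nat.Prime.coprime_iff_not_dvd hq).2 hd).symm.dvd_of_dvd_mul_left h))

/-- The number of classes needed. -/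
def sgN (nd : List Need) : ℕ := (nd.map Need.n).sum

/-- The bound for the sum of the inverses on the needed classes. -/
def sgQ (nd : List Need) : ℚ := (nd.map fun x => (x.n : ℚ) / x.cm).sum

theorem sig_spec (nd : List Need) (h : ∀ x ∈ nd, 0 < x.cm) : ∃ sn sd : ℕ, 0 < sd ∧
    (sn : ℚ) / sd = sgQ nd ∧ ∀ k, sig nd k = k (sgN nd) sn sd := by
  induction nd with
  | nil => exact ⟨0, 1, one_pos, by simp [sgQ], fun k => rfl⟩
  | cons x l ih =>
    obtain ⟨sn, sd, h1, h2, h3⟩ := ih fun y hy => h y (by simp [hy])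
    have hx := h x (by simp)
    refine ⟨sn * x.cm + x.n * sd, sd * x.cm, Nat.mul_pos h1 hx, ?_, fun k => ?_⟩
    · have : sgQ (x :: l) = (x.n : ℚ) / x.cm + sgQ l := by simp [sgQ]
      rw [this, ← h2]
      have h1' : (sd : ℚ) ≠ 0 := by positivity
      have hx' : (x.cm : ℚ) ≠ 0 := by positivity
      push_cast; field_simp; ring
    · change sig l _ = _
      rw [h3]
      have : sgN (x :: l) = sgN l + x.n := by simp [sgN, add_comm]
      rw [this]; rfl

end Helpers

section Inv

variable {ι : Type*} [Fintype ι] (N : ℕ) (o c : ι → ℕ)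

/-- All hypotheses of the search. -/
structure Base : Prop where
  hk : Fintype.card ι ≤ 11
  a1 : A1 N o c
  a2 : A2 N o c
  a3 : A3 N o c
  a4 : A4 N o c
  a5 : A5 N o c
  ol : ¬ 256 ∣ N → N ∈ ordList ∨ 2 * 10 ^ 12 ≤ N

/-- The classes `≠ 1` of order prime to the primes of `P`. -/
def Reg (P : List PP) : Finset ι := univ.filter fun i => o i ≠ 1 ∧ ∀ x ∈ P, ¬ x.q ∣ o i

/-- The data on the odd primes found so far. -/
structure Pr (P : List PP) (So M : List ℕ) : Prop where
  pP : ∀ x ∈ P, x.q.Prime ∧ 2 < x.q ∧ x.q ∣ N ∧ ¬ x.q * x.q ∣ N ∧ mC o x.q = x.m ∧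
    sC o x.q = x.s ∧ x.m * x.e + 1 = x.q
  pS : ∀ q ∈ So, q.Prime ∧ 2 < q ∧ q ∣ N ∧ (∀ x ∈ P, x.q ≠ q) ∧
    (q * q ∣ N ∨ ∃ p ∈ M, p < q ∧ ∃ i, q * p ∣ o i)
  pM : ∀ p, p ∈ M ↔ ∃ x ∈ P, x.q = p ∧ x.m ≠ x.s
  nadj : ∀ x ∈ P, ∀ y ∈ P, ∀ i, x.q ∣ o i → y.q ∣ o i → x.q = y.q

/-- All prime divisors have been found. -/
def Cpl (N : ℕ) (P : List PP) (So : List ℕ) : Prop :=
  ∀ p, p.Prime → p ∣ N → p = 2 ∨ p ∈ So ∨ ∃ x ∈ P, x.q = p

/-- The needs are satisfied by the classes in `R`. -/
structure NV (R : Finset ι) (nd : List Need) : Prop where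
  nodup : (nd.map Need.d).Nodup
  pos : ∀ x ∈ nd, 0 < x.cm
  cnt : ∀ x ∈ nd, x.n ≤ #{i ∈ R | o i = x.d ∧ (x.f = true → c i % 4 = 2)}
  ok : ∀ x ∈ nd, ∀ i, o i = x.d → (x.f = true → c i % 4 = 2) → np x (c i) = true ∧ x.cm ≤ c i

/-- The invariant of the search for the centralizer orders: `l` lists the classes of `R₀` already
chosen and `R` is the set of the others. -/
structure DI [DecidableEq ι] (R₀ R : Finset ι) (l : List ι) (A L : ℕ) (nd : List Need) : Prop where
  sub : ∀ i, i ∈ R₀ ↔ i ∈ R ∨ i ∈ l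
  dis : ∀ i ∈ l, i ∉ R
  nodup : l.Nodup
  eq : (A : ℚ) / L = 1 / N + ∑ i ∈ R, 1 / (c i : ℚ)
  pos : 0 < L
  dvd : L ∣ N
  lcm : ∀ K, L ∣ K → (∀ i ∈ R, c i ∣ K) → N ∣ K
  nv : NV o c R nd

variable {N o c}

omit [Fintype ι] in
/-- The needs bound the sum of the inverses of the centralizer orders. -/
theorem NV.bound {nd : List Need} {R : Finset ι} (h : NV o c R nd) {lo : ℕ} (hlo : 0 < lo)
    (hR : ∀ i ∈ R, lo ≤ c i) : sgN nd ≤ #R ∧
      ∑ i ∈ R, 1 / (c i : ℚ) ≤ sgQ nd + ((#R - sgN nd : ℕ) : ℚ) / lo := by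
  classical
  induction nd generalizing R with
  | nil =>
    refine ⟨Nat.zero_le _, ?_⟩
    have : ∑ i ∈ R, 1 / (c i : ℚ) ≤ ∑ i ∈ R, 1 / (lo : ℚ) := sum_le_sum fun i hi =>
      one_div_le_one_div_of_le (by exact_mod_cast hlo) (by exact_mod_cast hR i hi)
    simpa [sgN, sgQ, div_eq_mul_inv] using this
  | cons x l ih =>
    obtain ⟨S, hS, hc⟩ := exists_subset_card_eq (h.cnt x (by simp))
    have hSR : S ⊆ R := hS.trans (filter_subset _ _)
    have hnd := h.nodup
    rw [List.map_cons, List.nodup_cons] at hnd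
    have h' : NV o c (R \ S) l := by
      refine ⟨hnd.2, fun y hy => h.pos y (by simp [hy]), fun y hy => ?_,
        fun y hy => h.ok y (by simp [hy])⟩
      refine (h.cnt y (by simp [hy])).trans (card_le_card fun i hi => ?_)
      rw [mem_filter] at hi ⊢
      refine ⟨mem_sdiff.2 ⟨hi.1, fun hs => hnd.1 ?_⟩, hi.2⟩
      rw [← (mem_filter.1 (hS hs)).2.1, hi.2.1]
      exact List.mem_map_of_mem hy
    obtain ⟨h1, h2⟩ := ih h' fun i hi => hR i (mem_sdiff.1 hi).1
    have e1 : sgN (x :: l) = x.n + sgN l := by simp [sgN]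
    have e2 : sgQ (x :: l) = (x.n : ℚ) / x.cm + sgQ l := by simp [sgQ]
    have hle := card_le_card hSR
    rw [card_sdiff_of_subset hSR, hc] at h1 h2
    have h3 : ∑ i ∈ S, 1 / (c i : ℚ) ≤ ∑ i ∈ S, 1 / (x.cm : ℚ) := sum_le_sum fun i hi =>
      one_div_le_one_div_of_le (by exact_mod_cast h.pos x (by simp))
        (by exact_mod_cast (h.ok x (by simp) i (mem_filter.1 (hS hi)).2.1
          (mem_filter.1 (hS hi)).2.2).2)
    rw [sum_const, hc, nsmul_eq_mul, mul_one_div] at h3
    refine ⟨by omega, ?_⟩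
    rw [← sum_sdiff hSR, e1, e2, ← Nat.sub_sub]
    linarith

end Inv

/-- Soundness of `leaf`. -/
def LeafStmt : Prop := ∀ (ι : Type u) [Fintype ι] (N : ℕ) (o c : ι → ℕ) (P : List PP)
  (So M ND : List ℕ) (e2 : Bool) (l : List ι), Base N o c → Pr N o P So M → Cpl N P So →
  l.Nodup → (∀ i, i ∈ l ↔ i ∈ Reg o P) → (∀ d ∈ ND, ∃ i ∈ Reg o P, o i = d) →
  (e2 = true → N = 20160) → leaf So M ND P e2 (Fintype.card ι) N (l.map c) = true →
  Out (Fintype.card ι) N

/-- Soundness of `sixP` and `dfs`. -/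
def DfsStmt : Prop := ∀ (ι : Type u) [Fintype ι] [DecidableEq ι] (N : ℕ) (o c : ι → ℕ)
  (R₀ : Finset ι) (gp : List ℕ) (vc : ℕ → Bool) (three e2 : Bool) (lf : ℕ → List ℕ → Bool)
  (Q : Prop) (A L : ℕ) (nd : List Need), 0 < N → (∀ i, c i ∣ N) → (∀ q ∈ gp, q.Prime) →
  (∀ i ∈ R₀, ∀ p, p.Prime → p ∣ c i → p = 2 ∨ p ∈ gp) → (∀ i ∈ R₀, vc (c i) = true) →
  (∀ i ∈ R₀, c i = 6 ∨ 8 ≤ c i) → (e2 = true → N ∣ 20160) →
  (∀ i ∈ R₀, c i = 6 → three = true ∧ (∀ j, o j = 3 → c j % 4 = 2 → 18 ∣ c j) ∧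
    #{j ∈ R₀ | c j = 6} ≤ #{j ∈ R₀ | o j = 3 ∧ c j % 4 = 2}) →
  (∀ l : List ι, l.Nodup → (∀ i, i ∈ l ↔ i ∈ R₀) → lf N (l.map c) = true → Q) →
  DI N o c R₀ R₀ [] A L nd → sixP three e2 (dfs gp vc e2 lf) #R₀ 0 A L nd [] = true → Q

end Cfsg.Agent.H9.KC
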