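import Cfsg.Agent.H89.L27Defs

/-!
# Fixed points of the twisted Frobenius map in the torus of the component `A₂`
-/

set_option autoImplicit false
set_option maxRecDepth 10000

namespace Cfsg.Agent.H9.L27TwT

open Equiv Cfsg.Lie H37 H40 H34 H29 Module Cfsg.Agent.H50.E83 Cfsg.Agent.H89.L27

theorem pairE (r s : Rt) : C8.R.pair r s = chevE8.pairing r s := by
  rw [RS.pair_def, pairing_eq_sum, Finset.sum_range]
  exact Finset.sum_congr rfl fun i _ => by rw [C8.co_eq, C8.wt_eq]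

theorem zpow_sum' {ι : Type} (ζ : Kˣ) (s : Finset ι) (f : ι → ℤ) :
    ζ ^ ∑ i ∈ s, f i = ∏ i ∈ s, ζ ^ f i := by
  classical
  induction s using Finset.induction_on with
  | empty => simp
  | insert a s h ih => rw [Finset.sum_insert h, Finset.prod_insert h, zpow_add, ih]

theorem lab_hg (ζ : Kˣ) (k : ℕ) (r : Rt) :
    Lab C8 ζ (C8.hg K r ((ζ ^ k : Kˣ) : K)) fun s => k * C8.R.pair r s := by
  refine ⟨(isAdd_pair r).mul k, _, (Cert.hg_eq_tg r.2 (ζ ^ k)).symm, fun s => ?_⟩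
  beta_reduce
  rw [RS.pair_def, torChar, Finset.mul_sum, zpow_sum']
  refine Finset.prod_congr rfl fun i _ => ?_
  rw [C8.co_eq, C8.wt_eq, ← zpow_natCast, ← zpow_mul, ← zpow_mul]

theorem xg_mem {r : ℕ} (h : r ∈ A2) (t : K) : C8.xg K r t ∈ AG :=
  Subgroup.subset_closure ⟨r, h, t, rfl⟩

theorem hg_mem {r : ℕ} (h : r ∈ A2) (h' : chevE8.neg r ∈ A2) (t : K) : C8.hg K r t ∈ AG := by
  rw [Cert.hg_eq, Cert.ng_eq, Cert.ng_eq]
  exact mul_mem (mul_mem (mul_mem (xg_mem h _) (xg_mem h' _)) (xg_mem h _))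
    (mul_mem (mul_mem (xg_mem h _) (xg_mem h' _)) (xg_mem h _))

def ra : Rt := ⟨121, by decide +kernel⟩
def rb : Rt := ⟨120, by decide +kernel⟩

theorem twT : TwTStmt := by
  classical
  intro n hn hS
  obtain ⟨ζ, hζ, -⟩ := exists_prim_unit K (N := 8) (by
    rw [Ne, CharP.cast_eq_zero_iff K 3]; decide)
  have hl := (lab_hg ζ 1 ra).mul (lab_hg ζ 3 rb)
  have hA : C8.hg K ra ((ζ ^ 1 : Kˣ) : K) * C8.hg K rb ((ζ ^ 3 : Kˣ) : K) ∈ AG :=
    mul_mem (hg_mem (by decide) (by decide +kernel) _) (hg_mem (by decide) (by decide +kernel) _)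
  generalize C8.hg K ra ((ζ ^ 1 : Kˣ) : K) * C8.hg K rb ((ζ ^ 3 : Kˣ) : K) = y at hl hA
  have hσ : σG y = y ^ 3 := by
    obtain ⟨c, rfl⟩ := Cert.mem_H_iff.1 hl.mem_H
    rw [← map_pow]
    exact C8.fieldHom_tg_pow fr_apply c
  have ha : P8.ν n rb = ra := Fin.ext (hS rb (120, 121) (by decide) (by simp [rb]))
  have hb : P8.ν n ra = rb := Fin.ext (hS ra (121, 120) (by decide) (by simp [ra]))
  have hw := P8.ν_mem n hn
  have h1 : y ^ 3 = n⁻¹ * y * n := by
    rw [(hl.pow 3).eq_iff (hl.conj hn)]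
    intro r
    have e1 : C8.R.pair ra (P8.ν n r) = C8.R.pair rb r := by
      rw [← ha]; exact C8.R.pair_W hw rb r
    have e2 : C8.R.pair rb (P8.ν n r) = C8.R.pair ra r := by
      rw [← hb]; exact C8.R.pair_W hw ra r
    rw [zpow_eq_iff hζ, e1, e2]
    push_cast
    have h8 : (8 : ZMod 8) = 0 := rfl
    linear_combination (C8.R.pair rb r : ZMod 8) * h8
  have h2 : n * σG y * n⁻¹ = y := by rw [hσ, h1]; group
  have hv : ((1 : ℕ) : ℤ) * C8.R.pair ra ra + ((3 : ℕ) : ℤ) * C8.R.pair rb ra = -1 := by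
    rw [pairE, pairE]; decide +kernel
  refine ⟨(Finset.range 8).image fun k => y ^ k, ?_, ?_⟩
  · rw [Finset.card_image_of_injOn, Finset.card_range]
    intro i hi j hj e
    have h3 := ((hl.pow i).eq_iff (hl.pow j)).1 e ra
    rw [hv, zpow_eq_iff hζ] at h3
    have h4 : (i : ZMod 8) = (j : ZMod 8) := by simpa using h3
    rw [ZMod.natCast_eq_natCast_iff'] at h4
    have hi' : i < 8 := by simpa using hi
    have hj' : j < 8 := by simpa using hj
    omega
  · intro z hz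
    obtain ⟨k, -, rfl⟩ := Finset.mem_image.1 hz
    refine ⟨pow_mem hA k, pow_mem hl.mem_H k, ?_⟩
    rw [map_pow, ← conj_pow, h2]

end Cfsg.Agent.H9.L27TwT
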