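import Cfsg.Agent.H50.L81Defs

/-! Project L81 (S5921): the pressure inequality (ZZ). -/

set_option autoImplicit false

namespace Cfsg.Agent.H9.L81Zz

open Module Finset Cfsg.Agent.H50.SL2S Cfsg.Agent.H50.E83 Cfsg.Agent.H50.L81

theorem EE_zero : EE 40 0 0 = 1 := by decide +kernel

theorem sum_eps (L : List ℕ) (h : ∀ r ∈ L, r < 81 ∧ Even r) :
    (L.map eps).sum + L.count 0 = SE (fun r => L.count r) 40 0 + pw fun r => L.count r := by
  induction L with
  | nil => simp [SE, pw]
  | cons r L ih =>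
    have ih' := ih fun s hs => h s (List.mem_cons_of_mem _ hs)
    obtain ⟨h1, a, rfl⟩ := h r List.mem_cons_self
    have e1 : SE (fun s => ((a + a) :: L).count s) 40 0 =
        SE (fun s => L.count s) 40 0 + EE 40 (a + a) 0 := by
      simp only [SE, List.count_cons, add_mul, sum_add_distrib]
      refine congrArg (_ + ·) ?_
      rw [sum_eq_single a]
      · simp [two_mul]
      · intro b _ hb
        rw [if_neg (by simp only [beq_iff_eq]; omega), zero_mul]
      · intro ha; exact absurd (mem_range.2 (by omega)) ha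
    rw [e1, List.map_cons, List.sum_cons]
    simp only [pw, List.count_cons, eps, beq_iff_eq, List.mem_cons, List.not_mem_nil, or_false] at ih' ⊢
    by_cases h0 : a + a = 0
    · rw [h0, EE_zero]; simp; omega
    · split_ifs <;> omega

theorem cube {W : Type} [AddCommGroup W] [Module K W] (A : ℕ → Module.End K W)
    (h : ∀ a ≤ 80, ∀ b ≤ 80, A a * A b =
      if a + b ≤ 80 then (((a + b).choose a : ℕ) : K) • A (a + b) else 0) (i : Fin 4) :
    A (3 ^ (i : ℕ)) * (A (3 ^ (i : ℕ)) * A (3 ^ (i : ℕ))) = 0 := by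
  have k : ∀ c, 2 * c ≤ 80 → (3 * c ≤ 80 → 3 ∣ (c + (c + c)).choose c) → A c * (A c * A c) = 0 := by
    intro c h1 h2
    rw [h c (by omega) c (by omega), if_pos (by omega), mul_smul_comm, h c (by omega) _ (by omega)]
    split_ifs with h3
    · rw [(CharP.cast_eq_zero_iff K 3 _).2 (h2 (by omega)), zero_smul, smul_zero]
    · rw [smul_zero]
  have : ∀ i : Fin 4, 2 * 3 ^ (i : ℕ) ≤ 80 ∧ (3 * 3 ^ (i : ℕ) ≤ 80 →
      3 ∣ (3 ^ (i : ℕ) + (3 ^ (i : ℕ) + 3 ^ (i : ℕ))).choose (3 ^ (i : ℕ))) := by decide +kernel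
  exact k _ (this i).1 (this i).2

theorem zz (hS : SerStmt) (hM : MultStmt) (hA : AopStmt) (hZ : Z1Stmt) : ZzStmt := by
  intro p W _ _ _ ρ hρ hB U L hU
  obtain ⟨hI, hL⟩ := (hS p W ρ hρ).2.1 U L hU
  obtain ⟨-, a2, a3, -, -, -, a7, a8, a9, -⟩ := hA p W ρ hρ
  have hle : ∀ i : Fin 4, 3 ^ (i : ℕ) ≤ 40 := by decide
  let f : (U ⊓ Wt ρ p 0 : Submodule K W) →ₗ[K] Zg ρ p U :=
    LinearMap.codRestrict _ ((LinearMap.pi fun i : Fin 4 => Aop ρ p (3 ^ (i : ℕ))).comp
      (Submodule.subtype _)) fun v => ⟨fun i => ⟨(a7 U hI _ v.1 v.2.1).1, by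
        have := a3 _ ((hle i).trans (by norm_num)) 0 v.1 v.2.2
        rwa [zero_add] at this⟩, fun i j => by
        have hi := hle i
        have hj := hle j
        change (Aop ρ p _ * Aop ρ p _) v.1 = (Aop ρ p _ * Aop ρ p _) v.1
        rw [a2 _ (by omega) _ (by omega), a2 _ (by omega) _ (by omega), if_pos (by omega),
          if_pos (by omega), Nat.choose_symm_add, add_comm],
      fun i => LinearMap.congr_fun (cube (Aop ρ p) a2 i) v.1⟩
  have hf : Function.Injective f := by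
    rw [injective_iff_map_eq_zero]
    intro v hv
    have h1 := (a9 v.1).2 ⟨(a8 _).1 fun i hi =>
      congrFun (congrArg Subtype.val hv) ⟨i, hi⟩, v.2.2⟩
    rw [hB] at h1
    exact Subtype.ext h1
  have h1 := LinearMap.finrank_le_finrank_of_injective hf
  have h2 : finrank K (U ⊓ Wt ρ p 0 : Submodule K W) = _ := (hM p W ρ hρ U L hU).2 0 (by norm_num)
  have h3 := hZ p W ρ hρ U L hU
  have h4 := sum_eps L hL
  omega

end Cfsg.Agent.H9.L81Zz
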