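import Cfsg.Agent.H63.PSDefs
import Cfsg.Agent.S0907
import Cfsg.Agent.S0925
import Cfsg.Agent.S0942
import Cfsg.Agent.S0943
import Cfsg.Agent.H3.Cores
import Cfsg.Agent.H21.Basic

/-! PS-ID: block orthogonality count. -/

set_option autoImplicit false
open Cfsg
open scoped ComplexConjugate

namespace Cfsg.Agent.H9.PsId

open Cfsg.Agent.H63.PS

universe u

variable {p : ℕ} [Fact p.Prime] {G : Type u} [Group G] [Finite G]

theorem ppow {A : Subgroup G} (hA : IsPGroup p A) {a : G} (ha : a ∈ A) :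
    ∃ k, orderOf a = p ^ k := by
  obtain ⟨k, hk⟩ := (IsPGroup.iff_orderOf.1 hA) ⟨a, ha⟩
  exact ⟨k, by rw [← hk, Subgroup.orderOf_mk]⟩

theorem dvd_ord {b : G} (hb : b ≠ 1) (hk : ∃ k, orderOf b = p ^ k) : p ∣ orderOf b := by
  obtain ⟨k, hk⟩ := hk
  rw [hk]
  refine dvd_pow_self p ?_
  rintro rfl
  exact hb (orderOf_eq_one_iff.1 (by simpa using hk))

theorem oo_facts {b s : G} (hs : s ∈ OO p (CC b)) : Commute b s ∧ (orderOf s).Coprime p := by
  obtain ⟨s', hs', rfl⟩ := hs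
  refine ⟨?_, ?_⟩
  · have := s'.2 b rfl
    exact this
  · have h1 : orderOf (⟨s', hs'⟩ : pPrimeCore p ↥(CC b)) ∣ Nat.card (pPrimeCore p ↥(CC b)) :=
      orderOf_dvd_natCard _
    rw [Subgroup.orderOf_mk] at h1
    have h2 : orderOf ((CC b).subtype s') = orderOf s' := Subgroup.orderOf_coe s'
    rw [h2]
    exact (H3.pPrimeCore_coprime p ↥(CC b)).coprime_dvd_left h1

theorem dvd_ord_mul {b s : G} (hb : b ≠ 1) (hk : ∃ k, orderOf b = p ^ k) (hs : s ∈ OO p (CC b)) :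
    p ∣ orderOf (b * s) := by
  obtain ⟨hc, hp⟩ := oo_facts hs
  have hd := dvd_ord hb hk
  obtain ⟨k, hk⟩ := hk
  rw [hc.orderOf_mul_eq_mul_orderOf_of_coprime (by rw [hk]; exact hp.symm.pow_left k)]
  exact hd.mul_right _

theorem ord_conj {a b : G} (h : IsConj a b) : orderOf a = orderOf b := by
  obtain ⟨c, rfl⟩ := isConj_iff.1 h
  exact ((MulAut.conj c).orderOf_eq a).symm

theorem chi_conj (χ : IrrCharacter G) {a b : G} (h : IsConj a b) :
    (χ : G → ℂ) a = (χ : G → ℂ) b := by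
  obtain ⟨c, rfl⟩ := isConj_iff.1 h
  exact (H11.isClassFunction_of_irr χ.2 a c).symm

/-- the element `t(g)` of the notes -/
theorem exists_t {A : Subgroup G} {z : G} (hL : Loc p A z) (g : G) :
    ∃ t ∈ A, IsConj z t ∧ ¬ p ∣ orderOf (t⁻¹ * (g * z * g⁻¹)) ∧
      ∀ x ∈ A, x ≠ t → ∃ s ∈ OO p (CC (x⁻¹ * t)), IsConj (x⁻¹ * t * s) (x⁻¹ * (g * z * g⁻¹)) := by
  obtain ⟨κ, h1, h2, h3⟩ := hL.kap g
  have ht : (κ⁻¹ * g) * z * (κ⁻¹ * g)⁻¹ ∈ A := (Subgroup.mem_normalizer_iff.1 h1 z).1 hL.mem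
  have he : g * z * g⁻¹ = κ * ((κ⁻¹ * g) * z * (κ⁻¹ * g)⁻¹) * κ⁻¹ := by group
  refine ⟨_, ht, isConj_iff.2 ⟨_, rfl⟩, ?_, fun x hx hne => ?_⟩
  · have := h2 _ (A.inv_mem ht)
    rw [inv_inv] at this
    rwa [he]
  · rw [he]
    refine h3 _ (A.inv_mem hx) _ ht fun h => hne ?_
    exact (inv_mul_eq_one.1 h)

/-- the counting bound -/
theorem count {A : Subgroup G} {z : G} (hL : Loc p A z) :
    kk A z * Nat.card {g : G // ¬ p ∣ orderOf (z⁻¹ * (g * z * g⁻¹))} ≤ Nat.card G := by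
  classical
  unfold kk
  rw [← Nat.card_prod]
  choose m hm using fun x : {x : G // x ∈ A ∧ IsConj z x} => isConj_iff.1 x.2.2
  have key : ∀ (x : {x : G // x ∈ A ∧ IsConj z x})
      (r : {g : G // ¬ p ∣ orderOf (z⁻¹ * (g * z * g⁻¹))}),
      x.1 = Classical.choose (exists_t hL (m x * r.1)) := by
    intro x r
    obtain ⟨ht, -, -, h4⟩ := Classical.choose_spec (exists_t hL (m x * r.1))
    by_contra hne
    obtain ⟨s, hs, hc⟩ := h4 x.1 x.2.1 hne
    have hb : x.1⁻¹ * Classical.choose (exists_t hL (m x * r.1)) ≠ 1 := fun h =>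
      hne (inv_mul_eq_one.1 h)
    have h5 := dvd_ord_mul hb (ppow hL.pg (A.mul_mem (A.inv_mem x.2.1) ht)) hs
    rw [ord_conj hc] at h5
    apply r.2
    have h6 : IsConj (z⁻¹ * (r.1 * z * r.1⁻¹)) (x.1⁻¹ * (m x * r.1 * z * (m x * r.1)⁻¹)) :=
      isConj_iff.2 ⟨m x, by rw [← hm x]; group⟩
    rwa [ord_conj h6]
  refine Nat.card_le_card_of_injective (fun q => m q.1 * q.2.1) ?_
  rintro ⟨x, r⟩ ⟨y, r'⟩ h
  have h' : m x * r.1 = m y * r'.1 := h
  have hxy : x = y := Subtype.ext (by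
    rw [key x r, key y r']
    congr 1
    rw [h'])
  subst hxy
  exact Prod.ext rfl (Subtype.ext (mul_left_cancel h'))

variable {M : Ideal AlgInt}

/-- the principal block as a finset -/
noncomputable def BB (M : Ideal AlgInt) (G : Type u) [Group G] [Finite G] :
    Finset (IrrCharacter G) := (Set.toFinite (principalBlock M G)).toFinset

theorem fs {β : Type*} [AddCommMonoid β] (f : IrrCharacter G → β) :
    ∑ᶠ χ ∈ principalBlock M G, f χ = ∑ χ ∈ BB M G, f χ :=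
  finsum_mem_eq_finite_toFinset_sum _ _

theorem mem_BB {χ : IrrCharacter G} : χ ∈ BB M G ↔ χ ∈ principalBlock M G :=
  Set.Finite.mem_toFinset _

theorem mul_inv_eq (χ : IrrCharacter G) (b : G) :
    (χ : G → ℂ) b * (χ : G → ℂ) b⁻¹ = ((‖(χ : G → ℂ) b‖ ^ 2 : ℝ) : ℂ) := by
  rw [← H11.conj_apply (H11.irr_isCharacter χ), Complex.mul_conj, Complex.normSq_eq_norm_sq]

theorem inner_p (hl : LamStmt.{u}) (hM : IsPModular p M) {b c : G} (hb : b ≠ 1)
    (hk : ∃ k, orderOf b = p ^ k) (hs : IsPSolvable p ↥(CC b)) (hc : ∃ k, orderOf c = p ^ k)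
    [Decidable (IsConj b c)] :
    ∑ χ ∈ BB M G, (χ : G → ℂ) b * (χ : G → ℂ) c⁻¹ = if IsConj b c then (io p b : ℂ) else 0 := by
  have hp1 : ¬ p ∣ orderOf (1 : G) := by
    rw [orderOf_one]; exact fun h => (Fact.out : p.Prime).one_lt.ne' (Nat.dvd_one.1 h)
  split_ifs with h
  · have h1 := hl p G M hM b hb hk hs
    rw [fs] at h1
    have h2 : ((∑ χ ∈ BB M G, ‖(χ : G → ℂ) b‖ ^ 2 : ℝ) : ℂ) = (io p b : ℂ) := by
      rw [h1]; simp
    rw [← h2, Complex.ofReal_sum]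
    refine Finset.sum_congr rfl fun χ _ => ?_
    rw [← mul_inv_eq]
    congr 1
    refine chi_conj χ ?_
    obtain ⟨d, rfl⟩ := isConj_iff.1 h
    exact isConj_iff.2 ⟨d⁻¹, by group⟩
  · rw [← fs]
    exact (S0925.result p M hM).2 b c b c ⟨1, mul_one _, Commute.one_right _, hk, hp1⟩
      ⟨1, mul_one _, Commute.one_right _, hc, hp1⟩ h _ H21.isPBlock_principal

open Classical in
/-- the sum over the nonidentity elements of `A` for one `g` -/
noncomputable def TT (M : Ideal AlgInt) (A : Subgroup G) (z g : G) : ℂ :=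
  haveI := Fintype.ofFinite A
  ∑ c ∈ (Finset.univ : Finset A).erase 1,
    ∑ χ ∈ BB M G, (χ : G → ℂ) (z⁻¹ * (g * z * g⁻¹)) * (χ : G → ℂ) (c : G)⁻¹

open Classical in
theorem TT_ge (hl : LamStmt.{u}) (hM : IsPModular p M) {A : Subgroup G} {z : G} (hL : Loc p A z)
    (g : G) :
    (if p ∣ orderOf (z⁻¹ * (g * z * g⁻¹)) then (kk A z : ℝ) * (io p z : ℝ) else 0) ≤
      (TT M A z g).re := by
  letI := Fintype.ofFinite A
  obtain ⟨t, ht, -, h3, h4⟩ := exists_t hL g
  by_cases hz : z = t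
  · subst hz
    rw [if_neg h3]
    have : TT M A z g = 0 := by
      unfold TT
      refine Finset.sum_eq_zero fun c hc => ?_
      have hc1 : (c : G) ≠ 1 := fun h => (Finset.mem_erase.1 hc).1 (Subtype.ext h)
      have := S0907.result p M hM _ H21.isPBlock_principal _ (c : G) h3
        (dvd_ord hc1 (ppow hL.pg c.2))
      rw [fs] at this
      rw [← this]
      refine Finset.sum_congr rfl fun χ _ => ?_
      rw [H11.conj_apply (H11.irr_isCharacter χ)]
    rw [this]; simp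
  · obtain ⟨s, hs, hc⟩ := h4 z hL.mem hz
    have hb : z⁻¹ * t ≠ 1 := fun h => hz (inv_mul_eq_one.1 h)
    have hbA : z⁻¹ * t ∈ A := A.mul_mem (A.inv_mem hL.mem) ht
    set b := z⁻¹ * t with hbd
    have hk := ppow hL.pg hbA
    have h1 : TT M A z g = ((kk A b * io p b : ℕ) : ℂ) := by
      unfold TT
      have h2 : ∀ c ∈ (Finset.univ : Finset A).erase 1,
          ∑ χ ∈ BB M G, (χ : G → ℂ) (z⁻¹ * (g * z * g⁻¹)) * (χ : G → ℂ) (c : G)⁻¹ =
            if IsConj b (c : G) then (io p b : ℂ) else 0 := by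
        intro c _
        rw [← inner_p hl hM hb hk (hL.psol b hbA hb) (ppow hL.pg c.2)]
        refine Finset.sum_congr rfl fun χ hχ => ?_
        rw [← chi_conj χ hc, S0942.result p M hM b hk s hs χ (mem_BB.1 hχ)]
      rw [Finset.sum_congr rfl h2, Finset.sum_erase _ (by
        rw [if_neg]; intro h; exact hb (isConj_one_left.1 (by simpa using h)))]
      rw [← Finset.sum_filter, Finset.sum_const, nsmul_eq_mul]
      push_cast
      congr 2
      unfold kk
      rw [← Fintype.card_subtype, ← Nat.card_eq_fintype_card]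
      exact Nat.card_congr (Equiv.subtypeSubtypeEquivSubtypeInter (fun x => x ∈ A) (IsConj b))
    rw [h1, Complex.natCast_re]
    have h5 : ((kk A z * io p z : ℕ) : ℝ) ≤ ((kk A b * io p b : ℕ) : ℝ) :=
      Nat.cast_le.2 (hL.num.1 b hbA hb)
    split_ifs
    · push_cast at h5 ⊢; exact h5
    · positivity

theorem idS (hl : LamStmt.{u}) : IDStmt.{u} := by
  intro p _ G _ _ M hM A z hL
  classical
  letI := Fintype.ofFinite A
  letI := Fintype.ofFinite G
  have hz1 : z ≠ 1 := by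
    rintro rfl
    have := hL.ord
    rw [orderOf_one] at this
    exact (Fact.out : p.Prime).one_lt.ne this
  have hG : (0 : ℝ) < Fintype.card G := by exact_mod_cast Fintype.card_pos
  have hA : (0 : ℝ) < Nat.card A := by exact_mod_cast Nat.card_pos
  -- one character
  have h1 : ∀ χ : IrrCharacter G,
      (Fintype.card G : ℝ) * ((Nat.card A : ℝ) * (‖(χ : G → ℂ) z‖ ^ 2 * ww A χ)) =
        (Fintype.card G : ℝ) * ‖(χ : G → ℂ) z‖ ^ 2 +
        (∑ g : G, ∑ c ∈ (Finset.univ : Finset A).erase 1,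
          (χ : G → ℂ) (z⁻¹ * (g * z * g⁻¹)) * (χ : G → ℂ) (c : G)⁻¹).re := by
    intro χ
    obtain ⟨d, hd, hd1⟩ := H11.exists_pos_degree χ.2
    have hd' : (0 : ℝ) < d := by exact_mod_cast hd
    have h2 := S0943.sum_conj_mul χ z z⁻¹
    rw [mul_inv_eq, hd1] at h2
    have h3 : ∑ g : G, (χ : G → ℂ) (z⁻¹ * (g * z * g⁻¹)) =
        (((Fintype.card G : ℝ) * ‖(χ : G → ℂ) z‖ ^ 2 / d : ℝ) : ℂ) := by
      have : ∑ g : G, (χ : G → ℂ) (z⁻¹ * (g * z * g⁻¹)) =
          ∑ g : G, (χ : G → ℂ) (g * z * g⁻¹ * z⁻¹) :=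
        Finset.sum_congr rfl fun g _ => chi_conj χ (isConj_iff.2 ⟨z, by group⟩)
      rw [this]
      have hd0 : (d : ℂ) ≠ 0 := by exact_mod_cast hd.ne'
      push_cast at h2 ⊢
      rw [eq_div_iff hd0, mul_comm, h2]
    have h4 : (∑ g : G, ∑ c ∈ (Finset.univ : Finset A).erase 1,
          (χ : G → ℂ) (z⁻¹ * (g * z * g⁻¹)) * (χ : G → ℂ) (c : G)⁻¹).re =
        (Fintype.card G : ℝ) * ‖(χ : G → ℂ) z‖ ^ 2 / d *
          ∑ c ∈ (Finset.univ : Finset A).erase 1, ((χ : G → ℂ) (c : G)).re := by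
      rw [← Finset.sum_mul_sum, h3, Complex.re_ofReal_mul, Complex.re_sum]
      congr 1
      refine Finset.sum_congr rfl fun c _ => ?_
      rw [← H11.conj_apply (H11.irr_isCharacter χ), Complex.conj_re]
    have h5 : ∑ᶠ c : ↥A, ((χ : G → ℂ) (c : G)).re =
        d + ∑ c ∈ (Finset.univ : Finset A).erase 1, ((χ : G → ℂ) (c : G)).re := by
      rw [finsum_eq_sum_of_fintype, ← Finset.add_sum_erase _ _ (Finset.mem_univ (1 : A))]
      simp [hd1]
    rw [h4]
    unfold ww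
    rw [h5, hd1, Complex.natCast_re]
    field_simp
  have h6 := hl p G M hM z hz1 ⟨1, by rw [hL.ord, pow_one]⟩ (hL.psol z hL.mem hz1)
  rw [fs] at h6 ⊢
  have h7 : (Fintype.card G : ℝ) *
      ((Nat.card A : ℝ) * ∑ χ ∈ BB M G, ‖(χ : G → ℂ) z‖ ^ 2 * ww A χ) =
      (Fintype.card G : ℝ) * (io p z : ℝ) + ∑ g : G, (TT M A z g).re := by
    rw [Finset.mul_sum, Finset.mul_sum, Finset.sum_congr rfl fun χ _ => h1 χ,
      Finset.sum_add_distrib, ← Finset.mul_sum, h6, ← Complex.re_sum, ← Complex.re_sum]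
    congr 2
    rw [Finset.sum_comm]
    refine Finset.sum_congr rfl fun g _ => ?_
    unfold TT
    rw [Finset.sum_comm]
  have h8 : ∑ g : G, (if p ∣ orderOf (z⁻¹ * (g * z * g⁻¹)) then (kk A z : ℝ) * (io p z : ℝ) else 0)
      ≤ ∑ g : G, (TT M A z g).re := Finset.sum_le_sum fun g _ => by
    convert TT_ge hl hM hL g
  rw [← Finset.sum_filter, Finset.sum_const, nsmul_eq_mul] at h8
  have h9 := count hL
  rw [Nat.card_eq_fintype_card (α := G), Nat.card_eq_fintype_card, Fintype.card_subtype] at h9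
  have h10 := Finset.card_filter_add_card_filter_not (s := (Finset.univ : Finset G))
    (fun g => p ∣ orderOf (z⁻¹ * (g * z * g⁻¹)))
  rw [Finset.card_univ] at h10
  have h9' : (kk A z : ℝ) * ((Finset.univ.filter
      fun g : G => ¬ p ∣ orderOf (z⁻¹ * (g * z * g⁻¹))).card : ℝ) ≤ Fintype.card G := by
    exact_mod_cast h9
  have h10' : ((Finset.univ.filter fun g : G => p ∣ orderOf (z⁻¹ * (g * z * g⁻¹))).card : ℝ) +
      ((Finset.univ.filter fun g : G => ¬ p ∣ orderOf (z⁻¹ * (g * z * g⁻¹))).card : ℝ) =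
        Fintype.card G := by exact_mod_cast h10
  have hio : (0 : ℝ) ≤ io p z := by positivity
  refine le_of_mul_le_mul_left ?_ hG
  rw [h7]
  have h11 := mul_le_mul_of_nonneg_right h9' hio
  rw [← h10'] at h11 ⊢
  nlinarith [h8, h11]

end Cfsg.Agent.H9.PsId
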