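import Cfsg.Agent.H63.PSDefs
import Cfsg.Agent.S0947
import Cfsg.Agent.S4735
import Cfsg.Agent.S0915
import Cfsg.Agent.H53.PSolv
import Cfsg.Agent.H3.Cores
import Cfsg.Agent.H21.Basic

/-! PS-LAM: norm sum over the principal block. -/

set_option autoImplicit false
open Cfsg

namespace Cfsg.Agent.H9.PsLam

open Cfsg.Agent.H63.PS

universe u

theorem norm_one_sq {H : Type*} [Group H] (χ : IrrCharacter H) :
    ‖(χ : H → ℂ) 1‖ ^ 2 = ((charDegree (χ : H → ℂ) ^ 2 : ℕ) : ℝ) := by
  rw [← H21.cast_deg χ]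
  simp

theorem sum_deg (p : ℕ) [Fact p.Prime] (H : Type*) [Group H] [Finite H] (M : Ideal AlgInt)
    (hM : IsPModular p M) (hH : IsPSolvable p H) :
    ∑ᶠ χ ∈ principalBlock M H, ‖(χ : H → ℂ) 1‖ ^ 2 = ((pPrimeCore p H).index : ℝ) := by
  classical
  have h1 := (S4735.result p M hM (1 : H)).2.2.2.2 (fun B hB => by
    obtain ⟨χ, rfl⟩ := hB
    exact H21.blockOf_eq_of_sameBlock hM.2.1
      (S0915.result p M hM (H53.isPSolvable_quotient hH _) (H3.pPrimeCore_quotient_pPrimeCore p H)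
        χ (H21.triv _)))
  haveI : Finite (IrrCharacter H) := inferInstance
  haveI : Fintype (IrrCharacter H) := Fintype.ofFinite _
  rw [← h1]
  have hf : (principalBlock M H).Finite := Set.toFinite _
  rw [finsum_mem_eq_finite_toFinset_sum _ hf, finsum_mem_eq_finite_toFinset_sum _ hf]
  push_cast
  refine Finset.sum_congr rfl fun χ _ => ?_
  rw [norm_one_sq]; push_cast; rfl

theorem lam : LamStmt.{u} := by
  intro p _ G _ _ M hM b hb hk hs
  have h := (S0947.result p M hM b hk hb 1 (by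
    rw [orderOf_one]; exact fun h => (Fact.out : p.Prime).one_lt.ne' (Nat.dvd_one.1 h))).1
  simp only [OneMemClass.coe_one, mul_one] at h
  rw [h]
  exact sum_deg p _ M hM hs

end Cfsg.Agent.H9.PsLam
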