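import Cfsg.Agent.H74.RuDefs

/-!
# Project RU: clearing the Levi part by commutators
-/

set_option autoImplicit false

namespace Cfsg.Agent.H9.RuExt

open Cfsg Module Cfsg.Agent.H31 Cfsg.Agent.H74.Ru

theorem ext (ka : KaStmt) (ex1 : Ex1Stmt) : ExtStmt := by
  intro F V _ _ _ _ _ S K hK hB v hv g₀ hg₀ t₀ h₀ bad
  obtain ⟨k1, k2, -, -, k5, k6, -⟩ := ka S v hv
  have hn := S.hn
  have i01 : S.i0 < S.i1 := Nat.zero_lt_one
  have hv' : ∀ a b : Fin S.n, a ≠ b → S.B (v a.rev) (v b) = 0 := fun a b hab => by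
    rw [hv, if_neg]; rw [Fin.rev_rev]; exact hab.symm
  have co : ∀ (g : V ≃ₗ[F] V) (a b : Fin S.n), a ≠ b →
      S.B (v a.rev) (g (v b) - v b) = S.ent v g a b := fun g a b hab => by
    rw [map_sub, hv' a b hab, sub_zero]; rfl
  have tri : ∀ g : V ≃ₗ[F] V, Tri v g 1 → ∀ a b : Fin S.n, b ≤ a →
      S.B (v a.rev) (g (v b) - v b) = 0 := fun g hg a b hab => by
    have := (k2 _ _).1 (hg b) a hab
    rwa [Pi.one_apply, Units.val_one, one_smul] at this
  have zero : ∀ x, (∀ j : Fin S.n, S.B (v j.rev) x = 0) → x = 0 := fun x hx => by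
    rw [k1 x]; exact Finset.sum_eq_zero fun j _ => by rw [hx j, zero_smul]
  have Q : ∀ d k : ℕ, ∃ g ∈ K, Tri v g 1 ∧ S.ent v g S.i0 S.i1 ≠ 0 ∧
      ∀ a b : Fin S.n, 0 < a.val → a < b → b.val + 1 < S.n →
        (b.val - a.val < d ∨ b.val - a.val = d ∧ a.val < k) → S.ent v g a b = 0 := by
    intro d
    induction d with
    | zero =>
      refine fun k => ⟨g₀, hg₀, t₀, fun h => h₀ (sub_eq_zero.1 (zero _ fun j => ?_)),
        fun a b _ hab _ h => ?_⟩
      · by_cases hj : j = S.i0
        · rw [hj, co _ _ _ i01.ne, h]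
        · exact tri _ t₀ _ _ (Nat.one_le_iff_ne_zero.2 fun e => hj (Fin.ext e))
      · have : a.val < b.val := hab
        omega
    | succ d ih =>
      intro k
      induction k with
      | zero =>
        obtain ⟨g, g1, g2, g3, g4⟩ := ih S.n
        refine ⟨g, g1, g2, g3, fun a b ha hab hb h => g4 a b ha hab hb ?_⟩
        have := a.2
        omega
      | succ k ihk =>
        obtain ⟨g, g1, g2, g3, g4⟩ := ihk
        by_cases hk : 0 < k ∧ k + (d + 1) + 1 < S.n
        swap
        · refine ⟨g, g1, g2, g3, fun a b ha hab hb h => g4 a b ha hab hb ?_⟩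
          have : a.val < b.val := hab
          omega
        obtain ⟨h, hh, t, ht, t1, t2⟩ := hB v hv ⟨k, by omega⟩ ⟨k + (d + 1), by omega⟩ hk.1
          (by show k < k + (d + 1); omega) hk.2
        refine ⟨h * g * h⁻¹ * g⁻¹, mul_mem (mul_mem (mul_mem hh g1) (inv_mem hh)) (inv_mem g1),
          ?_, ?_, fun a b ha hab hb hd => ?_⟩
        · have := k5 _ _ _ _ (k5 _ _ _ _ (k5 _ _ _ _ ht g2) (k6 _ _ ht)) (k6 _ _ g2)
          rwa [mul_one, mul_inv_cancel, inv_one, mul_one] at this
        · rw [ex1 S v hv h g t ht g2 _ _ i01 fun c e h1 h2 h3 h4 => ?_]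
          · refine mul_ne_zero (sub_ne_zero.2 fun e => t2 (Units.ext ?_)) g3
            exact (div_eq_one_iff_eq (Units.ne_zero _)).1 e
          · have a2 : c.val < e.val := h2
            have a3 : e.val ≤ 1 := h3
            rcases h4 with h4 | h4
            · exact absurd (Fin.ext (show c.val = 0 by omega)) h4
            · exact absurd (Fin.ext (show e.val = 1 by omega)) h4
        · have a0 : a.val < b.val := hab
          rw [ex1 S v hv h g t ht g2 _ _ hab fun c e h1 h2 h3 h4 => ?_]
          · by_cases he : b.val - a.val = d + 1 ∧ a.val = k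
            · have e1 : a = ⟨k, by omega⟩ := Fin.ext he.2
              have e2 : b = ⟨k + (d + 1), by omega⟩ := Fin.ext (by show b.val = k + (d + 1); omega)
              have e3 : t a = t b := (congrArg t e1).trans (t1.trans (congrArg t e2).symm)
              rw [e3, div_self (Units.ne_zero _), sub_self, zero_mul]
            · rw [g4 a b ha hab hb (by omega), mul_zero]
          · have a1 : a.val ≤ c.val := h1
            have a2 : c.val < e.val := h2
            have a3 : e.val ≤ b.val := h3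
            have a4 : c.val ≠ a.val ∨ e.val ≠ b.val := h4.imp (fun h e => h (Fin.ext e))
              fun h e => h (Fin.ext e)
            exact g4 c e (by omega) h2 (by omega) (by omega)
  obtain ⟨g, g1, g2, g3, g4⟩ := Q S.n 0
  have h1 : ∀ i : Fin S.n, i.val + 1 < S.n → g (v i) - v i ∈ F ∙ v S.i0 := fun i hi => by
    have : g (v i) - v i ∈ Fl F v 1 := (k2 _ _).2 fun j hj => by
      rcases le_or_gt i j with h | h
      · exact tri _ g2 _ _ h
      · rw [co _ _ _ h.ne]
        exact g4 j i hj h hi (.inl (by omega))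
    refine Submodule.span_mono ?_ this
    rintro _ ⟨j, hj, rfl⟩
    have hj' : j.val < 1 := hj
    exact congrArg v (Fin.ext (show j.val = 0 by omega))
  have hp : HypPair S.B (v S.i0) (v S.i0.rev) := by
    have : S.i0 ≠ S.i0.rev := fun e => by
      have : 0 = S.n - (0 + 1) := congrArg Fin.val e
      omega
    refine ⟨?_, ?_, ?_⟩
    · rw [hv, if_neg this]
    · exact hv' _ _ this
    · rw [hv, if_pos rfl]
  have hu : g ∈ uniRad S.B (v S.i0) := by
    refine ⟨hK g1, sub_eq_zero.1 (zero _ fun j => tri _ g2 _ _ (Nat.zero_le _)), fun x hx => ?_⟩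
    have : g x - x ∈ F ∙ v S.i0 := by
      rw [k1 x, map_sum, ← Finset.sum_sub_distrib]
      refine Submodule.sum_mem _ fun i _ => ?_
      by_cases hi : i.val + 1 < S.n
      · rw [map_smul, ← smul_sub]
        exact Submodule.smul_mem _ _ (h1 i hi)
      · have : i.rev = S.i0 := Fin.ext (by show S.n - (i.val + 1) = 0; omega)
        rw [this, hx, zero_smul, map_zero, sub_zero]
        exact zero_mem _
    obtain ⟨a, ha⟩ := Submodule.mem_span_singleton.1 this
    exact ⟨a, by rw [ha, add_sub_cancel]⟩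
  obtain ⟨w, c, w1, -, w2⟩ := S.herm.toIsHermSymm.exists_isEich_of_mem hp hu
  have h2 : S.B (v S.i0) (v S.i1) = 0 := by
    rw [hv, if_neg]
    intro e
    have : 1 = S.n - (0 + 1) := congrArg Fin.val e
    omega
  apply g3
  rw [← co _ _ _ i01.ne, w2.apply_of_perp h2, bad w ⟨w1, c, g, g1, w2⟩, zero_smul, sub_zero,
    sub_self, map_zero]

end Cfsg.Agent.H9.RuExt
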