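import Cfsg.Agent.H58.SWDefs

/-! Project SW (S3694): the pieces Circ and Q88. -/

set_option autoImplicit false
open Matrix Cfsg
open scoped commutatorElement

namespace Cfsg.Agent.H9.SwQ88
open Cfsg.Agent.H58.SW

theorem two_ne {F : Type} [Field F] [Fintype F] {n : ℕ} (c : Cl F n) (h : c.p ≠ 2) :
    (2 : F) ≠ 0 := fun e => by
  haveI := c.chr
  have : c.p ∣ 2 := (CharP.cast_eq_zero_iff F c.p 2).1 (by exact_mod_cast e)
  exact h ((Nat.prime_dvd_prime_iff_eq c.hp Nat.prime_two).1 this)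

theorem exists_t {F : Type} [Field F] [Fintype F] (F0 : Subfield F) (h : 9 < Nat.card F0) (k : F) :
    ∃ t ∈ F0, t ≠ 0 ∧ 1 - k * t ^ 2 ≠ 0 ∧ 1 + k * t ^ 2 ≠ 0 ∧
      (1 + k * t ^ 2) ^ 2 + 4 * k * t ^ 2 ≠ 0 := by
  classical
  open Polynomial in
  let f : F[X] := X * ((1 - C k * X ^ 2) * (1 + C k * X ^ 2) *
    ((1 + C k * X ^ 2) ^ 2 + C (4 * k) * X ^ 2))
  have hf : f ≠ 0 := by
    refine mul_ne_zero Polynomial.X_ne_zero fun e => ?_
    have := congrArg (Polynomial.eval 0) e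
    simp at this
  have hd : f.natDegree ≤ 9 := by
    simp only [f]
    compute_degree
  by_contra hn
  refine hf (Polynomial.eq_zero_of_natDegree_lt_card_of_eval_eq_zero' f
    (Finset.univ.filter fun t => t ∈ F0) (fun t ht => ?_) ?_)
  · by_contra h0
    simp only [f, Polynomial.eval_mul, Polynomial.eval_add, Polynomial.eval_sub, Polynomial.eval_pow,
      Polynomial.eval_X, Polynomial.eval_C, Polynomial.eval_one, mul_eq_zero, not_or] at h0
    exact hn ⟨t, (Finset.mem_filter.1 ht).2, h0.1, h0.2.1.1, h0.2.1.2, h0.2.2⟩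
  · rw [Nat.card_eq_fintype_card, Fintype.card_subtype] at h
    omega

theorem circ : CircStmt := by
  intro F _ _ _ n c hp F0 x k y hF hk hk0 hx hy
  have h2 := two_ne c hp
  obtain ⟨t, ht, t0, t1, t2, t3⟩ := exists_t F0 hF k
  haveI : Nonempty (Fin n) := ⟨⟨0, by have := c.hn; omega⟩⟩
  set a := (1 + k * t ^ 2) / (1 - k * t ^ 2) with ha
  set b := 2 * t / (1 - k * t ^ 2) with hb
  have hab : a ^ 2 - k * b ^ 2 = 1 := by rw [ha, hb]; field_simp; ring
  have mul : ∀ a b a' b' : F, (a • (1 : Mt n F) + b • x) * (a' • (1 : Mt n F) + b' • x) =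
      (a * a' + k * (b * b')) • (1 : Mt n F) + (a * b' + b * a') • x := by
    intro a b a' b'
    simp only [add_mul, mul_add, smul_mul_assoc, mul_smul_comm, one_mul, mul_one, hx]
    module
  have cjy : ∀ a b : F, cj y (a • (1 : Mt n F) + b • x) = a • (1 : Mt n F) + (-b) • x := by
    intro a b
    have : cj y (a • (1 : Mt n F) + b • x) = a • (1 : Mt n F) + b • cj y x := by
      simp only [cj, add_mul, mul_add, smul_mul_assoc, mul_smul_comm, mul_one, Units.mul_inv]
    rw [this, hy]; module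
  have i1 : (a • (1 : Mt n F) + b • x) * (a • (1 : Mt n F) + (-b) • x) = 1 := by
    rw [mul, show a * a + k * (b * -b) = 1 by linear_combination hab,
      show a * -b + b * a = 0 by ring]; simp
  have i2 : (a • (1 : Mt n F) + (-b) • x) * (a • (1 : Mt n F) + b • x) = 1 := by
    rw [mul, show a * a + k * (-b * b) = 1 by linear_combination hab,
      show a * b + -b * a = 0 by ring]; simp
  have hF2 : (2 : F) ∈ F0 := by exact_mod_cast natCast_mem F0 2
  have hkt : k * t ^ 2 ∈ F0 := mul_mem hk (pow_mem ht 2)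
  refine ⟨a, div_mem (add_mem (one_mem _) hkt) (sub_mem (one_mem _) hkt), b,
    div_mem (mul_mem hF2 ht) (sub_mem (one_mem _) hkt), hab, ⟨_, _, i1, i2⟩, rfl, ?_, ?_⟩
  · have e1 : (a • (1 : Mt n F) + b • x) * ((1 : F) • (1 : Mt n F) + (-t) • x) =
        (1 : F) • (1 : Mt n F) + t • x := by
      rw [mul]; congr 2 <;> (rw [ha, hb]; field_simp; ring)
    have e2 : ((1 : F) • (1 : Mt n F) + (-t) • x).det = ((1 : F) • (1 : Mt n F) + t • x).det := by
      rw [← cjy, cj, det_units_conj]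
    have e3 : ((1 : F) • (1 : Mt n F) + t • x).det ≠ 0 := by
      intro e
      have := congrArg det (mul 1 t 1 (-t))
      rw [det_mul, e, zero_mul, show 1 * -t + t * 1 = 0 by ring, zero_smul, add_zero, det_smul,
        det_one, mul_one] at this
      exact t1 (by linear_combination pow_eq_zero_iff Fintype.card_ne_zero |>.1 this.symm)
    have := congrArg det e1
    rw [det_mul, e2] at this
    exact mul_right_cancel₀ e3 (this.trans (one_mul _).symm)
  · intro A hA hyA hg
    set g : Gl n F := ⟨_, _, i1, i2⟩ with hgd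
    have hw := (hA.pw _ (mul_mem hg (inv_mem hyA))).2
    have e1 : ((g * y * g⁻¹ * y⁻¹ : Gl n F) : Mt n F) =
        (a * a + k * (b * b)) • (1 : Mt n F) + (a * b + b * a) • x := by
      have := cjy a (-b)
      rw [neg_neg, cj] at this
      rw [← mul, mul_assoc g, mul_assoc g, Units.val_mul, Units.val_mul, Units.val_mul]
      exact congrArg _ this
    have e2 : cj y (((g * y * g⁻¹ * y⁻¹) ^ 2 : Gl n F) : Mt n F) =
        (((g * y * g⁻¹ * y⁻¹) ^ 2 : Gl n F) : Mt n F) := by
      rw [cj, ← Units.val_mul, ← Units.val_mul, Subgroup.mem_center_iff.1 hw y,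
        mul_inv_cancel_right]
    rw [pow_two, Units.val_mul, e1, mul, cjy, add_right_inj, neg_smul, neg_eq_iff_add_eq_zero,
      ← add_smul, smul_eq_zero] at e2
    have ha0 : a ≠ 0 := div_ne_zero t2 t1
    have hb0 : b ≠ 0 := div_ne_zero (mul_ne_zero h2 t0) t1
    have hal : a * a + k * (b * b) ≠ 0 := by
      have : a * a + k * (b * b) = ((1 + k * t ^ 2) ^ 2 + 4 * k * t ^ 2) / (1 - k * t ^ 2) ^ 2 := by
        rw [ha, hb]; field_simp; ring
      rw [this]; exact div_ne_zero t3 (pow_ne_zero _ t1)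
    rcases e2 with e2 | e2
    · refine mul_ne_zero (pow_ne_zero 3 h2) (mul_ne_zero hal (mul_ne_zero ha0 hb0)) ?_
      linear_combination e2
    · rw [e2, mul_zero, eq_comm, smul_eq_zero] at hx
      exact hx.elim hk0 one_ne_zero

theorem card_le {G : Type*} [Group G] [Finite G] (X : Subgroup G) (a : G) (S : Finset G)
    (h : ∀ g ∈ X, g * a * g⁻¹ ∈ S) :
    Nat.card X ≤ S.card * Nat.card (X ⊓ Subgroup.centralizer {a} : Subgroup G) := by
  set C := Subgroup.centralizer ({a} : Set G)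
  have h1 := (C.subgroupOf X).card_mul_index
  have h2 : Nat.card (C.subgroupOf X) = Nat.card (X ⊓ C : Subgroup G) := by
    rw [← Subgroup.inf_subgroupOf_left]
    exact Nat.card_congr (Subgroup.subgroupOfEquivOfLe inf_le_left).toEquiv
  have h3 : (C.subgroupOf X).index ≤ S.card := by
    rw [Subgroup.index, ← Nat.card_eq_finsetCard]
    refine Nat.card_le_card_of_injective
      (fun q : X ⧸ C.subgroupOf X => (⟨q.out.1 * a * q.out.1⁻¹, h _ q.out.2⟩ : S)) fun q q' e => ?_
    have e' : q.out.1 * a * q.out.1⁻¹ = q'.out.1 * a * q'.out.1⁻¹ := congrArg Subtype.val e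
    rw [← q.out_eq', ← q'.out_eq', QuotientGroup.eq, Subgroup.mem_subgroupOf,
      Subgroup.mem_centralizer_singleton_iff]
    change q.out.1⁻¹ * q'.out.1 * a = a * (q.out.1⁻¹ * q'.out.1)
    calc q.out.1⁻¹ * q'.out.1 * a = q.out.1⁻¹ * (q'.out.1 * a * q'.out.1⁻¹) * q'.out.1 := by group
      _ = _ := by rw [← e']; group
  rw [← h1, h2, mul_comm]
  exact Nat.mul_le_mul_right _ h3

section
variable {F : Type} [Field F] [Fintype F] [DecidableEq F] {n : ℕ} {c : Cl F n}

theorem zpm (ka : KA c) {z : Gl n F} (hz : z ∈ c.Z) (h : z * z = 1) : z = 1 ∨ z = -1 := by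
  haveI : Nonempty (Fin n) := ⟨⟨0, by have := c.hn; omega⟩⟩
  obtain ⟨a, -, e⟩ := (ka.mem_Z z).1 hz
  have h1 := congrArg Units.val h
  rw [Units.val_mul, e, smul_mul_assoc, one_mul, smul_smul, Units.val_one] at h1
  have h2 : a * a = 1 := by
    have : (a * a - 1) • (1 : Mt n F) = 0 := by rw [sub_smul, h1, one_smul, sub_self]
    exact sub_eq_zero.1 ((smul_eq_zero.1 this).resolve_right one_ne_zero)
  rcases mul_self_eq_one_iff.1 h2 with rfl | rfl
  · exact Or.inl (Units.ext (by rw [e, one_smul, Units.val_one]))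
  · exact Or.inr (Units.ext (by rw [e, neg_smul, one_smul, Units.val_neg, Units.val_one]))

theorem step (ka : KA c) {A : Subgroup (Gl n F)} (hA : Ndg c 2 A) (h4 : c.Z.relIndex A = 4)
    (X : Subgroup (Gl n F)) (hX : ∀ g ∈ X, ∀ a ∈ A, g * a * g⁻¹ ∈ A) {a : Gl n F} (ha : a ∈ A) :
    Nat.card X ≤ 8 * Nat.card (X ⊓ Subgroup.centralizer {a} : Subgroup (Gl n F)) := by
  classical
  let S : Finset A := Finset.univ.filter fun b => b.1 * b.1 = a * a
  have hS : S.card ≤ 8 := by
    let f : A → A ⧸ c.Z.subgroupOf A := QuotientGroup.mk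
    haveI : Fintype (A ⧸ c.Z.subgroupOf A) := Fintype.ofFinite _
    have h1 := Finset.card_le_mul_card_image (f := f) S 2 fun β hβ => by
      obtain ⟨b, hb, rfl⟩ := Finset.mem_image.1 hβ
      rw [← Finset.card_image_of_injective _ Subtype.val_injective]
      refine (Finset.card_le_card (t := {b.1, -b.1}) fun x hx => ?_).trans Finset.card_le_two
      obtain ⟨b', hb', rfl⟩ := Finset.mem_image.1 hx
      obtain ⟨h2, h3⟩ := Finset.mem_filter.1 hb'
      have h5 : b.1⁻¹ * b'.1 ∈ c.Z := (QuotientGroup.eq (s := c.Z.subgroupOf A)).1 h3.symm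
      have h6 : b'.1 * b'.1 = b.1 * b.1 :=
        (Finset.mem_filter.1 h2).2.trans (Finset.mem_filter.1 hb).2.symm
      have h7 : b.1⁻¹ * b'.1 * (b.1⁻¹ * b'.1) = 1 := by
        rw [← mul_assoc, (ka.zcomm _ h5 _).eq]
        calc b.1⁻¹ * (b.1⁻¹ * b'.1) * b'.1 = b.1⁻¹ * b.1⁻¹ * (b'.1 * b'.1) := by group
          _ = 1 := by rw [h6]; group
      rcases zpm ka h5 h7 with e | e
      · rw [inv_mul_eq_one] at e; simp [e]
      · rw [inv_mul_eq_iff_eq_mul] at e; simp [e]
    have h2 := Finset.card_le_univ (S.image f)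
    rw [← Nat.card_eq_fintype_card] at h2
    have h3 : Nat.card (A ⧸ c.Z.subgroupOf A) = 4 := h4
    omega
  refine (card_le X a (S.image Subtype.val) fun g hg => ?_).trans
    (Nat.mul_le_mul_right _ (Finset.card_image_le.trans hS))
  refine Finset.mem_image.2 ⟨⟨_, hX g hg a ha⟩, Finset.mem_filter.2 ⟨Finset.mem_univ _, ?_⟩, rfl⟩
  have := (ka.zcomm _ (hA.pw a ha) g).eq
  rw [pow_two] at this
  calc g * a * g⁻¹ * (g * a * g⁻¹) = g * (a * a) * g⁻¹ := by group
    _ = a * a := by rw [← this, mul_inv_cancel_right]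

theorem step2 (ka : KA c) {A : Subgroup (Gl n F)} (hA : Ndg c 2 A) (h4 : c.Z.relIndex A = 4)
    (X : Subgroup (Gl n F)) (hX : ∀ g ∈ X, ∀ a ∈ A, g * a * g⁻¹ ∈ A) :
    Nat.card X ≤ 64 * Nat.card (X ⊓ Subgroup.centralizer A : Subgroup (Gl n F)) := by
  obtain ⟨x, hx, hxz⟩ := SetLike.exists_of_lt hA.zlt
  obtain ⟨y, hy, hxy⟩ := hA.nd x hx hxz
  have h1 := step ka hA h4 X hX hx
  have h2 := step ka hA h4 (X ⊓ Subgroup.centralizer {x}) (fun g hg => hX g hg.1) hy
  have h3 : X ⊓ Subgroup.centralizer {x} ⊓ Subgroup.centralizer {y} ≤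
      X ⊓ Subgroup.centralizer A := by
    intro g hg
    refine ⟨hg.1.1, ?_⟩
    have hzc : ∀ w : Gl n F, c.Z ≤ Subgroup.centralizer {w} := fun w z hz =>
      Subgroup.mem_centralizer_singleton_iff.2 (ka.zcomm z hz w).eq
    set B := A ⊓ Subgroup.centralizer {g}
    have hxB : x ∈ B := ⟨hx, Subgroup.mem_centralizer_singleton_iff.2
      (Subgroup.mem_centralizer_singleton_iff.1 hg.1.2).symm⟩
    have hyB : y ∈ B := ⟨hy, Subgroup.mem_centralizer_singleton_iff.2
      (Subgroup.mem_centralizer_singleton_iff.1 hg.2).symm⟩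
    have z1 : c.Z ≤ B ⊓ Subgroup.centralizer {x} := le_inf (le_inf hA.zlt.le (hzc g)) (hzc x)
    have e1 := Subgroup.relIndex_mul_relIndex _ _ B z1 inf_le_left
    have e2 := Subgroup.relIndex_mul_relIndex _ B A (z1.trans inf_le_left) inf_le_left
    have n1 : c.Z.relIndex (B ⊓ Subgroup.centralizer {x}) ≠ 1 := fun e =>
      hxz (Subgroup.relIndex_eq_one.1 e ⟨hxB, Subgroup.mem_centralizer_singleton_iff.2 rfl⟩)
    have n2 : (B ⊓ Subgroup.centralizer {x}).relIndex B ≠ 1 := fun e =>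
      hxy (Subgroup.mem_centralizer_singleton_iff.1 (Subgroup.relIndex_eq_one.1 e hyB).2).symm
    rw [← e1, h4] at e2
    have n3 : B.relIndex A = 1 := by
      generalize c.Z.relIndex (B ⊓ Subgroup.centralizer {x}) = i at *
      generalize (B ⊓ Subgroup.centralizer {x}).relIndex B = j at *
      generalize B.relIndex A = l at *
      have hi : i ≤ 4 := Nat.le_of_dvd (by norm_num) ⟨j * l, by rw [← e2, mul_assoc]⟩
      have hj : j ≤ 4 := Nat.le_of_dvd (by norm_num) ⟨i * l, by rw [← e2]; ring⟩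
      interval_cases i <;> interval_cases j <;> omega
    intro a ha
    exact Subgroup.mem_centralizer_singleton_iff.1 (Subgroup.relIndex_eq_one.1 n3 ha).2
  have h5 := Subgroup.card_le_of_le h3
  omega

end

theorem q88 (hKA : KAStmt) (hKT : KTStmt) (hO : OrdStmt) (hC : CentStmt) (hM : MinStmt)
    (hE : Ext2Stmt) : Q88Stmt := by
  intro F _ _ _ n c r H Q hL hp hr A P hA hA' hP hP' a4 p4 ⟨x, hxA, hx2, hxz⟩
  subst hr
  have ka := hKA F n c
  have kt := hKT F n c
  obtain ⟨y', hy', hyz'⟩ := SetLike.exists_of_lt hP.zlt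
  have hq : c.q ≤ 9 := by
    by_contra hq
    obtain ⟨F0, hF0, hF1⟩ : ∃ F0 : Subfield F, Nat.card F0 = c.q ∧
        (c.u = true → ∀ a ∈ F0, a ^ c.q = a) := by
      by_cases hu : c.u = true
      · obtain ⟨F0, h1, h2⟩ := ka.fx hu
        exact ⟨F0, h1, fun _ a ha => (h2 a).1 ha⟩
      · refine ⟨⊤, ?_, fun h => absurd h hu⟩
        rw [Nat.card_congr Subfield.topEquiv.toEquiv, Nat.card_eq_fintype_card, c.hq, if_neg hu]
    obtain ⟨y, hyA, hxy⟩ := hA'.nd x hxA hxz
    have hx2' : (x : Mt n F) * x = (-1 : F) • (1 : Mt n F) := by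
      rw [← Units.val_mul, ← pow_two, hx2, neg_smul, one_smul]
    have hcj : cj y (x : Mt n F) = -x := by
      have h1 := (hE F n c 2 A Nat.prime_two hA').2.2.1 y hyA x hxA
      rw [pow_two] at h1
      rcases zpm ka (hA'.cm y hyA x hxA) h1 with e | e
      · exact absurd (commutatorElement_eq_one_iff_commute.1 e).symm hxy
      · rw [commutatorElement_def, mul_inv_eq_iff_eq_mul] at e
        rw [cj, ← Units.val_mul, ← Units.val_mul, e]; simp
    obtain ⟨a, ha, b, hb, hab, g, hg, hdet, hgA⟩ := circ F n c (Ne.symm hp) F0 x (-1) y (by omega)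
      (neg_mem (one_mem _)) (neg_ne_zero.2 one_ne_zero) hx2' hcj
    have hgS : g ∈ c.S := by
      refine (ka.mem_S g).2 ⟨(ka.mem_St g).2 fun hu => ?_, hdet⟩
      have h1 := (ka.mem_St x).1 (hA'.le hxA) hu
      have h2 : c.st x = -x := by
        have := congrArg (· * (x : Mt n F)) h1
        simp only [mul_assoc, hx2', one_mul, neg_smul, one_smul, mul_neg, mul_one] at this
        exact neg_eq_iff_eq_neg.1 this
      rw [hg, ka.st_add hu, ka.st_smul, ka.st_smul, ka.st_one, h2, hF1 hu a ha, hF1 hu b hb]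
      simp only [add_mul, mul_add, smul_mul_assoc, mul_smul_comm, one_mul, mul_one, neg_mul, hx2']
      have e : (a ^ 2 - -1 * b ^ 2) • (1 : Mt n F) = 1 := by rw [hab, one_smul]
      refine Eq.trans ?_ e
      module
    have hgH := (hC F n c 2 H Q hL _ (kt.span H P hP.inv) ⟨y', Submodule.subset_span ⟨y', hy', rfl⟩, by
      rintro ⟨s, hs⟩
      obtain ⟨w, -, hw⟩ := hP'.nd y' hy' hyz'
      refine hw (Units.ext ?_)
      rw [Units.val_mul, Units.val_mul, hs, smul_mul_assoc, mul_smul_comm, one_mul, mul_one]⟩).1 g hgS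
      fun w hw => by
        induction hw using Submodule.span_induction with
        | mem w hw =>
          obtain ⟨v, hv, rfl⟩ := hw
          have : Commute (x : Mt n F) (v : Mt n F) :=
            congrArg Units.val (((hP.mem v).1 hv).2.2.2 x hxA).symm.eq
          rw [hg]
          exact ((Commute.one_left _).smul_left a).add_left (this.smul_left b)
        | zero => exact Commute.zero_right _
        | add u v _ _ hu hv => exact hu.add_right hv
        | smul s u _ hu => exact hu.smul_right s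
    exact hgA A hA' hyA (kt.hatG H A hA.inv g hgH y hyA)
  refine (hO F n c).2.2.2.2 H hL.std hq ?_
  have h1 := step2 ka hA' a4 (c.hat H) (kt.hatG H A hA.inv)
  have h2 := step2 ka hP' p4 (c.hat H ⊓ Subgroup.centralizer A)
    fun g hg => kt.hatG H P hP.inv g hg.1
  set C0 := c.hat H ⊓ Subgroup.centralizer A ⊓ Subgroup.centralizer P with hC0
  have cinv : ∀ B : Subgroup (Gl n F), InvG H B → InvG H (Subgroup.centralizer B) := by
    intro B hB ψ hψ g hg a ha
    have := congrArg ψ (hg _ (hB _ (inv_mem hψ) a ha))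
    simpa using this
  have hinv : InvG H C0 := fun ψ hψ g hg =>
    ⟨⟨kt.hatinv H hL.std ψ hψ g hg.1.1, cinv A hA.inv ψ hψ g hg.1.2⟩, cinv P hP.inv ψ hψ g hg.2⟩
  have hz : c.Z ≤ C0 := fun z hz =>
    ⟨⟨ka.z_hat H hz, fun a _ => (ka.zcomm z hz a).symm.eq⟩, fun a _ => (ka.zcomm z hz a).symm.eq⟩
  have hQ : Q ⊓ C0 ≤ c.Z := by
    by_contra hn
    obtain ⟨B, hB, hB'⟩ := hM F n c 2 H Q hL (Q ⊓ C0)
      (lt_of_le_not_ge (le_inf hL.zq hz) hn) inf_le_left
      fun ψ hψ g hg => ⟨hL.inv ψ hψ g hg.1, hinv ψ hψ g hg.2⟩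
    obtain ⟨v, hv, hvz⟩ := SetLike.exists_of_lt hB'.zlt
    have hvP : v ∈ P := (hP.mem v).2 ⟨hB'.le hv, hB'.pw v hv, hB'.cen v hv,
      fun a ha => ((hB hv).2.1.2 a ha).symm⟩
    obtain ⟨w, hw, hvw⟩ := hP'.nd v hvP hvz
    exact hvw ((hB hv).2.2 w hw).symm
  have hC : C0 ≤ c.Z := fun t ht => hQ ⟨hL.chr C0 (inf_le_left.trans inf_le_left) hinv t ht
    fun w hw => by
      rw [sup_eq_left.2 hz] at hw
      rw [commutatorElement_eq_one_iff_commute.2 (ka.zcomm w (hQ hw) t).symm]
      exact one_mem _, ht⟩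
  have h3 := Subgroup.card_le_of_le hC
  rw [ka.card_Z] at h3
  omega

end Cfsg.Agent.H9.SwQ88
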